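import Mathlib

/-!
A primitive permutation group not containing the alternating group has minimal degree `m` with
`n - 1 ≤ 3 m ^ 2` (Babai's distinguishing argument; commutator argument for one orbit on pairs).
-/

set_option autoImplicit false

namespace CfsgLib.MinDegree

open Finset
open scoped Classical

variable {Ω : Type*} [Fintype Ω] {H : Subgroup (Equiv.Perm Ω)}

theorem isThreeCycle_commutator {g g' : Equiv.Perm Ω} {x : Ω} (h : g x ≠ x) (h' : g' x ≠ x)
    (hd : ∀ w, g w ≠ w → g' w ≠ w → w = x) : Equiv.Perm.IsThreeCycle (g * g' * g⁻¹ * g'⁻¹) := by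
  have fixg' : ∀ w, g w ≠ w → w ≠ x → g' w = w := fun w hw hne => by
    by_contra hc; exact hne (hd w hw hc)
  have fixg : ∀ w, g' w ≠ w → w ≠ x → g w = w := fun w hw hne => by
    by_contra hc; exact hne (hd w hc hw)
  have ha : g (g x) ≠ g x := fun e => h (g.injective e)
  have hb : g' (g' x) ≠ g' x := fun e => h' (g'.injective e)
  have hab : g x ≠ g' x := fun e => h (hd _ ha (e ▸ hb))
  have key : g * g' * g⁻¹ * g'⁻¹ = Equiv.swap (g x) x * Equiv.swap (g x) (g' x) := by
    refine Equiv.ext fun w => ?_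
    obtain ⟨v, rfl⟩ := g'.surjective w
    obtain ⟨u, rfl⟩ := g.surjective v
    simp only [Equiv.Perm.mul_apply, Equiv.Perm.inv_def, Equiv.symm_apply_apply]
    by_cases hx : g' (g u) = x
    · have hm : g' (g u) ≠ g u := fun e => by rw [hx] at e; rw [← e] at hx; exact h' hx
      have hne : g u ≠ x := fun e => by rw [e] at hx; exact h' hx
      have hu : u = g u := by
        have := fixg _ hm hne
        exact g.injective this.symm
      rw [← hu] at hx ⊢
      rw [hx, Equiv.swap_apply_of_ne_of_ne (Ne.symm h) (Ne.symm h'), Equiv.swap_apply_right]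
    by_cases hux : u = x
    · subst hux
      have e1 : g' (g u) = g u := fixg' _ ha h
      rw [e1, fixg _ hb h', Equiv.swap_apply_left, Equiv.swap_apply_of_ne_of_ne (Ne.symm hab) h']
    by_cases hgu : g u = x
    · have e1 : g' u = u := fixg' u (by rw [hgu]; exact Ne.symm hux) hux
      rw [hgu, e1, hgu, Equiv.swap_apply_right, Equiv.swap_apply_left]
    have e2 : g' (g u) ≠ g' x := fun e => hgu (g'.injective e)
    by_cases hm : g u = u
    · rw [hm] at e2 hx ⊢
      by_cases hm' : g' u = u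
      · have h2 : u ≠ g x := fun e => hux (g.injective (hm.trans e))
        rw [hm'] at e2
        rw [hm', hm, Equiv.swap_apply_of_ne_of_ne h2 e2, Equiv.swap_apply_of_ne_of_ne h2 hux]
      · have h1 : g (g' u) = g' u := fixg _ (fun e => hm' (g'.injective e)) hx
        have h2 : g' u ≠ g x := fun e => hx (g.injective (h1.trans e))
        rw [h1, Equiv.swap_apply_of_ne_of_ne h2 e2, Equiv.swap_apply_of_ne_of_ne h2 hx]
    · have e1 : g' u = u := fixg' u hm hux
      have e3 : g' (g u) = g u := fixg' _ (fun e => hm (g.injective e)) hgu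
      rw [e3] at e2 ⊢
      rw [e1]
      have h2 : g u ≠ g x := fun e => hux (g.injective e)
      rw [Equiv.swap_apply_of_ne_of_ne h2 e2, Equiv.swap_apply_of_ne_of_ne h2 hgu]
  rw [key]
  exact Equiv.Perm.isThreeCycle_swap_mul_swap_same h hab (Ne.symm h')

/-- The orbit of an unordered pair, as a set of ordered pairs. -/
def col (H : Subgroup (Equiv.Perm Ω)) (u w : Ω) : Set (Ω × Ω) :=
  {p | ∃ h ∈ H, (h u, h w) = p ∨ (h w, h u) = p}

omit [Fintype Ω] in
theorem col_smul {h : Equiv.Perm Ω} (hh : h ∈ H) (u w : Ω) : col H (h u) (h w) = col H u w := by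
  ext p
  constructor
  · rintro ⟨k, hk, e⟩
    exact ⟨k * h, H.mul_mem hk hh, e⟩
  · rintro ⟨k, hk, e⟩
    refine ⟨k * h⁻¹, H.mul_mem hk (H.inv_mem hh), ?_⟩
    simpa using e

omit [Fintype Ω] in
theorem col_comm (u w : Ω) : col H u w = col H w u := by
  ext p
  constructor <;> rintro ⟨k, hk, e⟩ <;> exact ⟨k, hk, e.symm⟩

omit [Fintype Ω] in
theorem exists_of_col_eq {u w u' w' : Ω} (he : col H u w = col H u' w') :
    ∃ h ∈ H, (h u = u' ∧ h w = w') ∨ (h w = u' ∧ h u = w') := by
  have hm : (u', w') ∈ col H u' w' := ⟨1, H.one_mem, Or.inl rfl⟩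
  rw [← he] at hm
  obtain ⟨k, hk, e | e⟩ := hm
  · exact ⟨k, hk, Or.inl ⟨congrArg Prod.fst e, congrArg Prod.snd e⟩⟩
  · exact ⟨k, hk, Or.inr ⟨congrArg Prod.fst e, congrArg Prod.snd e⟩⟩

/-- The number of points distinguishing `u` from `v`. -/
noncomputable def dis (H : Subgroup (Equiv.Perm Ω)) (u v : Ω) : ℕ :=
  Nat.card {w : Ω // col H u w ≠ col H v w}

theorem dis_comm (u v : Ω) : dis H u v = dis H v u := Nat.card_congr (Equiv.subtypeEquivRight fun _ => ne_comm)

theorem dis_eq (u v : Ω) :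
    dis H u v = #{w : Ω | col H u w ≠ col H v w} := by
  rw [dis, Nat.card_eq_fintype_card, Fintype.card_subtype]

theorem dis_smul {h : Equiv.Perm Ω} (hh : h ∈ H) (u v : Ω) : dis H (h u) (h v) = dis H u v := by
  refine (Nat.card_congr (h.subtypeEquiv fun w => ?_)).symm
  rw [col_smul hh, col_smul hh]

theorem dis_congr {u v u' v' : Ω} (he : col H u v = col H u' v') : dis H u v = dis H u' v' := by
  obtain ⟨h, hh, ⟨rfl, rfl⟩ | ⟨rfl, rfl⟩⟩ := exists_of_col_eq he
  · exact (dis_smul hh u v).symm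
  · rw [dis_smul hh, dis_comm]

theorem dis_triangle (u v w : Ω) : dis H u w ≤ dis H u v + dis H v w := by
  rw [dis_eq, dis_eq, dis_eq]
  refine (card_le_card fun z hz => ?_).trans (card_union_le _ _)
  simp only [mem_filter, mem_univ, true_and, mem_union] at hz ⊢
  by_contra hc
  push Not at hc
  exact hz (hc.1.trans hc.2)

theorem dis_le_moved {g : Equiv.Perm Ω} (hg : g ∈ H) (u : Ω) : dis H u (g u) ≤ Nat.card {w : Ω // g w ≠ w} := by
  refine Nat.card_le_card_of_injective (fun w => ⟨w.1, fun e => w.2 ?_⟩) fun a b hab => Subtype.ext (congrArg Subtype.val hab :)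
  conv_rhs => rw [← e, col_smul hg]

variable (hH : MulAction.IsPreprimitive H Ω)

include hH

theorem exists_map (u v : Ω) : ∃ h ∈ H, h u = v := by
  haveI := hH.toIsPretransitive
  obtain ⟨h, e⟩ := MulAction.exists_smul_eq H u v
  exact ⟨h, h.2, e⟩

/-- The orbital graph of a colour. -/
def graph (H : Subgroup (Equiv.Perm Ω)) (u v : Ω) : SimpleGraph Ω where
  Adj x y := x ≠ y ∧ col H x y = col H u v
  symm := ⟨fun x y hxy => ⟨hxy.1.symm, by rw [col_comm]; exact hxy.2⟩⟩
  loopless := ⟨fun x hx => hx.1 rfl⟩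

omit hH in
theorem graph_adj_smul {h : Equiv.Perm Ω} (hh : h ∈ H) {u v x y : Ω} :
    (graph H u v).Adj (h x) (h y) ↔ (graph H u v).Adj x y := by
  simp [graph, col_smul hh]

theorem graph_connected {u v : Ω} (huv : u ≠ v) : (graph H u v).Connected := by
  have : Nonempty Ω := ⟨u⟩
  refine ⟨fun x y => ?_⟩
  suffices hall : ∀ z, (graph H u v).Reachable u z from (hall x).symm.trans (hall y)
  set B : Set Ω := {z | (graph H u v).Reachable u z} with hB
  have hblock : MulAction.IsBlock H B := by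
    refine MulAction.isBlock_iff_smul_eq_of_nonempty.2 fun {h} hne => ?_
    have hmap : ∀ (k : H) {a b : Ω}, (graph H u v).Reachable a b → (graph H u v).Reachable (k • a) (k • b) := by
      intro k a b hab
      exact hab.map (⟨fun z => k • z, fun {a b} hadj => (graph_adj_smul k.2).2 hadj⟩ : graph H u v →g graph H u v)
    obtain ⟨z, ⟨w, hw, rfl⟩, hz⟩ := hne
    ext y
    constructor
    · rintro ⟨a, ha, rfl⟩
      exact hz.trans (hmap h (hw.symm.trans ha))
    · intro hy
      refine ⟨h⁻¹ • y, ?_, smul_inv_smul h y⟩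
      have := hmap h⁻¹ (hz.symm.trans hy)
      rw [inv_smul_smul] at this
      exact hw.trans this
  have hu : u ∈ B := SimpleGraph.Reachable.refl _
  have hv : v ∈ B := SimpleGraph.Adj.reachable ⟨huv, rfl⟩
  rcases hH.isTrivialBlock_of_isBlock hblock with hs | hs
  · exact absurd (hs hu hv) huv
  · intro z
    have : z ∈ B := hs ▸ Set.mem_univ z
    exact this

/-- Each vertex of an orbital graph sees many distinguished pairs. -/
theorem two_mul_le {u v : Ω} (huv : u ≠ v) :
    2 * (Fintype.card Ω - 1) ≤ #{x : Ω | (graph H u v).Adj u x} * dis H u v := by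
  set Γ := graph H u v with hΓ
  have hc := graph_connected hH huv
  set P : Finset (Ω × Ω) := {p | Γ.Adj p.1 p.2} with hP
  have hinv : ∀ h ∈ H, ∀ a b, Γ.dist (h a) (h b) = Γ.dist a b := by
    have hle : ∀ h ∈ H, ∀ a b, Γ.dist (h a) (h b) ≤ Γ.dist a b := by
      intro h hh a b
      obtain ⟨p, hp⟩ := hc.exists_walk_length_eq_dist a b
      have := SimpleGraph.dist_le (p.map (⟨h, fun {a b} hadj => (graph_adj_smul hh).2 hadj⟩ : Γ →g Γ))
      rwa [SimpleGraph.Walk.length_map, hp] at this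
    intro h hh a b
    refine le_antisymm (hle h hh a b) ?_
    have := hle h⁻¹ (H.inv_mem hh) (h a) (h b)
    simpa using this
  have hcd : ∀ a b w, col H a w = col H b w → Γ.dist a w = Γ.dist b w := by
    intro a b w he
    obtain ⟨h, hh, ⟨h1, h2⟩ | ⟨h1, h2⟩⟩ := exists_of_col_eq he
    · have := hinv h hh a w
      rw [h1, h2] at this
      exact this.symm
    · have := hinv h hh w a
      rw [h1, h2] at this
      rw [SimpleGraph.dist_comm, ← this]
  have hstep : ∀ w a, a ≠ w → ∃ b, Γ.Adj a b ∧ Γ.dist b w < Γ.dist a w := by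
    intro w a ha
    obtain ⟨p, hp⟩ := hc.exists_walk_length_eq_dist a w
    cases p with
    | nil => exact absurd rfl ha
    | @cons _ b _ hab q =>
      refine ⟨b, hab, ?_⟩
      have := SimpleGraph.dist_le q
      rw [SimpleGraph.Walk.length_cons] at hp
      simp only [hΓ] at this hp ⊢
      omega
  choose f hf using hstep
  have hlow : ∀ w : Ω, 2 * (Fintype.card Ω - 1) ≤ #{p ∈ P | col H p.1 w ≠ col H p.2 w} := by
    intro w
    set A : Finset Ω := univ.erase w with hA
    let down : A → Ω × Ω := fun a => (a.1, f w a.1 (ne_of_mem_erase a.2))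
    have hdown : Function.Injective down := fun a b e => Subtype.ext (congrArg Prod.fst e :)
    have hsub : A.attach.image down ∪ A.attach.image (Prod.swap ∘ down) ⊆ {p ∈ P | col H p.1 w ≠ col H p.2 w} := by
      intro p hp
      simp only [mem_union, mem_image, mem_attach, true_and, Function.comp] at hp
      rw [mem_filter, hP, mem_filter]
      rcases hp with ⟨a, rfl⟩ | ⟨a, rfl⟩
      · exact ⟨⟨mem_univ _, (hf w a.1 _).1⟩, fun e => (hf w a.1 _).2.ne (hcd _ _ _ e).symm⟩
      · exact ⟨⟨mem_univ _, (hf w a.1 _).1.symm⟩, fun e => (hf w a.1 _).2.ne (hcd _ _ _ e)⟩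
    have hd : Disjoint (A.attach.image down) (A.attach.image (Prod.swap ∘ down)) := by
      rw [disjoint_left]
      intro p h1 h2
      simp only [mem_image, mem_attach, true_and, Function.comp] at h1 h2
      obtain ⟨a, rfl⟩ := h1
      obtain ⟨b, hb⟩ := h2
      have e1 : f w b.1 (ne_of_mem_erase b.2) = a.1 := congrArg Prod.fst hb
      have e2 : b.1 = f w a.1 (ne_of_mem_erase a.2) := congrArg Prod.snd hb
      have l1 := (hf w a.1 (ne_of_mem_erase a.2)).2
      have l2 := (hf w b.1 (ne_of_mem_erase b.2)).2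
      rw [← e2] at l1
      rw [e1] at l2
      omega
    have := card_le_card hsub
    rw [card_union_of_disjoint hd, card_image_of_injective _ hdown,
      card_image_of_injective _ (Prod.swap_injective.comp hdown), card_attach, hA, card_erase_of_mem (mem_univ w),
      card_univ] at this
    omega
  have hPc : #P = Fintype.card Ω * #{x : Ω | Γ.Adj u x} := by
    rw [hP, card_filter, Fintype.sum_prod_type]
    simp only [← card_filter]
    rw [sum_const_nat fun a _ => ?_, card_univ]
    obtain ⟨h, hh, rfl⟩ := exists_map hH u a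
    refine card_equiv h⁻¹ fun b => ?_
    simp only [mem_filter, mem_univ, true_and]
    simpa [hΓ] using graph_adj_smul (u := u) (v := v) (x := u) (y := h⁻¹ b) hh
  have hdisP : ∀ p ∈ P, #{w : Ω | col H p.1 w ≠ col H p.2 w} = dis H u v := by
    intro p hp
    rw [← dis_eq]
    exact dis_congr (mem_filter.1 hp).2.2
  have hn : 0 < Fintype.card Ω := Fintype.card_pos_iff.2 ⟨u⟩
  refine Nat.le_of_mul_le_mul_left ?_ hn
  calc Fintype.card Ω * (2 * (Fintype.card Ω - 1))
      = ∑ w : Ω, 2 * (Fintype.card Ω - 1) := by rw [sum_const, card_univ, smul_eq_mul]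
    _ ≤ ∑ w : Ω, #{p ∈ P | col H p.1 w ≠ col H p.2 w} := sum_le_sum fun w _ => hlow w
    _ = ∑ p ∈ P, #{w : Ω | col H p.1 w ≠ col H p.2 w} := by
        simp only [card_filter]
        exact sum_comm
    _ = Fintype.card Ω * (#{x : Ω | Γ.Adj u x} * dis H u v) := by
        rw [sum_const_nat hdisP, hPc, mul_assoc]

/-- Either a small valency bound, or valency above half, plus distance two. -/
theorem valency_le {u v : Ω} (huv : u ≠ v) :
    2 * #{x : Ω | (graph H u v).Adj u x} ≤ 3 * dis H u v ∨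
      Fintype.card Ω < 2 * #{x : Ω | (graph H u v).Adj u x} + 1 := by
  set Γ := graph H u v with hΓ
  set D := dis H u v with hD
  set N : Ω → Finset Ω := fun a => {x : Ω | Γ.Adj a x} with hN
  show 2 * #(N u) ≤ _ ∨ _ < 2 * #(N u) + 1
  have hNc : ∀ a, #(N a) = #(N u) := fun a => by
    obtain ⟨h, hh, rfl⟩ := exists_map hH u a
    refine card_equiv h⁻¹ fun b => ?_
    simp only [hN, mem_filter, mem_univ, true_and]
    simpa [hΓ] using graph_adj_smul (u := u) (v := v) (x := u) (y := h⁻¹ b) hh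
  have hedge : ∀ a b, Γ.Adj a b → dis H a b = D := fun a b hab => dis_congr hab.2
  have hsd : ∀ a b : Ω, #(N a \ N b) + #(N b \ N a) ≤ dis H a b := by
    intro a b
    rw [dis_eq, ← card_union_of_disjoint disjoint_sdiff_sdiff]
    refine card_le_card fun z hz => mem_filter.2 ⟨mem_univ _, fun e => ?_⟩
    have hz2 : ¬ (Γ.Adj a z ↔ Γ.Adj b z) := by
      simp only [hN, mem_union, mem_sdiff, mem_filter, mem_univ, true_and] at hz
      tauto
    apply hz2
    have hloop : ∀ y : Ω, col H y y ≠ col H u v := fun y e' => by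
      obtain ⟨h, -, ⟨h1, h2⟩ | ⟨h1, h2⟩⟩ := exists_of_col_eq e' <;> exact huv (h1.symm.trans h2)
    constructor
    · intro hz
      refine ⟨fun hb => ?_, e ▸ hz.2⟩
      subst hb
      exact hloop b (e ▸ hz.2)
    · intro hz
      refine ⟨fun ha => ?_, e.symm ▸ hz.2⟩
      subst ha
      exact hloop a (e.symm ▸ hz.2)
  by_cases hfar : ∀ x, x ≠ u → ¬ Γ.Adj u x → ((N u) ∩ (N x)).Nonempty
  swap
  · push Not at hfar
    obtain ⟨x₀, hx₀, hx₀', hx₀e⟩ := hfar
    have hwit : ∀ z, Γ.Reachable u z → (z = u ∨ Γ.Adj u z ∨ ((N u) ∩ (N z)).Nonempty) ∨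
        ∃ a b x, Γ.Adj u a ∧ Γ.Adj a b ∧ Γ.Adj b x ∧ N u ∩ N x = ∅ := by
      intro z hz
      rw [SimpleGraph.reachable_iff_reflTransGen] at hz
      induction hz with
      | refl => exact Or.inl (Or.inl rfl)
      | @tail b c _ hbc ih =>
        rcases ih with ih | ih
        · rcases ih with rfl | hub | ⟨a, ha⟩
          · exact Or.inl (Or.inr (Or.inl hbc))
          · exact Or.inl (Or.inr (Or.inr ⟨b, by simp [hN, hub, hbc.symm]⟩))
          · by_cases hc : ((N u) ∩ (N c)).Nonempty
            · exact Or.inl (Or.inr (Or.inr hc))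
            · simp only [hN, mem_inter, mem_filter, mem_univ, true_and] at ha
              exact Or.inr ⟨a, b, c, ha.1, ha.2.symm, hbc, not_nonempty_iff_eq_empty.1 hc⟩
        · exact Or.inr ih
    rcases hwit x₀ ((graph_connected hH huv).preconnected u x₀) with h | ⟨a, b, x, hua, hab, hbx, he⟩
    · rcases h with h | h | h
      exacts [absurd h hx₀, absurd h hx₀', absurd hx₀e h.ne_empty]
    · left
      have h1 := (dis_triangle u a x).trans (Nat.add_le_add_left (dis_triangle a b x) (dis H u a))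
      rw [hedge u a hua, hedge a b hab, hedge b x hbx] at h1
      have h2 := hsd u x
      have h3 := card_sdiff_add_card_inter (N u) (N x)
      have h4 := card_sdiff_add_card_inter (N x) (N u)
      rw [inter_comm, he, card_empty] at h4
      rw [he, card_empty] at h3
      rw [hNc] at h4
      omega
  rcases Nat.lt_or_ge (Fintype.card Ω) (2 * #(N u) + 1) with hk | hk
  · exact Or.inr hk
  left
  set X : Finset Ω := univ \ insert u (N u) with hX
  have hXc : #X + (#(N u) + 1) = Fintype.card Ω := by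
    rw [← card_insert_of_notMem (show u ∉ N u by simp [hN]), hX, card_sdiff_add_card_eq_card (subset_univ _), card_univ]
  have hfst : ∀ x ∈ X, 2 * #(N u) ≤ 2 * D + 2 * #{w ∈ N u | Γ.Adj w x} := by
    intro x hx
    simp only [hX, hN, mem_sdiff, mem_univ, true_and, mem_insert, mem_filter, not_or] at hx
    obtain ⟨a, ha⟩ := hfar x hx.1 hx.2
    simp only [hN, mem_inter, mem_filter, mem_univ, true_and] at ha
    have h1 := dis_triangle (H := H) u a x
    rw [hedge u a ha.1, hedge a x ha.2.symm] at h1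
    have h2 := hsd u x
    have h3 := card_sdiff_add_card_inter (N u) (N x)
    have h4 := card_sdiff_add_card_inter (N x) (N u)
    rw [hNc, inter_comm] at h4
    have h5 : N u ∩ N x = {w ∈ N u | Γ.Adj w x} := by
      ext w; simp [hN, Γ.adj_comm x w]
    rw [h5] at h3 h4
    omega
  have hsnd : ∀ w ∈ N u, 2 * #{x ∈ X | Γ.Adj w x} ≤ D := by
    intro w hw
    have h2 := hsd u w
    rw [hedge u w (mem_filter.1 hw).2] at h2
    have h3 := card_sdiff_add_card_inter (N u) (N w)
    have h4 := card_sdiff_add_card_inter (N w) (N u)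
    rw [hNc, inter_comm] at h4
    have h5 : #{x ∈ X | Γ.Adj w x} ≤ #(N w \ N u) := card_le_card fun z hz => by
      simp only [hX, hN, mem_filter, mem_sdiff, mem_univ, true_and, mem_insert, not_or] at hz ⊢
      exact ⟨hz.2, hz.1.2⟩
    omega
  have hdc : ∑ x ∈ X, #{w ∈ N u | Γ.Adj w x} = ∑ w ∈ N u, #{x ∈ X | Γ.Adj w x} := by
    simp only [card_filter]
    exact sum_comm
  have h1 := sum_le_sum hfst
  have h2 := sum_le_sum hsnd
  simp only [sum_const, smul_eq_mul, sum_add_distrib, ← mul_sum] at h1 h2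
  rw [hdc] at h1
  have hk' : #(N u) ≤ #X := by omega
  rcases Nat.eq_zero_or_pos #X with h0 | h0
  · omega
  · nlinarith [Nat.mul_le_mul_right D hk']

theorem bound_small {u v : Ω} (huv : u ≠ v) (hk : 2 * #{x : Ω | (graph H u v).Adj u x} + 1 ≤ Fintype.card Ω) :
    4 * (Fintype.card Ω - 1) ≤ 3 * dis H u v ^ 2 := by
  rcases valency_le hH huv with h | h
  · nlinarith [two_mul_le hH huv]
  · omega

theorem bound_orbital {u v : Ω} (huv : u ≠ v) (hX : ∃ x, x ≠ u ∧ ¬ (graph H u v).Adj u x) :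
    Fintype.card Ω - 1 ≤ 3 * dis H u v ^ 2 := by
  rcases Nat.lt_or_ge (Fintype.card Ω) (2 * #{x : Ω | (graph H u v).Adj u x} + 1) with hk | hk
  swap
  · have := bound_small hH huv hk
    omega
  set Γ := graph H u v with hΓ
  set N : Finset Ω := {x : Ω | Γ.Adj u x} with hN
  obtain ⟨x, hxu, hx⟩ := hX
  set M : Finset Ω := {x_1 : Ω | Γ.Adj x x_1} with hM
  have hMc : #M = #N := by
    obtain ⟨h, hh, rfl⟩ := exists_map hH u x
    refine card_equiv h⁻¹ fun b => ?_
    simp only [hN, hM, mem_filter, mem_univ, true_and]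
    simpa [hΓ] using graph_adj_smul (u := u) (v := v) (x := u) (y := h⁻¹ b) hh
  obtain ⟨a, ha⟩ : (N ∩ M).Nonempty := by
    rw [← card_pos]
    have h1 := card_union_add_card_inter N M
    have h2 : #(N ∪ M) ≤ Fintype.card Ω - 2 := by
      rw [← card_pair hxu, ← card_univ, ← card_sdiff_of_subset (subset_univ _)]
      refine card_le_card fun z hz => ?_
      simp only [hN, hM, mem_union, mem_filter, mem_univ, true_and, mem_sdiff, mem_insert, mem_singleton,
        not_or] at hz ⊢
      rcases hz with hz | hz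
      · exact ⟨fun e => hx (e ▸ hz), hz.1.symm⟩
      · exact ⟨hz.1.symm, fun e => hx (Γ.symm.symm _ _ (e ▸ hz))⟩
    have h3 : 2 ≤ Fintype.card Ω := Fintype.one_lt_card_iff.2 ⟨x, u, hxu⟩
    omega
  simp only [hN, hM, mem_inter, mem_filter, mem_univ, true_and] at ha
  have h1 := dis_triangle (H := H) u a x
  rw [dis_congr ha.1.2, dis_comm a x, dis_congr ha.2.2] at h1
  have hk' : 2 * #{z : Ω | (graph H u x).Adj u z} + 1 ≤ Fintype.card Ω := by
    have hd : Disjoint N ({z : Ω | (graph H u x).Adj u z} : Finset Ω) := by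
      rw [disjoint_left]
      intro z hz hz'
      exact hx ⟨hxu.symm, (mem_filter.1 hz').2.2.symm.trans (mem_filter.1 hz).2.2⟩
    have h2 : #(N ∪ ({z : Ω | (graph H u x).Adj u z} : Finset Ω)) ≤ Fintype.card Ω - 1 := by
      rw [← card_univ, ← card_erase_of_mem (mem_univ u)]
      refine card_le_card fun z hz => mem_erase.2 ⟨?_, mem_univ _⟩
      rcases mem_union.1 hz with hz | hz <;> exact (mem_filter.1 hz).2.1.symm
    rw [card_union_of_disjoint hd] at h2
    have := Fintype.card_pos_iff.2 ⟨u⟩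
    omega
  have h3 := bound_small hH hxu.symm hk'
  nlinarith [Nat.mul_le_mul h1 h1]

omit hH in
/-- With one orbit on unordered pairs, some translate of a small set meets it in one point. -/
theorem exists_meet_one (htwo : ∀ a b c d : Ω, a ≠ b → c ≠ d → col H a b = col H c d) (S : Finset Ω)
    (hS : 2 ≤ #S) (hsmall : (#S - 1) ^ 2 < Fintype.card Ω - 1) (htr : ∀ a b : Ω, ∃ h ∈ H, h a = b) :
    ∃ h ∈ H, #{x ∈ S | h x ∈ S} = 1 := by
  by_contra hne
  push Not at hne
  obtain ⟨m, hm⟩ : ∃ m, #S = m + 1 := ⟨#S - 1, by omega⟩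
  obtain ⟨n, hn⟩ : ∃ n, Fintype.card Ω = n + 1 := ⟨Fintype.card Ω - 1, by omega⟩
  let K : Finset (Equiv.Perm Ω) := {h | h ∈ H}
  let t : Equiv.Perm Ω → ℕ := fun h => #{x ∈ S | h x ∈ S}
  obtain ⟨x₀, hx₀, y₀, hy₀, hxy₀⟩ := one_lt_card.1 hS
  have h1 : ∀ x, Fintype.card Ω * (∑ h ∈ K, (if h x ∈ S then 1 else 0)) = #K * #S := by
    intro x
    have e : ∀ y, #{h ∈ K | h x = y} = #{h ∈ K | h x = x} := fun y => by
      obtain ⟨k, hk, rfl⟩ := htr x y
      refine card_equiv (Equiv.mulLeft k⁻¹) fun h => ?_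
      simp only [K, mem_filter, mem_univ, true_and, Equiv.coe_mulLeft, Equiv.Perm.mul_apply]
      constructor
      · rintro ⟨h1, h2⟩; exact ⟨H.mul_mem (H.inv_mem hk) h1, by rw [h2]; simp⟩
      · rintro ⟨h1, h2⟩
        refine ⟨by simpa using H.mul_mem hk h1, ?_⟩
        have := congrArg k h2
        simpa using this
    rw [← card_filter]
    have hS' : #{h ∈ K | h x ∈ S} = #S * #{h ∈ K | h x = x} := by
      rw [card_eq_sum_card_fiberwise (f := fun h => h x) (s := {h ∈ K | h x ∈ S}) (t := S) fun h hh => (mem_filter.1 hh).2]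
      refine sum_const_nat fun y hy => ?_
      rw [filter_filter, ← e y]
      exact congrArg card (filter_congr fun h _ => ⟨fun hh => hh.2, fun hh => ⟨hh ▸ hy, hh⟩⟩)
    have hK : #K = Fintype.card Ω * #{h ∈ K | h x = x} := by
      rw [card_eq_sum_card_fiberwise (f := fun h => h x) (s := K) (t := univ) fun h _ => mem_univ _,
        sum_const_nat fun y _ => e y, card_univ]
    rw [hS', hK]; ring
  have hA : Fintype.card Ω * ∑ h ∈ K, t h = #K * #S * #S := by
    simp only [t, card_filter]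
    rw [sum_comm, mul_sum, sum_const_nat fun x _ => h1 x]
    ring
  -- pairs
  let both : Ω → Ω → ℕ := fun x y => ∑ h ∈ K, if h x ∈ S ∧ h y ∈ S then 1 else 0
  set L := both x₀ y₀ with hL
  have hboth : ∀ x y, x ≠ y → both x y = L := by
    intro x y hxy
    obtain ⟨k, hk, e⟩ := exists_of_col_eq (htwo x y x₀ y₀ hxy hxy₀)
    have hr : ∀ f : Equiv.Perm Ω → ℕ, ∑ h ∈ K, f (h * k) = ∑ h ∈ K, f h := fun f => by
      refine sum_equiv (Equiv.mulRight k) (fun h => ?_) (fun h _ => rfl)
      simp only [K, mem_filter, mem_univ, true_and, Equiv.coe_mulRight]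
      exact ⟨fun hh => H.mul_mem hh hk, fun hh => by simpa using H.mul_mem hh (H.inv_mem hk)⟩
    show (∑ h ∈ K, if h x ∈ S ∧ h y ∈ S then 1 else 0) = ∑ h ∈ K, if h x₀ ∈ S ∧ h y₀ ∈ S then 1 else 0
    rw [← hr fun h => if h x ∈ S ∧ h y ∈ S then 1 else 0]
    refine sum_congr rfl fun h _ => ?_
    rcases e with ⟨e1, e2⟩ | ⟨e1, e2⟩
    · simp [e1, e2]
    · simp [e1, e2, and_comm]
  have hpairs : ∀ A : Finset Ω,
      ∑ h ∈ K, (#{x ∈ A | h x ∈ S} * #{x ∈ A | h x ∈ S} - #{x ∈ A | h x ∈ S}) = (#A * #A - #A) * L := by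
    intro A
    have e : ∀ h : Equiv.Perm Ω, #{x ∈ A | h x ∈ S} * #{x ∈ A | h x ∈ S} - #{x ∈ A | h x ∈ S} =
        ∑ p ∈ A.offDiag, (if h p.1 ∈ S ∧ h p.2 ∈ S then 1 else 0) := by
      intro h
      rw [← offDiag_card, ← card_filter]
      congr 1
      ext p
      simp only [mem_offDiag, mem_filter]
      tauto
    rw [sum_congr rfl fun h _ => e h, sum_comm, ← offDiag_card,
      sum_const_nat fun p hp => hboth p.1 p.2 (mem_offDiag.1 hp).2.2]
  have hall : ∀ h : Equiv.Perm Ω, #{x : Ω | h x ∈ S} = #S := fun h => card_equiv h (by simp)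
  have hB := hpairs univ
  simp only [hall, sum_const, smul_eq_mul, card_univ] at hB
  have hC : ∑ h ∈ K, t h ≤ (#S * #S - #S) * L := by
    rw [← hpairs S]
    refine sum_le_sum fun h hh => ?_
    have h1' := hne h (mem_filter.1 hh).2
    show #{x ∈ S | h x ∈ S} ≤ _
    generalize #{x ∈ S | h x ∈ S} = c at h1' ⊢
    rcases c with - | - | c
    · simp
    · exact absurd rfl h1'
    · exact Nat.le_sub_of_add_le (by nlinarith)
  have hK : 0 < #K := card_pos.2 ⟨1, by simp [K]⟩
  have e1 : (m + 1) * (m + 1) - (m + 1) = (m + 1) * m := by rw [← Nat.mul_sub_one, Nat.add_sub_cancel]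
  have e2 : (n + 1) * (n + 1) - (n + 1) = (n + 1) * n := by rw [← Nat.mul_sub_one, Nat.add_sub_cancel]
  rw [hm, hn, e1, e2] at hB
  rw [hm, hn] at hA
  rw [hm, e1] at hC
  rw [hm, hn, Nat.add_sub_cancel, Nat.add_sub_cancel] at hsmall
  have : #K * ((m + 1) * (m + 1)) * n ≤ #K * ((m + 1) * (m + 1)) * m ^ 2 := by
    calc #K * ((m + 1) * (m + 1)) * n = n * ((n + 1) * ∑ h ∈ K, t h) := by rw [hA]; ring
      _ ≤ n * ((n + 1) * ((m + 1) * m * L)) := Nat.mul_le_mul_left _ (Nat.mul_le_mul_left _ hC)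
      _ = (m + 1) * m * ((n + 1) * n * L) := by ring
      _ = #K * ((m + 1) * (m + 1)) * m ^ 2 := by rw [← hB]; ring
  have := Nat.le_of_mul_le_mul_left this (by positivity)
  omega

include hH in
/-- The minimal degree bound. -/
theorem moved_bound (hA : ¬ alternatingGroup Ω ≤ H) {g : Equiv.Perm Ω} (hg : g ∈ H) (hg1 : g ≠ 1) :
    Fintype.card Ω - 1 ≤ 3 * Nat.card {w : Ω // g w ≠ w} ^ 2 := by
  obtain ⟨u, hu⟩ : ∃ u, g u ≠ u := by
    by_contra hc
    push Not at hc
    exact hg1 (Equiv.ext hc)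
  set s := Nat.card {w : Ω // g w ≠ w} with hs
  by_cases hX : ∃ x, x ≠ u ∧ ¬ (graph H u (g u)).Adj u x
  · exact (bound_orbital hH (Ne.symm hu) hX).trans (Nat.mul_le_mul_left 3 (Nat.pow_le_pow_left (dis_le_moved hg u) 2))
  push Not at hX
  have hone : ∀ a b : Ω, a ≠ b → col H a b = col H u (g u) := by
    intro a b hab
    obtain ⟨h, hh, rfl⟩ := exists_map hH u a
    obtain ⟨x, rfl⟩ := h.surjective b
    rw [col_smul hh]
    exact (hX x fun e => hab (by rw [e])).2
  have htwo : ∀ a b c d : Ω, a ≠ b → c ≠ d → col H a b = col H c d := fun a b c d h1 h2 =>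
    (hone a b h1).trans (hone c d h2).symm
  set S : Finset Ω := {w : Ω | g w ≠ w} with hS
  have hsS : s = #S := by rw [hs, Nat.card_eq_fintype_card, Fintype.card_subtype]
  have hS2 : 2 ≤ #S := one_lt_card.2
    ⟨u, by simp [hS, hu], g u, by simpa [hS] using fun e => hu (g.injective e), Ne.symm hu⟩
  by_contra hlt
  push Not at hlt
  have hsmall : (#S - 1) ^ 2 < Fintype.card Ω - 1 := by
    have h1 : (#S - 1) ^ 2 ≤ #S ^ 2 := Nat.pow_le_pow_left (Nat.sub_le _ _) 2
    rw [hsS] at hlt
    omega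
  obtain ⟨k, hk, hkc⟩ := exists_meet_one htwo S hS2 hsmall (fun a b => exists_map hH a b)
  obtain ⟨x, hx⟩ := card_eq_one.1 hkc
  have hxm : x ∈ ({y ∈ S | k y ∈ S} : Finset Ω) := by rw [hx]; exact mem_singleton_self x
  rw [mem_filter] at hxm
  simp only [hS, mem_filter, mem_univ, true_and] at hxm
  have hg' : k⁻¹ * g * k ∈ H := H.mul_mem (H.mul_mem (H.inv_mem hk) hg) hk
  have hmv : ∀ w, (k⁻¹ * g * k) w ≠ w ↔ g (k w) ≠ k w := fun w => by
    simp only [Equiv.Perm.mul_apply, Equiv.Perm.inv_def, ne_eq, Equiv.symm_apply_eq]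
  refine hA (Equiv.Perm.alternatingGroup_le_of_isPreprimitive_of_isThreeCycle_mem hH
    (isThreeCycle_commutator hxm.1 ((hmv x).2 hxm.2) fun w h1 h2 => ?_)
    (H.mul_mem (H.mul_mem (H.mul_mem hg hg') (H.inv_mem hg)) (H.inv_mem hg')))
  have : w ∈ ({y ∈ S | k y ∈ S} : Finset Ω) := mem_filter.2 ⟨by simp [hS, h1], by simp [hS, (hmv w).1 h2]⟩
  rw [hx] at this
  exact mem_singleton.1 this

end CfsgLib.MinDegree
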