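import Mathlib
set_option autoImplicit false

/-!
Degree bounds from eigencharacters of abelian subgroups, and an irreducibility criterion.
-/

namespace CfsgLib.MinDegree

open Finset

variable {Q V : Type*} [AddCommGroup Q] [AddCommGroup V] [Module ℂ V]

/-- `w` is an eigenvector of `T` with character `ψ`. -/
def HasEigen (T : Q → Module.End ℂ V) (ψ : AddChar Q ℂ) : Prop :=
  ∃ w : V, w ≠ 0 ∧ ∀ s, T s w = ψ s • w

section

variable [Fintype Q] (T : Q → Module.End ℂ V)

/-- Unnormalised projection on the `ψ`-eigenspace. -/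
noncomputable def eigProj (ψ : AddChar Q ℂ) : Module.End ℂ V := ∑ s, ψ (-s) • T s

theorem eigProj_apply_eigen (φ ψ : AddChar Q ℂ) {w : V} (hw : ∀ s, T s w = φ s • w) :
    eigProj T ψ w = if φ = ψ then (Fintype.card Q : ℂ) • w else 0 := by
  classical
  have e : eigProj T ψ w = (∑ s, (φ * ψ⁻¹) s) • w := by
    simp only [eigProj, LinearMap.sum_apply, LinearMap.smul_apply, hw, smul_smul, Finset.sum_smul,
      AddChar.mul_apply, AddChar.inv_apply, mul_comm]
  rw [e, AddChar.sum_eq_ite]
  by_cases h : φ = ψ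
  · subst h
    rw [if_pos rfl, if_pos]
    rw [mul_inv_cancel]; rfl
  · rw [if_neg h, if_neg, zero_smul]
    intro h'
    exact h (mul_inv_eq_one.mp h')

/-- Distinct eigencharacters are at most as many as the dimension. -/
theorem card_le_finrank [FiniteDimensional ℂ V] (S : Finset (AddChar Q ℂ))
    (h : ∀ φ ∈ S, HasEigen T φ) : S.card ≤ Module.finrank ℂ V := by
  classical
  choose w hw0 hw using h
  have li : LinearIndependent ℂ (fun φ : S => w φ.1 φ.2) := by
    rw [Fintype.linearIndependent_iff]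
    intro c hc ψ
    have h1 := congrArg (eigProj T ψ.1) hc
    rw [map_sum, map_zero, Finset.sum_eq_single ψ] at h1
    · rw [map_smul, eigProj_apply_eigen T ψ.1 ψ.1 (hw _ ψ.2), if_pos rfl, smul_smul,
        smul_eq_zero] at h1
      rcases h1 with h1 | h1
      · exact (mul_eq_zero.mp h1).resolve_right (Nat.cast_ne_zero.mpr Fintype.card_ne_zero)
      · exact absurd h1 (hw0 _ ψ.2)
    · intro φ _ hne
      rw [map_smul, eigProj_apply_eigen T φ.1 ψ.1 (hw _ φ.2), if_neg (fun e => hne (Subtype.ext e)),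
        smul_zero]
    · simp
  simpa using li.fintype_card_le_finrank

/-- Eigencharacters with `d`-dimensional eigenspaces. -/
theorem mul_card_le_finrank [FiniteDimensional ℂ V] (d : ℕ) (S : Finset (AddChar Q ℂ))
    (h : ∀ φ ∈ S, ∃ w : Fin d → V, LinearIndependent ℂ w ∧ ∀ i s, T s (w i) = φ s • w i) :
    d * S.card ≤ Module.finrank ℂ V := by
  classical
  choose w hli hw using h
  have li : LinearIndependent ℂ (fun p : S × Fin d => w p.1.1 p.1.2 p.2) := by
    rw [Fintype.linearIndependent_iff]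
    rintro c hc ⟨ψ, j⟩
    have h1 := congrArg (eigProj T ψ.1) hc
    rw [map_sum, map_zero, Fintype.sum_prod_type, Finset.sum_eq_single ψ] at h1
    · simp only [map_smul] at h1
      rw [Finset.sum_congr rfl fun i _ => by
        rw [eigProj_apply_eigen T ψ.1 ψ.1 (hw _ ψ.2 i), if_pos rfl, smul_smul]] at h1
      exact (mul_eq_zero.mp (Fintype.linearIndependent_iff.mp (hli _ ψ.2) _ h1 j)).resolve_right
        (Nat.cast_ne_zero.mpr Fintype.card_ne_zero)
    · intro φ _ hne
      refine Finset.sum_eq_zero fun i _ => ?_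
      rw [map_smul, eigProj_apply_eigen T φ.1 ψ.1 (hw _ φ.2 i), if_neg (fun e => hne (Subtype.ext e)),
        smul_zero]
    · simp
  have := li.fintype_card_le_finrank
  rw [Fintype.card_prod, Fintype.card_coe, Fintype.card_fin, mul_comm] at this
  exact this

/-- Where the action is non-trivial some eigencharacter is non-trivial. -/
theorem exists_eigen_ne (T0 : T 0 = 1) (Tadd : ∀ s t, T (s + t) = T s * T t) {s₀ : Q} (h : T s₀ ≠ 1) :
    ∃ ψ : AddChar Q ℂ, ψ s₀ ≠ 1 ∧ HasEigen T ψ := by
  classical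
  have hTE : ∀ (ψ : AddChar Q ℂ) s, T s * eigProj T ψ = ψ s • eigProj T ψ := by
    intro ψ s
    rw [eigProj, Finset.mul_sum, Finset.smul_sum]
    refine Fintype.sum_equiv (Equiv.addLeft s) _ _ fun t => ?_
    rw [Equiv.coe_addLeft, mul_smul_comm, ← Tadd, smul_smul, ← AddChar.map_add_eq_mul]
    congr 2
    simp
  by_contra hno
  push Not at hno
  have hzero : ∀ ψ : AddChar Q ℂ, ψ s₀ ≠ 1 → eigProj T ψ = 0 := by
    intro ψ hψ
    refine LinearMap.ext fun x => ?_
    by_contra hx
    exact hno ψ hψ ⟨eigProj T ψ x, hx, fun s => LinearMap.congr_fun (hTE ψ s) x⟩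
  have hsum : ∑ ψ, eigProj T ψ = (Fintype.card Q : ℂ) • (1 : Module.End ℂ V) := by
    simp only [eigProj]
    rw [Finset.sum_comm]
    simp only [← Finset.sum_smul, AddChar.sum_apply_eq_ite, neg_eq_zero, ite_smul, zero_smul]
    rw [Finset.sum_ite_eq', if_pos (Finset.mem_univ _), T0]
  have h1 : T s₀ * ∑ ψ, eigProj T ψ = ∑ ψ, eigProj T ψ := by
    rw [Finset.mul_sum]
    refine Finset.sum_congr rfl fun ψ _ => ?_
    by_cases hψ : ψ s₀ = 1
    · rw [hTE, hψ, one_smul]
    · rw [hzero ψ hψ, mul_zero]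
  rw [hsum, mul_smul_comm, mul_one] at h1
  exact h (smul_right_injective _ (Nat.cast_ne_zero.mpr Fintype.card_ne_zero) h1)

/-- A non-trivial action of a finite abelian group has a non-trivial eigencharacter. -/
theorem exists_eigen (T0 : T 0 = 1) (Tadd : ∀ s t, T (s + t) = T s * T t) {s₀ : Q} (h : T s₀ ≠ 1) :
    ∃ ψ : AddChar Q ℂ, ψ ≠ 0 ∧ HasEigen T ψ := by
  obtain ⟨ψ, hψ, he⟩ := exists_eigen_ne T T0 Tadd h
  exact ⟨ψ, fun e => hψ (by rw [e, AddChar.zero_apply]), he⟩

end

/-- Eigencharacters are permuted by whatever normalises the action. -/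
theorem HasEigen.comp {T : Q → Module.End ℂ V} {ψ φ : AddChar Q ℂ} (h : HasEigen T ψ)
    (σ : Q → Q) (hσ : ∀ s, φ s = ψ (σ s)) (U U' : Module.End ℂ V) (hU : U * U' = 1)
    (hU' : U' * U = 1) (hT : ∀ s, T (σ s) = U * T s * U') : HasEigen T φ := by
  obtain ⟨w, hw0, hw⟩ := h
  refine ⟨U' w, fun e => hw0 ?_, fun s => ?_⟩
  · rw [← Module.End.one_apply (R := ℂ) w, ← hU, Module.End.mul_apply, e, map_zero]
  · have e : T s * U' = U' * T (σ s) := by
      rw [hT]; simp only [← mul_assoc, hU', one_mul]
    rw [← Module.End.mul_apply, e, Module.End.mul_apply, hw, map_smul, hσ]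

section

variable {G : Type*} [Group G] [Finite G]

/-- A complex representation with scalar commutant is irreducible. -/
theorem isIrreducible_of_scalar [Nontrivial V] (ρ : Representation ℂ G V)
    (h : ∀ X : Module.End ℂ V, (∀ g, X * ρ g = ρ g * X) → ∃ c : ℂ, X = c • 1) :
    ρ.IsIrreducible := by
  have hbt : (⊥ : Subrepresentation ρ) ≠ ⊤ := fun e =>
    bot_ne_top (α := Submodule ℂ V) (congrArg Subrepresentation.toSubmodule e)
  have : Nontrivial (Subrepresentation ρ) := ⟨⊥, ⊤, hbt⟩
  refine { eq_bot_or_eq_top := fun W => ?_ }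
  obtain ⟨W', hW'⟩ := exists_isCompl W
  have hc : IsCompl W.toSubmodule W'.toSubmodule :=
    ⟨disjoint_iff.mpr (congrArg Subrepresentation.toSubmodule hW'.inf_eq_bot),
      codisjoint_iff.mpr (congrArg Subrepresentation.toSubmodule hW'.sup_eq_top)⟩
  obtain ⟨c, hP⟩ := h (W.toSubmodule.projection W'.toSubmodule hc) fun g => LinearMap.ext fun v => by
    obtain ⟨a, ha, b, hb, rfl⟩ := Submodule.mem_sup.mp (hc.sup_eq_top ▸ Submodule.mem_top (x := v))
    simp only [Module.End.mul_apply, map_add]
    rw [Submodule.projection_apply_left hc ⟨_, W.apply_mem_toSubmodule g ha⟩,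
      (Submodule.projection_apply_eq_zero_iff hc).mpr (W'.apply_mem_toSubmodule g hb),
      Submodule.projection_apply_left hc ⟨a, ha⟩,
      (Submodule.projection_apply_eq_zero_iff hc).mpr hb, map_zero]
  rcases eq_or_ne c 0 with rfl | hc0
  · left
    refine Subrepresentation.toSubmodule_injective ((Submodule.eq_bot_iff _).mpr fun a ha => ?_)
    have := LinearMap.congr_fun hP a
    rw [Submodule.projection_apply_left hc ⟨a, ha⟩] at this
    simpa using this
  · right
    refine Subrepresentation.toSubmodule_injective (Submodule.eq_top_iff'.mpr fun v => ?_)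
    have h1 : W.toSubmodule.projection W'.toSubmodule hc v ∈ W.toSubmodule :=
      Submodule.projection_apply_mem hc v
    rw [hP] at h1
    exact (Submodule.smul_mem_iff _ hc0).mp h1

omit [Finite G] in
/-- A normal subgroup with a non-central element is everything, if `G` is perfect and simple mod centre. -/
theorem eq_top_of_noncentral {H : Type*} [Group H] (hp : commutator H = ⊤)
    [IsSimpleGroup (H ⧸ Subgroup.center H)] (K : Subgroup H) [hK : K.Normal] {x : H} (hx : x ∈ K)
    (hxc : x ∉ Subgroup.center H) : K = ⊤ := by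
  rcases Subgroup.Normal.eq_bot_or_eq_top (Subgroup.Normal.map hK
    (QuotientGroup.mk' (Subgroup.center H)) (QuotientGroup.mk'_surjective _)) with hb | ht
  · exact absurd ((QuotientGroup.eq_one_iff _).mp (Subgroup.mem_bot.mp (hb ▸ Subgroup.mem_map_of_mem _ hx))) hxc
  · rw [eq_top_iff, ← hp, commutator_def, Subgroup.commutator_le]
    intro a _ b _
    obtain ⟨k, hk, hka⟩ : (a : H ⧸ Subgroup.center H) ∈ K.map (QuotientGroup.mk' (Subgroup.center H)) := by
      rw [ht]; trivial
    have hz : k⁻¹ * a ∈ Subgroup.center H := QuotientGroup.eq.mp hka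
    have e : a * b * a⁻¹ * b⁻¹ = k * (b * k⁻¹ * b⁻¹) := by
      have hzb : (k⁻¹ * a) * b = b * (k⁻¹ * a) := (Subgroup.mem_center_iff.mp hz b).symm
      calc a * b * a⁻¹ * b⁻¹ = k * ((k⁻¹ * a) * b) * a⁻¹ * b⁻¹ := by group
        _ = _ := by rw [hzb]; group
    rw [commutatorElement_def, e]
    exact K.mul_mem hk (hK.conj_mem _ (K.inv_mem hk) b)

omit [Finite G] in
/-- An irreducible representation of dimension at least two is not trivial. -/
theorem exists_ne_one_of_irreducible [FiniteDimensional ℂ V] (ρ : Representation ℂ G V)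
    (hρ : ρ.IsIrreducible) (h2 : 2 ≤ Module.finrank ℂ V) : ∃ g, ρ g ≠ 1 := by
  by_contra hno
  push Not at hno
  have : Nontrivial V := Module.nontrivial_of_finrank_pos (R := ℂ) (by omega)
  obtain ⟨v, hv⟩ := exists_ne (0 : V)
  let W : Subrepresentation ρ := ⟨ℂ ∙ v, fun g w hw => by rw [hno g]; exact hw⟩
  rcases hρ.eq_bot_or_eq_top W with e | e
  · exact hv (Submodule.span_singleton_eq_bot.mp (congrArg Subrepresentation.toSubmodule e))
  · have e2 := congrArg (fun U : Submodule ℂ V => Module.finrank ℂ U)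
      (congrArg Subrepresentation.toSubmodule e)
    simp only [W, finrank_span_singleton hv] at e2
    rw [show (⊤ : Subrepresentation ρ).toSubmodule = (⊤ : Submodule ℂ V) from rfl, finrank_top] at e2
    omega

end

end CfsgLib.MinDegree
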