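import Mathlib
set_option autoImplicit false

/-!
Arithmetic behind the smallest degree of `SL_n(q)`.
-/

namespace CfsgLib.MinDegree.SLArith

/-- `q + q^2 + ... + q^(n-1)`. -/
def geo (q : ℕ) : ℕ → ℕ
  | 0 => 0
  | 1 => 0
  | n + 2 => geo q (n + 1) + q ^ (n + 1)

/-- The exceptional solutions. -/
def Bad (n q j : ℕ) : Bool :=
  (n == 3 && j == 2 && (q == 6 || q == 10 || q == 14 || q == 22 || q == 46)) ||
    (n == 4 && q == 21 && j == 3)

/-- The test at one point. -/
def ok (n q j : ℕ) : Bool :=
  (n == 3 && (q == 2 || q == 4)) || (n == 4 && (q == 2 || q == 3)) || Bad n q j ||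
    !(j * (j + 1) * (q - 1) * (q + (q - 1) * j) % (geo q n - j) == 0)

theorem table : ((List.range' 2 99).all fun q => (List.range' 3 13).all fun n =>
    (List.range' 1 (n - 1)).all fun j => ok n q j) = true := by
  decide +kernel

theorem geo_ge (q : ℕ) : ∀ n, 2 ≤ n → q ^ (n - 1) ≤ geo q n
  | 0, h => by omega
  | 1, h => by omega
  | n + 2, _ => by simp [geo]

theorem geo_ge_two (q : ℕ) (n : ℕ) (h : 3 ≤ n) : q ^ (n - 1) + q ^ (n - 2) ≤ geo q n := by
  obtain ⟨m, rfl⟩ : ∃ m, n = m + 2 := ⟨n - 2, by omega⟩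
  have := geo_ge q (m + 1) (by omega)
  simp only [geo, Nat.add_sub_cancel] at this ⊢
  simp only [show m + 2 - 1 = m + 1 by omega]
  omega

theorem geo_mul (q : ℕ) : ∀ n, 1 ≤ n → geo q n * (q - 1) + q = q ^ n ∨ q = 0
  | 0, h => by omega
  | 1, _ => by simp [geo]
  | n + 2, _ => by
      rcases geo_mul q (n + 1) (by omega) with h | h
      · rcases Nat.eq_zero_or_pos q with h0 | h0
        · exact Or.inr h0
        left
        obtain ⟨r, rfl⟩ : ∃ r, q = r + 1 := ⟨q - 1, by omega⟩
        simp only [geo, Nat.add_sub_cancel] at h ⊢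
        rw [pow_succ (r + 1) (n + 1), Nat.mul_add, mul_one, add_mul]
        omega
      · exact Or.inr h

theorem pow_dominates (q : ℕ) (hq : 2 ≤ q) : ∀ n, 16 ≤ n →
    (n + 1) * (n + 1) * (n + 1) < q ^ (n - 3) := by
  intro n hn
  refine lt_of_lt_of_le ?_ (Nat.pow_le_pow_left hq (n - 3))
  induction n, hn using Nat.le_induction with
  | base => norm_num
  | succ n hn ih =>
      have e : n + 1 - 3 = (n - 3) + 1 := by omega
      rw [e, pow_succ]
      have h2 : (n + 1 + 1) * (n + 1 + 1) * (n + 1 + 1) ≤ 2 * ((n + 1) * (n + 1) * (n + 1)) := by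
        nlinarith
      omega

theorem pow_dominates_big (q : ℕ) (hq : 100 < q) : ∀ n, 5 ≤ n →
    (n + 1) * (n + 1) * (n + 1) < q ^ (n - 3) := by
  intro n hn
  rcases Nat.lt_or_ge n 16 with h | h
  · have h2 : q ^ 2 ≤ q ^ (n - 3) := Nat.pow_le_pow_right (by omega) (by omega)
    have h3 : (n + 1) * (n + 1) * (n + 1) ≤ 16 * 16 * 16 := by
      have : n + 1 ≤ 16 := by omega
      exact Nat.mul_le_mul (Nat.mul_le_mul this this) this
    have h4 : 101 ^ 2 ≤ q ^ 2 := Nat.pow_le_pow_left hq 2
    omega
  · exact pow_dominates q (by omega) n h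

/-- No degree strictly below the bound survives the divisibility test. -/
theorem no_degree (n q j : ℕ) (hn : 3 ≤ n) (hq : IsPrimePow q)
    (hex : (n, q) ≠ (3, 2) ∧ (n, q) ≠ (3, 4) ∧ (n, q) ≠ (4, 2) ∧ (n, q) ≠ (4, 3))
    (hj1 : 1 ≤ j) (hj : j + 1 ≤ n)
    (hdiv : geo q n - j ∣ j * (j + 1) * (q - 1) * (q + (q - 1) * j)) : False := by
  have hq2 : 2 ≤ q := hq.two_le
  rcases Nat.lt_or_ge n 16 with hn16 | hn16
  · rcases Nat.lt_or_ge q 101 with hq101 | hq101
    · have h := table
      simp only [List.all_eq_true, List.mem_range'] at h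
      have h' := h q ⟨q - 2, by omega, by omega⟩ n ⟨n - 3, by omega, by omega⟩ j
        ⟨j - 1, by omega, by omega⟩
      simp only [ok, Bad, Bool.or_eq_true, Bool.and_eq_true, beq_iff_eq, Bool.not_eq_true', beq_eq_false_iff_ne] at h'
      rw [Nat.mod_eq_zero_of_dvd hdiv] at h'
      simp only [ne_eq, not_true, or_false, Prod.mk.injEq] at h' hex
      have hnp : q ≠ 6 ∧ q ≠ 10 ∧ q ≠ 14 ∧ q ≠ 21 ∧ q ≠ 22 ∧ q ≠ 46 := by
        refine ⟨?_, ?_, ?_, ?_, ?_, ?_⟩ <;>
        · rintro rfl
          rw [isPrimePow_nat_iff_bounded] at hq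
          revert hq
          decide +kernel
      omega
    · rcases Nat.lt_or_ge n 5 with hn5 | hn5
      · interval_cases n
        · have hj2 : j ≤ 2 := by omega
          obtain ⟨r, rfl⟩ : ∃ r, q = r + 1 := ⟨q - 1, by omega⟩
          simp only [geo, Nat.add_sub_cancel] at hdiv
          interval_cases j
          · obtain ⟨c, hc⟩ := hdiv
            have e : 0 + (r + 1) ^ (0 + 1) + (r + 1) ^ (0 + 1 + 1) - 1 = r * r + 3 * r + 1 := by
              have : 0 + (r + 1) ^ (0 + 1) + (r + 1) ^ (0 + 1 + 1) = r * r + 3 * r + 2 := by ring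
              omega
            rw [e] at hc
            have e2 : 1 * (1 + 1) * r * (r + 1 + r * 1) = 4 * (r * r) + 2 * r := by ring
            rw [e2] at hc
            have hc4 : c < 4 := by
              by_contra hc4
              have := Nat.mul_le_mul_left (r * r + 3 * r + 1) (Nat.le_of_not_lt hc4)
              rw [← hc] at this
              omega
            have h100 : 100 * r ≤ r * r := Nat.mul_le_mul_right r (by omega)
            interval_cases c <;> omega
          · have e : 0 + (r + 1) ^ (0 + 1) + (r + 1) ^ (0 + 1 + 1) - 2 = r * (r + 3) := by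
              have : 0 + (r + 1) ^ (0 + 1) + (r + 1) ^ (0 + 1 + 1) = r * (r + 3) + 2 := by ring
              omega
            rw [e, show 2 * (2 + 1) * r * (r + 1 + r * 2) = r * (6 * (3 * r + 1)) by ring] at hdiv
            have h48 : r + 3 ∣ 48 := by
              have h1 := Nat.dvd_of_mul_dvd_mul_left (by omega : 0 < r) hdiv
              have h2 : r + 3 ∣ 18 * (r + 3) := dvd_mul_left _ _
              have e3 : 18 * (r + 3) - 6 * (3 * r + 1) = 48 := by omega
              rw [← e3]
              exact Nat.dvd_sub h2 h1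
            have := Nat.le_of_dvd (by norm_num) h48
            omega
        · have hk := Nat.le_of_dvd ?_ hdiv
          · have hj3 : j ≤ 3 := by omega
            have hb : j * (j + 1) * (q - 1) * (q + (q - 1) * j) ≤ 3 * 4 * q * (4 * q) :=
              Nat.mul_le_mul (Nat.mul_le_mul (Nat.mul_le_mul hj3 (by omega)) (by omega))
                (by have : (q - 1) * j ≤ q * 3 := Nat.mul_le_mul (by omega) hj3; omega)
            have hg := geo_ge q 4 (by omega)
            have h100 : 101 * (q * q) ≤ q ^ (4 - 1) := by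
              rw [show q ^ (4 - 1) = q * (q * q) by ring]; exact Nat.mul_le_mul_right _ hq101
            have : 3 * 4 * q * (4 * q) = 48 * (q * q) := by ring
            have : 1 ≤ q * q := Nat.mul_pos (by omega) (by omega)
            omega
          · have : 0 < q - 1 := by omega
            positivity
      · have := pow_dominates_big q (by omega) n hn5
        exact absurd hdiv (not_dvd_of_dominated n q j hn hq2 hj1 (by omega) this)
  · exact not_dvd_of_dominated n q j hn hq2 hj1 (by omega) (pow_dominates q hq2 n hn16) hdiv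
where
  not_dvd_of_dominated (n q j : ℕ) (hn : 3 ≤ n) (hq2 : 2 ≤ q) (hj1 : 1 ≤ j) (hj : j ≤ n)
      (hdom : (n + 1) * (n + 1) * (n + 1) < q ^ (n - 3)) :
      ¬ geo q n - j ∣ j * (j + 1) * (q - 1) * (q + (q - 1) * j) := by
    intro hdiv
    have hpos : 0 < j * (j + 1) * (q - 1) * (q + (q - 1) * j) := by
      have : 0 < q - 1 := by omega
      positivity
    have hk := Nat.le_of_dvd hpos hdiv
    have hb : j * (j + 1) * (q - 1) * (q + (q - 1) * j) ≤ (n + 1) * (n + 1) * (n + 1) * (q * q) := by
      have h1 : q + (q - 1) * j ≤ (n + 1) * q := by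
        have : (q - 1) * j ≤ q * n := Nat.mul_le_mul (by omega) hj
        rw [add_mul, one_mul, mul_comm n q]; omega
      calc j * (j + 1) * (q - 1) * (q + (q - 1) * j) ≤ (n + 1) * (n + 1) * q * ((n + 1) * q) :=
            Nat.mul_le_mul (Nat.mul_le_mul (Nat.mul_le_mul (by omega) (by omega)) (by omega)) h1
        _ = _ := by ring
    have hg := geo_ge_two q n hn
    have e : q ^ (n - 1) = q ^ (n - 3) * (q * q) := by
      rw [← pow_two, ← pow_add]; congr 1; omega
    have h2 : (n + 1) * (n + 1) * (n + 1) * (q * q) + q * q ≤ q ^ (n - 1) := by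
      rw [e]
      calc (n + 1) * (n + 1) * (n + 1) * (q * q) + q * q = ((n + 1) * (n + 1) * (n + 1) + 1) * (q * q) := by ring
        _ ≤ _ := Nat.mul_le_mul_right _ hdom
    have h3 : n ≤ q ^ (n - 2) := by
      have h4 : q ^ (n - 3) * 1 ≤ q ^ (n - 2) := by
        rw [mul_one]; exact Nat.pow_le_pow_right (by omega) (by omega)
      have h5 : n + 1 ≤ (n + 1) * (n + 1) * (n + 1) :=
        le_trans (Nat.le_mul_of_pos_right _ (Nat.succ_pos _)) (Nat.le_mul_of_pos_right _ (Nat.succ_pos _))
      omega
    have : 1 ≤ q * q := Nat.mul_pos (by omega) (by omega)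
    omega

end CfsgLib.MinDegree.SLArith
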