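import Cfsg.Agent.MinDegree.SLStep
import Cfsg.Agent.CharBasics.Central
set_option autoImplicit false

/-!
The smallest degree of `SL_n(q)`, `n ≥ 3`.
-/

namespace CfsgLib.MinDegree.Mirabolic

open Matrix Finset
open CfsgLib.CharBasics (commute_eq_scalar)

variable {F : Type*} [Field F] {m n : ℕ}

/-- A transvection as an element of `SL`. -/
def tvSL (v f : Fin n → F) (h : f ⬝ᵥ v = 0) : Matrix.SpecialLinearGroup (Fin n) F :=
  ⟨tvm v f, by rw [det_tvm, h, add_zero]⟩

/-- The radical inside `SL`. -/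
def radSL (f : Fin m → F) : Matrix.SpecialLinearGroup (Fin (m + 1)) F :=
  ⟨pmat 1 f 1, by rw [det_pmat, Matrix.det_one, mul_one]⟩

/-- The Levi factor inside `SL`. -/
def leviSL (F : Type*) [Field F] (m : ℕ) : GL (Fin m) F →* Matrix.SpecialLinearGroup (Fin (m + 1)) F where
  toFun A := ⟨pmat ((Matrix.GeneralLinearGroup.det A)⁻¹ : Fˣ).val 0 A.val, by
    rw [det_pmat]
    exact congrArg Units.val (inv_mul_cancel (Matrix.GeneralLinearGroup.det A))⟩
  map_one' := Subtype.ext (by simp [pmat_one])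
  map_mul' A B := Subtype.ext (by
    show pmat _ 0 _ = pmat _ 0 A.val * pmat _ 0 B.val
    simp [pmat_mul, mul_comm])

variable [Fintype F] [DecidableEq F]

variable {V : Type*} [AddCommGroup V] [Module ℂ V]

/-- The mirabolic inside a representation of `SL_{m+1}`. -/
noncomputable def ofSL (hm : 2 ≤ m) (θ : AddChar F ℂ) (hθ : θ ≠ 0)
    (ρ : Representation ℂ (Matrix.SpecialLinearGroup (Fin (m + 1)) F) V) : Mirab F m V where
  θ := θ
  θ_ne := hθ
  u f := ρ (radSL f)
  l := ρ.comp (leviSL F m)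
  χ := (Matrix.GeneralLinearGroup.det)⁻¹
  u_zero := by rw [show radSL (0 : Fin m → F) = 1 from Subtype.ext pmat_one, map_one]
  u_add f g := by
    rw [← map_mul]
    congr 1
    refine Subtype.ext ?_
    show pmat 1 (f + g) 1 = pmat 1 f 1 * pmat 1 g 1
    simp [pmat_mul, add_comm]
  conj A f := by
    show ρ _ * ρ _ = ρ _ * ρ _
    rw [← map_mul, ← map_mul]
    congr 1
    refine Subtype.ext ?_
    show pmat _ 0 A.val * pmat 1 f 1 = pmat 1 _ 1 * pmat _ 0 A.val
    simp [pmat_mul, Matrix.smul_vecMul, Matrix.vecMul_vecMul]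
  trans w w' hw hw' := by
    obtain ⟨A, hA, hd⟩ := exists_gl_mulVec (by omega : 1 ≤ m) hw hw'
    refine ⟨A, ?_⟩
    have h1 : Matrix.GeneralLinearGroup.det A = 1 := Units.ext (hd hm)
    simp [h1, hA]

theorem ofSL_act (hm : 2 ≤ m) (θ : AddChar F ℂ) (hθ : θ ≠ 0)
    (ρ : Representation ℂ (Matrix.SpecialLinearGroup (Fin (m + 1)) F) V) (g : GL (Fin m) F) (w : Fin m → F) :
    (ofSL hm θ hθ ρ).act g w = g.val.det • (g.val *ᵥ w) := by
  simp [Mirab.act, ofSL]

omit [Fintype F] [DecidableEq F] in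
theorem leviSL_tv (v f : Fin m → F) (h : f ⬝ᵥ v = 0) :
    leviSL F m (tvGL v f h) = tvSL (Fin.cons 0 v) (Fin.cons 0 f) (by rw [cons_dot_cons]; exact h) := by
  refine Subtype.ext ?_
  show pmat _ 0 (tvm v f) = tvm _ _
  rw [det_tvGL, inv_one, Units.val_one, pmat_levi_tvm]

omit [Fintype F] [DecidableEq F] in
/-- Every transvection is conjugate to an element of the radical. -/
theorem exists_conj_rad (hm : 1 ≤ m) (v f : Fin (m + 1) → F) (h : f ⬝ᵥ v = 0) (hv : v ≠ 0) (hf : f ≠ 0) :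
    ∃ (g : Matrix.SpecialLinearGroup (Fin (m + 1)) F) (f' : Fin m → F),
      f' ≠ 0 ∧ tvSL v f h = g * radSL f' * g⁻¹ := by
  have : Nontrivial (Fin (m + 1)) := Fin.nontrivial_iff_two_le.mpr (by omega)
  obtain ⟨g, hg⟩ := CfsgLib.SLn.exists_smul_eq (F := F) (v := (Pi.single 0 1 : Fin (m + 1) → F))
    (Pi.single_ne_zero_iff.2 one_ne_zero) hv
  have hg' : g.1 *ᵥ Pi.single 0 1 = v := hg
  set f' : Fin m → F := fun i => (f ᵥ* g.1) i.succ with hf'
  have h0 : (f ᵥ* g.1) 0 = 0 := by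
    have e : (f ᵥ* g.1) ⬝ᵥ Pi.single 0 1 = f ⬝ᵥ v := by rw [← Matrix.dotProduct_mulVec, hg']
    rw [h] at e
    simpa using e
  have hcons : (Fin.cons 0 f' : Fin (m + 1) → F) = f ᵥ* g.1 := by
    funext i
    refine Fin.cases ?_ (fun j => ?_) i
    · simp [h0]
    · simp [f']
  refine ⟨g, f', fun e => hf ?_, ?_⟩
  · have h1 : f ᵥ* g.1 = 0 := by
      rw [← hcons, e]
      funext i
      refine Fin.cases ?_ (fun j => ?_) i <;> simp
    have h2 := congrArg (fun x => x ᵥ* (g⁻¹).1) h1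
    simp only [Matrix.vecMul_vecMul, Matrix.zero_vecMul, ← Matrix.SpecialLinearGroup.coe_mul, mul_inv_cancel,
      Matrix.SpecialLinearGroup.coe_one, Matrix.vecMul_one] at h2
    exact h2
  · rw [eq_mul_inv_iff_mul_eq]
    refine Subtype.ext ?_
    show tvm v f * g.1 = g.1 * pmat 1 f' 1
    rw [pmat_radical, hcons]
    refine (mul_tvm_eq _ _ _ _ _ ?_).symm
    rw [hg']

/-- Fixing commutators at the top. -/
theorem comm_twisted (hm : 2 ≤ m)
    (hex : (m, Fintype.card F) ≠ (2, 2) ∧ (m, Fintype.card F) ≠ (2, 4) ∧ (m, Fintype.card F) ≠ (3, 2) ∧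
      (m, Fintype.card F) ≠ (3, 3))
    (θ : AddChar F ℂ) (hθ : θ ≠ 0) (ρ : Representation ℂ (Matrix.SpecialLinearGroup (Fin (m + 1)) F) V)
    (v f w : Fin m → F) (h : f ⬝ᵥ v = 0) (hf : f ≠ 0) (hfw : f ⬝ᵥ w = 0) :
    ∃ g s, (ofSL hm θ hθ ρ).act g w = w ∧ (ofSL hm θ hθ ρ).act s w = w ∧ tvGL v f h = g * s * g⁻¹ * s⁻¹ := by
  classical
  simp only [ofSL_act]
  have hs : ∀ (x b : Fin m → F) (hbx : b ⬝ᵥ x = 0), b ⬝ᵥ w = 0 →
      (tvGL x b hbx).val.det • ((tvGL x b hbx).val *ᵥ w) = w := by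
    intro x b hbx hbw
    rw [tvGL_coe, det_tvm, hbx, add_zero, one_smul, tvm_mulVec, hbw, zero_smul, add_zero]
  have hq2 : 2 ≤ Fintype.card F := Fintype.one_lt_card
  obtain ⟨z, hz⟩ : ∃ z, f ⬝ᵥ z = 1 := by
    obtain ⟨i, hi⟩ := Function.ne_iff.mp hf
    exact ⟨Pi.single i (f i)⁻¹, by simp [mul_inv_cancel₀ hi]⟩
  by_cases hm2 : m = 2
  · subst hm2
    have hq : Fintype.card F ≠ 2 ∧ Fintype.card F ≠ 4 :=
      ⟨fun e => hex.1 (by rw [e]), fun e => hex.2.1 (by rw [e])⟩
    obtain ⟨ζ, hζ⟩ := IsCyclic.exists_generator (α := Fˣ)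
    have hμ3 : ζ ^ 3 ≠ 1 := by
      intro e
      have h1 := orderOf_dvd_of_pow_eq_one e
      rw [orderOf_eq_card_of_forall_mem_zpowers hζ, Nat.card_units, Nat.card_eq_fintype_card] at h1
      rcases (Nat.dvd_prime Nat.prime_three).mp h1 with h2 | h2 <;> omega
    set μ : F := ζ.val
    have hμ0 : μ ≠ 0 := ζ.ne_zero
    set α : F := (μ ^ 3)⁻¹ with hα
    have hα1 : α ≠ 1 := by
      rw [hα, Ne, inv_eq_one]
      intro e
      exact hμ3 (Units.ext (by simpa using e))
    have hα0 : α ≠ 0 := inv_ne_zero (pow_ne_zero _ hμ0)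
    have hdet : (μ • tvm ((α - 1) • z) f).det = μ⁻¹ := by
      rw [Matrix.det_smul, Fintype.card_fin, det_tvm, dotProduct_smul, hz, smul_eq_mul, mul_one,
        add_sub_cancel, hα]
      field_simp
    let g : GL (Fin 2) F := Matrix.GeneralLinearGroup.mkOfDetNeZero (μ • tvm ((α - 1) • z) f)
      (by rw [hdet]; exact inv_ne_zero hμ0)
    have hgv : g.val = μ • tvm ((α - 1) • z) f := rfl
    refine ⟨g, tvGL v ((μ / (μ * α) - 1)⁻¹ • f) (smul_left_dot h), ?_,
      hs _ _ _ (by rw [smul_dotProduct, hfw, smul_zero]), ?_⟩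
    · rw [hgv, hdet, Matrix.smul_mulVec, tvm_mulVec, hfw, zero_smul, add_zero, smul_smul,
        inv_mul_cancel₀ hμ0, one_smul]
    · refine comm_of_scale g v f h μ (μ * α) (mul_ne_zero hμ0 hα0) (fun e => hα1 ?_) ?_ ?_
      · exact mul_left_cancel₀ hμ0 (by rw [mul_one, ← e])
      · rw [hgv, Matrix.smul_mulVec, tvm_mulVec, h, zero_smul, add_zero]
      · rw [hgv, Matrix.vecMul_smul, vecMul_tvm, dotProduct_smul, hz, smul_eq_mul, mul_one]
        nth_rewrite 1 [← one_smul F f]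
        rw [← add_smul, add_sub_cancel, smul_smul]
  by_cases hy : ∃ y, f ⬝ᵥ y = 0 ∧ y ∉ Submodule.span F {v, w}
  · obtain ⟨y, hy, hyS⟩ := hy
    obtain ⟨b, hby, hbS⟩ := exists_dot hyS
    exact ⟨tvGL v b (hbS v (Submodule.subset_span (by simp))), tvGL y f hy,
      hs _ _ _ (hbS w (Submodule.subset_span (by simp))), hs _ _ _ hfw, comm_of_third _ _ _ _ h hy _ hby⟩
  have hm3 : m = 3 := by
    by_contra hne
    exact hy (exists_third v f w (Or.inl (by omega)))
  have hvw : v ∉ Submodule.span F ({w} : Set (Fin m → F)) := by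
    intro hv
    obtain ⟨c, hc⟩ := Submodule.mem_span_singleton.mp hv
    exact hy (exists_third v f w (Or.inr ⟨by omega, c, hc.symm⟩))
  subst hm3
  have hq4 : 4 ≤ Fintype.card F := by
    have h2 : Fintype.card F ≠ 2 := fun e => hex.2.2.1 (by rw [e])
    have h3 : Fintype.card F ≠ 3 := fun e => hex.2.2.2 (by rw [e])
    omega
  obtain ⟨α, hα0, hα2⟩ : ∃ α : F, α ≠ 0 ∧ α * α ≠ 1 := by
    obtain ⟨α, -, hα⟩ := Finset.exists_mem_notMem_of_card_lt_card (s := ({0, 1, -1} : Finset F)) (t := univ)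
      (lt_of_le_of_lt Finset.card_le_three (by rw [Finset.card_univ]; omega))
    simp only [Finset.mem_insert, Finset.mem_singleton, not_or] at hα
    exact ⟨α, hα.1, fun e => (mul_self_eq_one_iff.mp e).elim hα.2.1 hα.2.2⟩
  obtain ⟨b, hbv, hbS⟩ := exists_dot hvw
  have hbw : b ⬝ᵥ w = 0 := hbS w (Submodule.subset_span rfl)
  have hdet : (tvm ((α - 1) • v) b * tvm ((α⁻¹ - 1) • z) f).det = 1 := by
    rw [Matrix.det_mul, det_tvm, det_tvm, dotProduct_smul, dotProduct_smul, hbv, hz, smul_eq_mul,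
      smul_eq_mul, mul_one, mul_one, add_sub_cancel, add_sub_cancel, mul_inv_cancel₀ hα0]
  let g : GL (Fin 3) F := Matrix.GeneralLinearGroup.mkOfDetNeZero _ (by rw [hdet]; exact one_ne_zero)
  have hgv : g.val = tvm ((α - 1) • v) b * tvm ((α⁻¹ - 1) • z) f := rfl
  refine ⟨g, tvGL v ((α / α⁻¹ - 1)⁻¹ • f) (smul_left_dot h), ?_,
    hs _ _ _ (by rw [smul_dotProduct, hfw, smul_zero]), ?_⟩
  · rw [hgv, hdet, one_smul, ← Matrix.mulVec_mulVec, tvm_mulVec ((α⁻¹ - 1) • z) f w, hfw, zero_smul, add_zero,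
      tvm_mulVec, hbw, zero_smul, add_zero]
  · refine comm_of_scale g v f h α α⁻¹ (inv_ne_zero hα0) (fun e => hα2 ?_) ?_ ?_
    · nth_rewrite 1 [e]
      exact inv_mul_cancel₀ hα0
    · rw [hgv, ← Matrix.mulVec_mulVec, tvm_mulVec ((α⁻¹ - 1) • z) f v, h, zero_smul, add_zero, tvm_mulVec, hbv,
        one_smul]
      nth_rewrite 1 [← one_smul F v]
      rw [← add_smul, add_sub_cancel]
    · have e1 : f ᵥ* tvm ((α - 1) • v) b = f := by
        rw [vecMul_tvm, dotProduct_smul, h, smul_zero, zero_smul, add_zero]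
      rw [hgv, ← Matrix.vecMul_vecMul, e1, vecMul_tvm, dotProduct_smul, hz, smul_eq_mul, mul_one]
      nth_rewrite 1 [← one_smul F f]
      rw [← add_smul, add_sub_cancel]

omit [DecidableEq F] in
/-- A representation whose transvection traces equal the degree is trivial. -/
theorem trivial_of_rad_trivial (hm : 2 ≤ m)
    (ρ : Representation ℂ (Matrix.SpecialLinearGroup (Fin (m + 1)) F) V) (h : ∀ f, ρ (radSL f) = 1)
    (g : Matrix.SpecialLinearGroup (Fin (m + 1)) F) : ρ g = 1 := by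
  have : Nontrivial (Fin (m + 1)) := Fin.nontrivial_iff_two_le.mpr (by omega)
  have hall : ρ.ker = ⊤ := CfsgLib.SLn.eq_top_of_transvection _ fun i j hij c => by
    rcases eq_or_ne c 0 with rfl | hc
    · refine MonoidHom.mem_ker.mpr ?_
      rw [show Matrix.SpecialLinearGroup.transvection hij (0 : F) = 1 from Subtype.ext (by simp), map_one]
    obtain ⟨a, f', -, he⟩ := exists_conj_rad (m := m) (by omega) (Pi.single i c) (Pi.single j 1)
      (by simp [hij]) (Pi.single_ne_zero_iff.2 hc) (Pi.single_ne_zero_iff.2 one_ne_zero)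
    have e : Matrix.SpecialLinearGroup.transvection hij c =
        tvSL (Pi.single i c) (Pi.single j 1) (by simp [hij]) := by
      refine Subtype.ext ?_
      show Matrix.transvection i j c = tvm _ _
      ext a b
      simp [Matrix.transvection, tvm, Matrix.vecMulVec_apply, Matrix.single_apply, Pi.single_apply]
      grind
    rw [MonoidHom.mem_ker, e, he, map_mul, map_mul, h, mul_one, ← map_mul, mul_inv_cancel, map_one]
  exact MonoidHom.mem_ker.mp (hall ▸ Subgroup.mem_top g)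

/-- The situation below the bound. -/
theorem small_degree [FiniteDimensional ℂ V] (hm : 2 ≤ m)
    (hex : (m, Fintype.card F) ≠ (2, 2) ∧ (m, Fintype.card F) ≠ (2, 4) ∧ (m, Fintype.card F) ≠ (3, 2) ∧
      (m, Fintype.card F) ≠ (3, 3))
    (θ : AddChar F ℂ) (hθ : θ ≠ 0) (ρ : Representation ℂ (Matrix.SpecialLinearGroup (Fin (m + 1)) F) V)
    (hne : ∃ g, ρ g ≠ 1) (hlt : Module.finrank ℂ V < SLArith.geo (Fintype.card F) (m + 1)) :
    (∀ w, w ≠ 0 → (ofSL hm θ hθ ρ).d w = 1) ∧ Special (ofSL hm θ hθ ρ).fixed ∧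
      Module.finrank ℂ V + 1 = (ofSL hm θ hθ ρ).d 0 + Fintype.card F ^ m ∧
      (∀ v f h, v ≠ 0 → f ≠ 0 → LinearMap.trace ℂ V (ρ (tvSL v f h)) =
        (Module.finrank ℂ V : ℂ) - (Fintype.card F : ℂ) ^ m) := by
  classical
  set q := Fintype.card F with hq
  set M := ofSL hm θ hθ ρ
  set e : Fin m → F := Pi.single ⟨0, by omega⟩ 1
  have he : e ≠ 0 := Pi.single_ne_zero_iff.mpr one_ne_zero
  have h3 := M.finrank_eq he
  have hq1 : 1 ≤ q ^ m := Nat.one_le_pow _ _ Fintype.card_pos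
  have h4 : Module.finrank ℂ V + M.d e = M.d 0 + M.d e * q ^ m := by
    have : ((Module.finrank ℂ V + M.d e : ℕ) : ℂ) = ((M.d 0 + M.d e * q ^ m : ℕ) : ℂ) := by
      push_cast; linear_combination h3
    exact_mod_cast this
  have hd : M.d e = 1 := by
    have hd0 : M.d e ≠ 0 := by
      intro h0
      obtain ⟨g, hg⟩ := hne
      refine hg (trivial_of_rad_trivial hm ρ (fun f => ?_) g)
      have hP : ∀ w, w ≠ 0 → M.P w = 0 := fun w hw => by
        have h1 : M.d w = 0 := (M.d_const hw he).trans h0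
        exact LinearMap.range_eq_bot.mp (Submodule.finrank_eq_zero.mp h1)
      have h1 : M.P 0 = 1 := by
        rw [← M.sum_P, Finset.sum_eq_single (0 : Fin m → F) (fun w _ hw => hP w hw) (by simp)]
      have h2 := M.u_P f 0
      rw [h1, mul_one, dotProduct_zero, AddChar.map_zero_eq_one, one_smul] at h2
      exact h2
    by_contra hd1
    have h5 : 2 * q ^ m ≤ Module.finrank ℂ V + 2 := by
      rcases Nat.lt_or_ge (M.d e) 2 with h | h
      · omega
      · obtain ⟨t, ht⟩ : ∃ t, M.d e = t + 2 := ⟨M.d e - 2, by omega⟩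
        rw [ht] at h4
        have : t * 1 ≤ t * q ^ m := Nat.mul_le_mul_left _ hq1
        rw [add_mul] at h4
        omega
    have h6 : SLArith.geo q (m + 1) + 2 ≤ 2 * q ^ m := by
      have hq2 : 2 ≤ q := Fintype.one_lt_card
      rcases SLArith.geo_mul q (m + 1) (by omega) with h | h
      · obtain ⟨r, hr⟩ : ∃ r, q = r + 2 := ⟨q - 2, by omega⟩
        rw [hr] at h ⊢
        rw [show r + 2 - 1 = r + 1 by omega] at h
        by_contra hlt
        have h7 : (2 * (r + 2) ^ m) * (r + 1) ≤ (SLArith.geo (r + 2) (m + 1) + 1) * (r + 1) :=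
          Nat.mul_le_mul_right _ (by omega)
        have h8 : (r + 2) ^ (m + 1) = (r + 2) * (r + 2) ^ m := pow_succ' _ _
        have h9 : (2 * (r + 2) ^ m) * (r + 1) = (r + 2) * (r + 2) ^ m + r * (r + 2) ^ m := by ring
        rw [add_mul, one_mul] at h7
        omega
      · omega
    omega
  have hd' : ∀ w, w ≠ 0 → M.d w = 1 := fun w hw => (M.d_const hw he).trans hd
  have htr : ∀ v f h, v ≠ 0 → f ≠ 0 → LinearMap.trace ℂ V (ρ (tvSL v f h)) =
      (Module.finrank ℂ V : ℂ) - (q : ℂ) ^ m := by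
    intro v f h hv hf
    obtain ⟨g, f', hf', heq⟩ := exists_conj_rad (m := m) (by omega) v f h hv hf
    rw [heq, map_mul ρ, map_mul ρ, LinearMap.trace_mul_comm, ← mul_assoc, ← map_mul ρ, inv_mul_cancel, map_one, one_mul]
    show LinearMap.trace ℂ V (M.u f') = _
    rw [M.trace_u he hf', hd]
    simp [hq]
  refine ⟨hd', ?_, by rw [hd] at h4; omega, htr⟩
  refine special_fixed M he hd (fun v f h => by simp [M, ofSL]) (fun v f h hv hf => ?_)
    (fun v f w h _ hf _ hfw => comm_twisted hm hex θ hθ ρ v f w h hf hfw)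
  show LinearMap.trace ℂ V (ρ (leviSL F m (tvGL v f h))) = _
  rw [leviSL_tv]
  exact htr _ _ _ (fun h0 => hv (funext fun i => congrFun h0 i.succ))
    (fun h0 => hf (funext fun i => congrFun h0 i.succ))

/-- The number of transvections divides out in the class sum. -/
theorem dvd_class_sum [FiniteDimensional ℂ V] (hm : 2 ≤ m)
    (ρ : Representation ℂ (Matrix.SpecialLinearGroup (Fin (m + 1)) F) V) (hρ : ρ.IsIrreducible)
    (k : ℕ) (hk : Module.finrank ℂ V = k)
    (htr : ∀ v f h, v ≠ 0 → f ≠ 0 → LinearMap.trace ℂ V (ρ (tvSL v f h)) = (k : ℂ) - (Fintype.card F : ℂ) ^ m) :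
    ∃ T : ℕ, T * (Fintype.card F - 1) = (Fintype.card F ^ (m + 1) - 1) * (Fintype.card F ^ m - 1) ∧
      (k : ℤ) ∣ (T : ℤ) * ((k : ℤ) - (Fintype.card F : ℤ) ^ m) := by
  classical
  let pairs : Finset ((Fin (m + 1) → F) × (Fin (m + 1) → F)) :=
    univ.filter fun p => p.1 ≠ 0 ∧ p.2 ≠ 0 ∧ p.2 ⬝ᵥ p.1 = 0
  let tv : (Fin (m + 1) → F) × (Fin (m + 1) → F) → Matrix.SpecialLinearGroup (Fin (m + 1)) F :=
    fun p => if h : p.2 ⬝ᵥ p.1 = 0 then tvSL p.1 p.2 h else 1
  let T : Finset (Matrix.SpecialLinearGroup (Fin (m + 1)) F) := pairs.image tv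
  have hmemT : ∀ x ∈ T, ∃ v f h, v ≠ 0 ∧ f ≠ 0 ∧ x = tvSL v f h := by
    intro x hx
    obtain ⟨p, hp, rfl⟩ := Finset.mem_image.mp hx
    obtain ⟨h1, h2, h3⟩ := (Finset.mem_filter.mp hp).2
    exact ⟨p.1, p.2, h3, h1, h2, dif_pos h3⟩
  have hfib : ∀ x ∈ T, (pairs.filter fun p => tv p = x).card = Fintype.card F - 1 := by
    intro x hx
    obtain ⟨p₀, hp₀, rfl⟩ := Finset.mem_image.mp hx
    obtain ⟨hv₀, hf₀, hfv₀⟩ := (Finset.mem_filter.mp hp₀).2
    rw [← Fintype.card_units, ← Finset.card_univ]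
    refine (Finset.card_bij (fun (c : Fˣ) _ => (c.val • p₀.1, (c⁻¹ : Fˣ).val • p₀.2)) (fun c _ => ?_)
      (fun c _ c' _ h => ?_) (fun p hp => ?_)).symm
    · have hd : ((c⁻¹ : Fˣ).val • p₀.2) ⬝ᵥ (c.val • p₀.1) = 0 := by simp [hfv₀]
      refine Finset.mem_filter.mpr ⟨Finset.mem_filter.mpr ⟨Finset.mem_univ _,
        smul_ne_zero c.ne_zero hv₀, smul_ne_zero (c⁻¹).ne_zero hf₀, hd⟩, ?_⟩
      show dite _ _ _ = dite _ _ _
      rw [dif_pos hd, dif_pos hfv₀]
      refine Subtype.ext ?_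
      show tvm _ _ = tvm _ _
      simp [tvm, Matrix.smul_vecMulVec, Matrix.vecMulVec_smul, smul_smul]
    · exact Units.ext (smul_left_injective F hv₀ (congrArg Prod.fst h))
    · obtain ⟨hp1, hpe⟩ := Finset.mem_filter.mp hp
      obtain ⟨hv, hf, hfv⟩ := (Finset.mem_filter.mp hp1).2
      have hE : Matrix.vecMulVec p.1 p.2 = Matrix.vecMulVec p₀.1 p₀.2 := by
        simp only [tv, dif_pos hfv, dif_pos hfv₀] at hpe
        exact add_left_cancel (congrArg Subtype.val hpe : tvm p.1 p.2 = tvm p₀.1 p₀.2)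
      obtain ⟨j, hj⟩ := Function.ne_iff.mp hf₀
      obtain ⟨i, hi⟩ := Function.ne_iff.mp hv₀
      have hij := congrFun (congrFun hE i) j
      simp only [Matrix.vecMulVec_apply] at hij
      have hpj : p.2 j ≠ 0 := by
        intro e
        rw [e, mul_zero] at hij
        exact mul_ne_zero hi hj hij.symm
      refine ⟨Units.mk0 (p₀.2 j / p.2 j) (div_ne_zero hj hpj), Finset.mem_univ _, ?_⟩
      have hv' : ∀ a, p₀.2 j / p.2 j * p₀.1 a = p.1 a := by
        intro a
        have ha := congrFun (congrFun hE a) j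
        simp only [Matrix.vecMulVec_apply] at ha
        field_simp
        linear_combination -ha
      refine Prod.ext (funext fun a => ?_) (funext fun b => ?_)
      · simpa using hv' a
      · have hb := congrFun (congrFun hE i) b
        simp only [Matrix.vecMulVec_apply] at hb
        have hi' := hv' i
        simp only [Units.val_inv_eq_inv_val, Units.val_mk0, Pi.smul_apply, smul_eq_mul, inv_div]
        rw [← hi'] at hb
        field_simp at hb
        rw [div_mul_eq_mul_div, div_eq_iff hj]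
        exact mul_left_cancel₀ hi (by linear_combination -hb)
  have hpairs : pairs.card = (Fintype.card F ^ (m + 1) - 1) * (Fintype.card F ^ m - 1) := by
    have e : pairs = ((univ.erase 0).sigma fun v : Fin (m + 1) → F =>
        (univ.filter fun f => f ⬝ᵥ v = 0).erase 0).map (Equiv.sigmaEquivProd _ _).toEmbedding := by
      ext p
      simp only [pairs, Finset.mem_filter, Finset.mem_univ, true_and, Finset.mem_map_equiv, Finset.mem_sigma,
        Finset.mem_erase]
      tauto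
    rw [e, Finset.card_map, Finset.card_sigma, Finset.sum_congr rfl
      (g := fun _ => Fintype.card F ^ m - 1) (fun v hv => ?_), Finset.sum_const,
      Finset.card_erase_of_mem (Finset.mem_univ _), Finset.card_univ, Fintype.card_fun, Fintype.card_fin, smul_eq_mul]
    rw [Finset.card_erase_of_mem (s := univ.filter fun f : Fin (m + 1) → F => f ⬝ᵥ v = 0) (a := 0) (by simp),
      ← Fintype.card_subtype, ← Nat.card_eq_fintype_card]
    simp_rw [dotProduct_comm _ v]
    exact congrArg (· - 1) (CfsgLib.OrthOrder.card_dot_eq (Finset.ne_of_mem_erase hv) 0)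
  have hTcard : T.card * (Fintype.card F - 1) = (Fintype.card F ^ (m + 1) - 1) * (Fintype.card F ^ m - 1) := by
    rw [← hpairs, Finset.card_eq_sum_card_image tv pairs, Finset.sum_congr rfl hfib, Finset.sum_const, smul_eq_mul]
  refine ⟨T.card, hTcard, ?_⟩
  let S : Module.End ℂ V := ∑ x ∈ T, ρ x
  have hconj : ∀ a x, x ∈ T → a * x * a⁻¹ ∈ T := by
    intro a x hx
    obtain ⟨v, f, h, hv, hf, rfl⟩ := hmemT x hx
    have e : a.1 * tvm v f = tvm (a.1 *ᵥ v) (f ᵥ* (a⁻¹).1) * a.1 := by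
      refine mul_tvm_eq _ _ _ _ _ ?_
      rw [Matrix.vecMul_vecMul, ← Matrix.SpecialLinearGroup.coe_mul, inv_mul_cancel,
        Matrix.SpecialLinearGroup.coe_one, Matrix.vecMul_one]
    have h' : (f ᵥ* (a⁻¹).1) ⬝ᵥ (a.1 *ᵥ v) = 0 := by
      rw [← Matrix.dotProduct_mulVec, Matrix.mulVec_mulVec, ← Matrix.SpecialLinearGroup.coe_mul, inv_mul_cancel,
        Matrix.SpecialLinearGroup.coe_one, Matrix.one_mulVec, h]
    refine Finset.mem_image.mpr ⟨(a.1 *ᵥ v, f ᵥ* (a⁻¹).1), Finset.mem_filter.mpr ⟨Finset.mem_univ _, ?_, ?_, h'⟩, ?_⟩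
    · intro e0
      apply hv
      have := congrArg (fun x => (a⁻¹).1 *ᵥ x) e0
      simpa only [Matrix.mulVec_mulVec, ← Matrix.SpecialLinearGroup.coe_mul, inv_mul_cancel,
        Matrix.SpecialLinearGroup.coe_one, Matrix.one_mulVec, Matrix.mulVec_zero] using this
    · intro e0
      apply hf
      have := congrArg (fun x => x ᵥ* a.1) e0
      simpa only [Matrix.vecMul_vecMul, ← Matrix.SpecialLinearGroup.coe_mul, inv_mul_cancel,
        Matrix.SpecialLinearGroup.coe_one, Matrix.vecMul_one, Matrix.zero_vecMul] using this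
    · simp only [tv, dif_pos h']
      rw [eq_mul_inv_iff_mul_eq]
      exact Subtype.ext e.symm
  have hS : ∀ a, ρ a ∘ₗ S = S ∘ₗ ρ a := by
    intro a
    simp only [S, ← Module.End.mul_eq_comp, Finset.mul_sum, Finset.sum_mul, ← map_mul]
    refine Finset.sum_nbij' (fun x => a * x * a⁻¹) (fun x => a⁻¹ * x * a) (fun x hx => hconj a x hx)
      (fun x hx => by simpa using hconj a⁻¹ x hx) (fun x _ => by group) (fun x _ => by group)
      (fun x _ => by rw [inv_mul_cancel_right])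
  have : ρ.IsIrreducible := hρ
  obtain ⟨⟨c, hc⟩, -⟩ : (∃ c : ℂ, S = c • LinearMap.id) ∧ True := ⟨by
    obtain ⟨c, hc⟩ := (Representation.IsIrreducible.algebraMap_intertwiningMap_bijective_of_isAlgClosed
      (ρ := ρ)).2 ⟨S, fun g => (hS g).symm⟩
    exact ⟨c, (congrArg Representation.IntertwiningMap.toLinearMap hc).symm.trans (LinearMap.ext fun x => by simp)⟩,
    trivial⟩
  have htrS : LinearMap.trace ℂ V S = (T.card : ℂ) * ((k : ℂ) - (Fintype.card F : ℂ) ^ m) := by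
    rw [map_sum, Finset.sum_congr rfl (g := fun _ => (k : ℂ) - (Fintype.card F : ℂ) ^ m) (fun x hx => ?_),
      Finset.sum_const, nsmul_eq_mul]
    obtain ⟨v, f, h, hv, hf, rfl⟩ := hmemT x hx
    exact htr v f h hv hf
  rw [hc, map_smul, LinearMap.trace_id, hk, smul_eq_mul] at htrS
  have hint : IsIntegral ℤ c := by
    let Φ : MonoidAlgebra ℤ (Matrix.SpecialLinearGroup (Fin (m + 1)) F) →ₐ[ℤ] Module.End ℂ V :=
      MonoidAlgebra.lift ℤ (Module.End ℂ V) _ ρ
    let z : MonoidAlgebra ℤ (Matrix.SpecialLinearGroup (Fin (m + 1)) F) := ∑ x ∈ T, MonoidAlgebra.of ℤ _ x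
    have hz : Φ z = algebraMap ℂ (Module.End ℂ V) c := by
      simp only [Φ, z, map_sum, MonoidAlgebra.lift_of]
      exact hc
    have h1 := (IsIntegral.of_finite ℤ z).map Φ
    rw [hz] at h1
    have : Nontrivial V := by
      obtain ⟨W, hW⟩ := exists_ne (⊥ : Subrepresentation ρ)
      by_contra hcon
      rw [not_nontrivial_iff_subsingleton] at hcon
      exact hW (Subrepresentation.toSubmodule_injective (Subsingleton.elim _ _))
    exact (isIntegral_algebraMap_iff (FaithfulSMul.algebraMap_injective ℂ (Module.End ℂ V))).mp h1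
  have hkpos : (k : ℂ) ≠ 0 := by
    rw [← hk, Nat.cast_ne_zero]
    intro h0
    obtain ⟨W, hW⟩ := exists_ne (⊥ : Subrepresentation ρ)
    have : Subsingleton V := Module.finrank_zero_iff.mp h0
    exact hW (Subrepresentation.toSubmodule_injective (Subsingleton.elim _ _))
  set a : ℤ := (T.card : ℤ) * ((k : ℤ) - (Fintype.card F : ℤ) ^ m) with ha
  have hca : (a : ℂ) = c * k := by rw [htrS, ha]; push_cast; ring
  have hcQ : IsIntegral ℤ ((a : ℚ) / k) := by
    refine (isIntegral_algebraMap_iff (algebraMap ℚ ℂ).injective).mp ?_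
    rw [map_div₀, map_intCast, map_natCast, hca, mul_div_cancel_right₀ _ hkpos]
    exact hint
  obtain ⟨z, hz⟩ := IsIntegrallyClosed.isIntegral_iff.mp hcQ
  refine ⟨z, ?_⟩
  have hkQ : (k : ℚ) ≠ 0 := by exact_mod_cast hkpos
  have : (a : ℚ) = ((k * z : ℤ) : ℚ) := by
    push_cast
    rw [show (z : ℚ) = (a : ℚ) / k from hz]
    field_simp
  exact_mod_cast this

/-- The divisibility on the defect below the bound. -/
theorem dvd_defect {q m T k j : ℕ} (hq : 2 ≤ q) (hT : T * (q - 1) = (q ^ (m + 1) - 1) * (q ^ m - 1))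
    (hdvd : (k : ℤ) ∣ (T : ℤ) * ((k : ℤ) - (q : ℤ) ^ m)) (hj : k + j = SLArith.geo q (m + 1)) :
    k ∣ j * (j + 1) * (q - 1) * (q + (q - 1) * j) := by
  obtain ⟨r, rfl⟩ : ∃ r, q = r + 1 := ⟨q - 1, by omega⟩
  have hg := (SLArith.geo_mul (r + 1) (m + 1) (by omega)).resolve_right (by omega)
  rw [← hj, Nat.add_sub_cancel] at hg
  rw [Nat.add_sub_cancel] at hT ⊢
  have h1 : ((T : ℤ) * r) = (((r : ℤ) + 1) ^ (m + 1) - 1) * (((r : ℤ) + 1) ^ m - 1) := by
    have := congrArg (fun x : ℕ => (x : ℤ)) hT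
    simp only [Nat.cast_mul, Nat.cast_sub (Nat.one_le_pow _ _ (Nat.succ_pos r))] at this
    push_cast at this
    exact this
  have h2 : ((k : ℤ) + j) * r + ((r : ℤ) + 1) = ((r : ℤ) + 1) ^ (m + 1) := by exact_mod_cast hg
  have hT' : (T : ℤ) = ((k : ℤ) + j + 1) * (((r : ℤ) + 1) ^ m - 1) := by
    refine mul_right_cancel₀ (b := (r : ℤ)) (by exact_mod_cast (show r ≠ 0 by omega)) ?_
    rw [h1, ← h2]; ring
  have h3 : (k : ℤ) ∣ ((r : ℤ) + 1) * ((r : ℤ) + 1) * ((T : ℤ) * ((k : ℤ) - ((r : ℤ) + 1) ^ m)) := by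
    refine dvd_mul_of_dvd_right ?_ _
    exact_mod_cast hdvd
  rw [hT'] at h3
  have e : ((r : ℤ) + 1) * ((r : ℤ) + 1) * (((k : ℤ) + j + 1) * (((r : ℤ) + 1) ^ m - 1) * ((k : ℤ) - ((r : ℤ) + 1) ^ m)) =
      ((k : ℤ) + j + 1) * ((r : ℤ) * ((k : ℤ) + j)) * ((k : ℤ) * (r + 1) - ((k + j) * r + (r + 1))) := by
    rw [pow_succ] at h2
    have hx : ((r : ℤ) + 1) * (((r : ℤ) + 1) ^ m - 1) = (r : ℤ) * (k + j) := by linear_combination -h2
    have hy : ((r : ℤ) + 1) * ((k : ℤ) - ((r : ℤ) + 1) ^ m) = (k : ℤ) * (r + 1) - ((k + j) * r + (r + 1)) := by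
      linear_combination h2
    rw [← hx, ← hy]; ring
  rw [e] at h3
  rw [← ZMod.natCast_eq_zero_iff]
  have h4 := (ZMod.intCast_zmod_eq_zero_iff_dvd _ k).mpr h3
  push_cast at h4 ⊢
  simp only [ZMod.natCast_self, zero_add, zero_mul, zero_sub] at h4
  linear_combination -h4

/-- The generic case. -/
theorem sl_lower_three [FiniteDimensional ℂ V] (hm : 2 ≤ m) (hq : 3 ≤ Fintype.card F)
    (hex : (m, Fintype.card F) ≠ (2, 4) ∧ (m, Fintype.card F) ≠ (3, 3))
    (ρ : Representation ℂ (Matrix.SpecialLinearGroup (Fin (m + 1)) F) V) (hρ : ρ.IsIrreducible)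
    (hk : 2 ≤ Module.finrank ℂ V) :
    SLArith.geo (Fintype.card F) (m + 1) ≤ Module.finrank ℂ V := by
  classical
  by_contra hlt
  push Not at hlt
  obtain ⟨θ, hθ⟩ : ∃ θ : AddChar F ℂ, θ ≠ 0 := by
    have : Nontrivial (AddChar F ℂ) := Fintype.one_lt_card_iff_nontrivial.mp
      (by rw [AddChar.card_eq]; exact Fintype.one_lt_card)
    exact exists_ne 0
  have hex' : (m, Fintype.card F) ≠ (2, 2) ∧ (m, Fintype.card F) ≠ (2, 4) ∧ (m, Fintype.card F) ≠ (3, 2) ∧
      (m, Fintype.card F) ≠ (3, 3) :=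
    ⟨fun h => by simp at h; omega, hex.1, fun h => by simp at h; omega, hex.2⟩
  obtain ⟨-, hfix, hsum, htr⟩ := small_degree hm hex' θ hθ ρ (exists_ne_one_of_irreducible ρ hρ hk) hlt
  obtain ⟨T, hT, hdvd⟩ := dvd_class_sum hm ρ hρ _ rfl htr
  have h5 := special_bound θ hθ hq m hm (ofSL hm θ hθ ρ).fixed hfix
  have h6 : Module.finrank ℂ (LinearMap.range ((ofSL hm θ hθ ρ).P 0)) = (ofSL hm θ hθ ρ).d 0 := rfl
  rw [h6] at h5
  have hgeo : SLArith.geo (Fintype.card F) (m + 1) = SLArith.geo (Fintype.card F) m + Fintype.card F ^ m := by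
    obtain ⟨r, rfl⟩ : ∃ r, m = r + 1 := ⟨m - 1, by omega⟩
    simp [SLArith.geo]
  set j := SLArith.geo (Fintype.card F) (m + 1) - Module.finrank ℂ V with hj
  have hdiv := dvd_defect (j := j) (by omega) hT hdvd (by omega)
  refine SLArith.no_degree (m + 1) (Fintype.card F) j (by omega) (FiniteField.isPrimePow_card F) ?_ (by omega)
    (by omega) ?_
  · simp only [ne_eq, Prod.mk.injEq] at hex' ⊢
    omega
  · rwa [show SLArith.geo (Fintype.card F) (m + 1) - j = Module.finrank ℂ V by omega]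

end CfsgLib.MinDegree.Mirabolic
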