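import Cfsg.Agent.MinDegree.Orbit
set_option autoImplicit false

/-!
The deleted permutation representation of a doubly transitive group.
-/

namespace CfsgLib.MinDegree.TwoTransPerm

open Finset

variable {G X : Type*} [Group G] [Fintype X] [MulAction G X]

/-- Precomposition with the action. -/
def perm : Representation ℂ G (X → ℂ) where
  toFun g := LinearMap.funLeft ℂ ℂ (fun x => g⁻¹ • x)
  map_one' := LinearMap.ext fun f => funext fun x => by simp [LinearMap.funLeft_apply]
  map_mul' g h := LinearMap.ext fun f => funext fun x => by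
    simp [LinearMap.funLeft_apply, mul_smul]

omit [Fintype X] in
theorem perm_apply (g : G) (f : X → ℂ) (x : X) : perm g f x = f (g⁻¹ • x) := rfl

/-- The deleted permutation representation is irreducible. -/
theorem exists_irreducible [Finite G] [MulAction.IsMultiplyPretransitive G X 2] (k : ℕ)
    (hk : Fintype.card X = k + 1) (hk0 : 0 < k) :
    ∃ ρ : Representation ℂ G (Fin k → ℂ), ρ.IsIrreducible := by
  classical
  let s : (X → ℂ) →ₗ[ℂ] ℂ := ∑ x, LinearMap.proj x
  have hs : ∀ f : X → ℂ, s f = ∑ x, f x := fun f => by simp [s]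
  have hmem : ∀ f : X → ℂ, f ∈ LinearMap.ker s ↔ ∑ x, f x = 0 := fun f => by
    rw [LinearMap.mem_ker, hs]
  have hsum : ∀ (g : G) (f : X → ℂ), ∑ x, perm g f x = ∑ x, f x := fun g f =>
    Fintype.sum_equiv (MulAction.toPerm g⁻¹) _ _ fun x => rfl
  have hinv : ∀ (g : G), ∀ f ∈ LinearMap.ker s, perm g f ∈ LinearMap.ker s := fun g f hf =>
    (hmem _).mpr (by rw [hsum]; exact (hmem f).mp hf)
  obtain ⟨x0⟩ : Nonempty X := Fintype.card_pos_iff.mp (by omega)
  have hfin : Module.finrank ℂ (LinearMap.ker s) = k := by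
    have h := LinearMap.finrank_range_add_finrank_ker s
    have hsurj : LinearMap.range s = ⊤ := LinearMap.range_eq_top.mpr fun c =>
      ⟨Pi.single x0 c, by rw [hs, Finset.sum_pi_single']; simp⟩
    rw [hsurj, finrank_top, Module.finrank_self, Module.finrank_fintype_fun_eq_card] at h
    omega
  let ρ0 : Representation ℂ G (LinearMap.ker s) :=
    { toFun := fun g => (perm g).restrict (hinv g)
      map_one' := LinearMap.ext fun f => Subtype.ext (by
        show perm 1 f.1 = f.1
        rw [map_one]; rfl)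
      map_mul' := fun g h => LinearMap.ext fun f => Subtype.ext (by
        show perm (g * h) f.1 = perm g (perm h f.1)
        rw [map_mul]; rfl) }
  have hscal : ∀ Y : Module.End ℂ (LinearMap.ker s), (∀ g, Y * ρ0 g = ρ0 g * Y) → ∃ c : ℂ, Y = c • 1 := by
    intro Y hY
    let avg : (X → ℂ) →ₗ[ℂ] LinearMap.ker s :=
      (LinearMap.id - (Fintype.card X : ℂ)⁻¹ • LinearMap.pi (fun _ => s)).codRestrict _ (fun f => (hmem _).mpr (by
        have hX : (Fintype.card X : ℂ) ≠ 0 := Nat.cast_ne_zero.mpr (by omega)
        simp only [LinearMap.sub_apply, LinearMap.id_apply, LinearMap.smul_apply, Pi.sub_apply, Pi.smul_apply,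
          LinearMap.pi_apply, smul_eq_mul, Finset.sum_sub_distrib, Finset.sum_const, Finset.card_univ, nsmul_eq_mul, hs]
        rw [← mul_assoc, mul_inv_cancel₀ hX, one_mul, sub_self]))
    have havg : ∀ (f : X → ℂ) x, (avg f).1 x = f x - (Fintype.card X : ℂ)⁻¹ * ∑ y, f y := fun f x => by
      simp [avg, hs]
    let M : X → X → ℂ := fun x y => (Y (avg (Pi.single y 1))).1 x
    have hM : ∀ (g : G) x y, M (g • x) (g • y) = M x y := by
      intro g x y
      have e1 : perm g (Pi.single y (1 : ℂ)) = Pi.single (g • y) 1 := by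
        funext z
        simp only [perm_apply, Pi.single_apply]
        exact if_congr inv_smul_eq_iff rfl rfl
      have e2 : ρ0 g (avg (Pi.single y (1 : ℂ))) = avg (Pi.single (g • y) 1) := Subtype.ext (funext fun z => by
        show perm g (avg (Pi.single y (1 : ℂ))).1 z = _
        rw [perm_apply, havg, havg, ← e1, perm_apply, hsum])
      have e3 := congrArg (fun v : LinearMap.ker s => v.1 (g • x)) (LinearMap.congr_fun (hY g) (avg (Pi.single y 1)))
      simp only [Module.End.mul_apply, e2] at e3
      show (Y (avg (Pi.single (g • y) 1))).1 (g • x) = _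
      rw [e3]
      show perm g (Y (avg (Pi.single y 1))).1 (g • x) = _
      rw [perm_apply, inv_smul_smul]
    obtain ⟨x1, hx1⟩ := Fintype.exists_ne_of_one_lt_card (by omega) x0
    have hM0 : ∀ x, M x x = M x0 x0 := fun x => by
      obtain ⟨g, hg⟩ := (MulAction.isPretransitive_of_is_two_pretransitive (G := G) (α := X)).exists_smul_eq x0 x
      rw [← hg, hM]
    have hM1 : ∀ x y, x ≠ y → M x y = M x1 x0 := fun x y hxy => by
      obtain ⟨g, hg, hg'⟩ := MulAction.is_two_pretransitive_iff.mp
        (inferInstance : MulAction.IsMultiplyPretransitive G X 2) hx1 hxy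
      rw [← hg, ← hg', hM]
    refine ⟨M x0 x0 - M x1 x0, LinearMap.ext fun v => Subtype.ext (funext fun x => ?_)⟩
    have hv : avg v.1 = v := Subtype.ext (funext fun z => by
      rw [havg, (hmem v.1).mp v.2, mul_zero, sub_zero])
    have hexp : v.1 = ∑ y, v.1 y • (Pi.single y (1 : ℂ) : X → ℂ) := by
      funext z; simp [Finset.sum_apply, Pi.single_apply]
    conv_lhs => rw [← hv, hexp, map_sum, map_sum]
    simp only [map_smul, Submodule.coe_sum, Submodule.coe_smul, Finset.sum_apply, Pi.smul_apply, smul_eq_mul,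
      LinearMap.smul_apply, Module.End.one_apply]
    show ∑ y, v.1 y * M x y = _
    have : ∀ y, v.1 y * M x y = v.1 y * M x1 x0 + if y = x then v.1 y * (M x0 x0 - M x1 x0) else 0 := fun y => by
      split_ifs with h
      · rw [h, hM0]; ring
      · rw [hM1 x y (Ne.symm h), add_zero]
    rw [Finset.sum_congr rfl fun y _ => this y, Finset.sum_add_distrib, ← Finset.sum_mul, (hmem v.1).mp v.2,
      Finset.sum_ite_eq' univ x fun y => v.1 y * (M x0 x0 - M x1 x0)]
    simp [mul_comm]
  let b : LinearMap.ker s ≃ₗ[ℂ] (Fin k → ℂ) := LinearEquiv.ofFinrankEq _ _ (by rw [hfin]; simp)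
  let ρ : Representation ℂ G (Fin k → ℂ) :=
    { toFun := fun g => b.conj (ρ0 g)
      map_one' := by rw [map_one]; exact LinearEquiv.conj_id b
      map_mul' := fun g h => by rw [map_mul]; exact LinearEquiv.conj_comp b _ _ }
  have : Nonempty (Fin k) := ⟨⟨0, hk0⟩⟩
  refine ⟨ρ, isIrreducible_of_scalar ρ fun Y hY => ?_⟩
  obtain ⟨c, hc⟩ := hscal (b.symm.conj Y) fun g => by
    have h := congrArg b.symm.conj (hY g)
    rw [Module.End.mul_eq_comp, Module.End.mul_eq_comp, LinearEquiv.conj_comp, LinearEquiv.conj_comp] at h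
    have e : b.symm.conj (ρ g) = ρ0 g := LinearMap.ext fun y => by simp [ρ, LinearEquiv.conj_apply]
    rwa [e] at h
  refine ⟨c, LinearMap.ext fun y => ?_⟩
  have h := congrArg (fun z => b z) (LinearMap.congr_fun hc (b.symm y))
  simpa [LinearEquiv.conj_apply] using h

end CfsgLib.MinDegree.TwoTransPerm
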