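import Cfsg.Agent.MinDegree.Weil
import Cfsg.Agent.MinDegree.SLArith
import Cfsg.Agent.OrthOrder.Count
import Cfsg.Agent.SLn.Basic
set_option autoImplicit false

/-!
Representations of `GL_m(q)` restricted to the mirabolic subgroup; the recursion for the smallest degree.
-/

namespace CfsgLib.MinDegree.Mirabolic

open Matrix Finset

variable {F : Type*} [Field F] {m : ℕ}

/-- The matrix `1 + v f`. -/
def tvm (v f : Fin m → F) : Matrix (Fin m) (Fin m) F := 1 + Matrix.vecMulVec v f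

theorem tvm_mul_tvm (v f g : Fin m → F) (h : f ⬝ᵥ v = 0) : tvm v f * tvm v g = tvm v (f + g) := by
  simp [tvm, Matrix.add_mul, Matrix.mul_add, Matrix.vecMulVec_mul_vecMulVec, h, Matrix.vecMulVec_add]
  abel

theorem tvm_zero (v : Fin m → F) : tvm v 0 = 1 := by simp [tvm]

theorem det_tvm (v f : Fin m → F) : (tvm v f).det = 1 + f ⬝ᵥ v := by
  rw [tvm, Matrix.vecMulVec_eq Unit, Matrix.det_one_add_replicateCol_mul_replicateRow]

theorem tvm_mulVec (v f x : Fin m → F) : tvm v f *ᵥ x = x + (f ⬝ᵥ x) • v := by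
  rw [tvm, Matrix.add_mulVec, Matrix.one_mulVec, Matrix.vecMulVec_mulVec, op_smul_eq_smul]

theorem vecMul_tvm (v f g : Fin m → F) : g ᵥ* tvm v f = g + (g ⬝ᵥ v) • f := by
  rw [tvm, Matrix.vecMul_add, Matrix.vecMul_one, Matrix.vecMul_vecMulVec]

theorem mul_tvm_eq (g : Matrix (Fin m) (Fin m) F) (v f v' f' : Fin m → F)
    (h : Matrix.vecMulVec (g *ᵥ v) f = Matrix.vecMulVec v' (f' ᵥ* g)) : g * tvm v f = tvm v' f' * g := by
  rw [tvm, tvm, Matrix.mul_add, Matrix.add_mul, Matrix.mul_one, Matrix.one_mul, Matrix.mul_vecMulVec,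
    Matrix.vecMulVec_mul, h]

/-- A transvection as an element of `GL`. -/
def tvGL (v f : Fin m → F) (h : f ⬝ᵥ v = 0) : GL (Fin m) F :=
  ⟨tvm v f, tvm v (-f), by rw [tvm_mul_tvm _ _ _ h, add_neg_cancel, tvm_zero],
    by rw [tvm_mul_tvm _ _ _ (by rw [neg_dotProduct, h, neg_zero]), neg_add_cancel, tvm_zero]⟩

@[simp] theorem tvGL_coe (v f : Fin m → F) (h : f ⬝ᵥ v = 0) : (tvGL v f h).val = tvm v f := rfl

@[simp] theorem det_tvGL (v f : Fin m → F) (h : f ⬝ᵥ v = 0) :
    Matrix.GeneralLinearGroup.det (tvGL v f h) = 1 := by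
  refine Units.ext ?_
  show (tvm v f).det = 1
  rw [det_tvm, h, add_zero]

theorem smul_left_dot {c : F} {v f : Fin m → F} (h : f ⬝ᵥ v = 0) : (c • f) ⬝ᵥ v = 0 := by
  rw [smul_dotProduct, h, smul_zero]

/-- A scaled root group consists of commutators. -/
theorem comm_of_scale (g : GL (Fin m) F) (v f : Fin m → F) (h : f ⬝ᵥ v = 0) (a b : F) (hb : b ≠ 0)
    (hab : a ≠ b) (hv : g.val *ᵥ v = a • v) (hf : f ᵥ* g.val = b • f) :
    tvGL v f h = g * tvGL v ((a / b - 1)⁻¹ • f) (smul_left_dot h) * g⁻¹ *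
      (tvGL v ((a / b - 1)⁻¹ • f) (smul_left_dot h))⁻¹ := by
  set c := (a / b - 1)⁻¹ with hc
  have hc1 : a / b - 1 ≠ 0 := sub_ne_zero.mpr (by rwa [Ne, div_eq_one_iff_eq hb])
  have key : g.val * tvm v (c • f) = tvm v ((a / b * c) • f) * g.val := by
    refine mul_tvm_eq _ _ _ _ _ ?_
    rw [hv, Matrix.smul_vecMul, hf, smul_smul, Matrix.smul_vecMulVec, Matrix.vecMulVec_smul,
      Matrix.vecMulVec_smul, smul_smul]
    congr 1
    field_simp
  rw [eq_mul_inv_iff_mul_eq, eq_mul_inv_iff_mul_eq]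
  refine Units.ext ?_
  show tvm v f * tvm v (c • f) * g.val = g.val * tvm v (c • f)
  rw [key, tvm_mul_tvm _ _ _ h]
  congr 2
  rw [← one_smul F f, smul_smul, smul_smul, ← add_smul, mul_one, mul_one]
  congr 1
  rw [hc]
  field_simp
  ring

/-- A transvection is the commutator of two others through a third vector. -/
theorem comm_of_third (v f y b : Fin m → F) (h : f ⬝ᵥ v = 0) (hy : f ⬝ᵥ y = 0) (hbv : b ⬝ᵥ v = 0)
    (hby : b ⬝ᵥ y = 1) :
    tvGL v f h = tvGL v b hbv * tvGL y f hy * (tvGL v b hbv)⁻¹ * (tvGL y f hy)⁻¹ := by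
  rw [eq_mul_inv_iff_mul_eq, eq_mul_inv_iff_mul_eq]
  refine Units.ext ?_
  show tvm v f * tvm y f * tvm v b = tvm v b * tvm y f
  simp [tvm, Matrix.add_mul, Matrix.mul_add, Matrix.vecMulVec_mul_vecMulVec, h, hy, hbv, hby,
    Matrix.vecMulVec_smul]
  abel

theorem exists_dot {S : Submodule F (Fin m → F)} {y : Fin m → F} (hy : y ∉ S) :
    ∃ b : Fin m → F, b ⬝ᵥ y = 1 ∧ ∀ s ∈ S, b ⬝ᵥ s = 0 := by
  obtain ⟨φ, hφy, hφS⟩ := Submodule.exists_dual_map_eq_bot_of_notMem hy inferInstance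
  let b : Fin m → F := fun i => φ (Pi.single i 1)
  have hb : ∀ x, b ⬝ᵥ x = φ x := by
    intro x
    conv_rhs => rw [pi_eq_sum_univ' x]
    simp [b, dotProduct, map_sum, map_smul, mul_comm]
  refine ⟨(φ y)⁻¹ • b, ?_, fun s hs => ?_⟩
  · rw [smul_dotProduct, hb, smul_eq_mul, inv_mul_cancel₀ hφy]
  · have : φ s = 0 := by
      have h1 : φ s ∈ S.map φ := Submodule.mem_map_of_mem hs
      rw [hφS] at h1
      exact (Submodule.mem_bot F).mp h1
    rw [smul_dotProduct, hb, this, smul_zero]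

/-- A vector in the kernel of `f` outside the span of `v` and `w`. -/
theorem exists_third (v f w : Fin m → F) (h : 4 ≤ m ∨ (3 ≤ m ∧ ∃ c : F, v = c • w)) :
    ∃ y, f ⬝ᵥ y = 0 ∧ y ∉ Submodule.span F {v, w} := by
  classical
  let φ : (Fin m → F) →ₗ[F] F :=
    { toFun := fun x => f ⬝ᵥ x
      map_add' := fun a b => dotProduct_add f a b
      map_smul' := fun c a => by simp [dotProduct_smul] }
  by_contra hno
  push Not at hno
  have hle : LinearMap.ker φ ≤ Submodule.span F {v, w} := fun y hy => hno y (LinearMap.mem_ker.mp hy)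
  have h1 := LinearMap.finrank_range_add_finrank_ker φ
  have h2 := (LinearMap.range φ).finrank_le
  rw [Module.finrank_fin_fun] at h1
  rw [Module.finrank_self] at h2
  have h3 := Submodule.finrank_mono hle
  rcases h with h4 | ⟨h4, c, rfl⟩
  · have h5 : Module.finrank F (Submodule.span F ({v, w} : Set (Fin m → F))) ≤ 2 := by
      refine le_trans (finrank_span_le_card ({v, w} : Set (Fin m → F))) ?_
      rw [Set.toFinset_insert, Set.toFinset_singleton]
      exact Finset.card_le_two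
    omega
  · have hle2 : Submodule.span F ({c • w, w} : Set (Fin m → F)) ≤ Submodule.span F {w} := by
      rw [Submodule.span_le]
      rintro x (rfl | rfl)
      · exact Submodule.smul_mem _ _ (Submodule.subset_span rfl)
      · exact Submodule.subset_span rfl
    have h5 := Submodule.finrank_mono hle2
    have h6 : Module.finrank F (Submodule.span F ({w} : Set (Fin m → F))) ≤ 1 := by
      refine le_trans (finrank_span_le_card _) ?_
      simp
    omega

/-- The block matrix `[a f; 0 A]`. -/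
def pmat (a : F) (f : Fin m → F) (A : Matrix (Fin m) (Fin m) F) : Matrix (Fin (m + 1)) (Fin (m + 1)) F :=
  Matrix.of (Fin.cons (Fin.cons a f) fun i => Fin.cons 0 (A i))

theorem pmat_mul (a a' : F) (f f' : Fin m → F) (A A' : Matrix (Fin m) (Fin m) F) :
    pmat a f A * pmat a' f' A' = pmat (a * a') (a • f' + f ᵥ* A') (A * A') := by
  refine Matrix.ext fun i j => ?_
  rw [Matrix.mul_apply, Fin.sum_univ_succ]
  refine Fin.cases ?_ (fun i' => ?_) i <;> refine Fin.cases ?_ (fun j' => ?_) j <;>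
    simp [pmat, Matrix.vecMul, dotProduct, Matrix.mul_apply]

theorem pmat_one : pmat (1 : F) (0 : Fin m → F) 1 = 1 := by
  refine Matrix.ext fun i j => ?_
  refine Fin.cases ?_ (fun i' => ?_) i <;> refine Fin.cases ?_ (fun j' => ?_) j <;>
    simp [pmat, Matrix.one_apply, Fin.succ_ne_zero, (Fin.succ_ne_zero _).symm, Fin.succ_inj]

theorem det_pmat (a : F) (f : Fin m → F) (A : Matrix (Fin m) (Fin m) F) : (pmat a f A).det = a * A.det := by
  rw [Matrix.det_succ_column_zero, Finset.sum_eq_single 0]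
  · simp [pmat, Matrix.submatrix]
    left; rfl
  · intro i _ hi
    obtain ⟨i', rfl⟩ := Fin.exists_succ_eq.mpr hi
    simp [pmat]
  · simp

theorem pmat_levi_tvm (v f : Fin m → F) :
    pmat (1 : F) 0 (tvm v f) = tvm (Fin.cons 0 v) (Fin.cons 0 f) := by
  refine Matrix.ext fun i j => ?_
  refine Fin.cases ?_ (fun i' => ?_) i <;> refine Fin.cases ?_ (fun j' => ?_) j <;>
    simp [pmat, tvm, Matrix.vecMulVec_apply, Matrix.one_apply, Fin.succ_ne_zero, (Fin.succ_ne_zero _).symm,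
      Fin.succ_inj]

theorem pmat_radical (f : Fin m → F) :
    pmat (1 : F) f 1 = tvm (Pi.single 0 1) (Fin.cons 0 f) := by
  refine Matrix.ext fun i j => ?_
  refine Fin.cases ?_ (fun i' => ?_) i <;> refine Fin.cases ?_ (fun j' => ?_) j <;>
    simp [pmat, tvm, Matrix.vecMulVec_apply, Matrix.one_apply, Fin.succ_ne_zero, (Fin.succ_ne_zero _).symm,
      Fin.succ_inj]

theorem cons_dot_cons (v f : Fin m → F) :
    (Fin.cons 0 f : Fin (m + 1) → F) ⬝ᵥ Fin.cons 0 v = f ⬝ᵥ v := by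
  simp [dotProduct, Fin.sum_univ_succ]

theorem cons_dot_single (f : Fin m → F) :
    (Fin.cons 0 f : Fin (m + 1) → F) ⬝ᵥ Pi.single 0 1 = 0 := by
  simp

variable [Fintype F] [DecidableEq F]

/-- The action of a mirabolic subgroup on a complex space. -/
structure Mirab (F : Type*) [Field F] [Fintype F] (m : ℕ) (V : Type*) [AddCommGroup V] [Module ℂ V] where
  /-- a non-trivial character -/
  θ : AddChar F ℂ
  θ_ne : θ ≠ 0
  /-- the radical -/
  u : (Fin m → F) → Module.End ℂ V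
  /-- the Levi factor -/
  l : GL (Fin m) F →* Module.End ℂ V
  /-- the twist -/
  χ : GL (Fin m) F →* Fˣ
  u_zero : u 0 = 1
  u_add : ∀ f g, u (f + g) = u f * u g
  conj : ∀ A f, l A * u f = u ((χ A : F) • (f ᵥ* (A⁻¹ : GL (Fin m) F).val)) * l A
  trans : ∀ w w' : Fin m → F, w ≠ 0 → w' ≠ 0 → ∃ A, ((χ A)⁻¹ : Fˣ).val • (A.val *ᵥ w) = w'

namespace Mirab

variable {V : Type*} [AddCommGroup V] [Module ℂ V] (M : Mirab F m V)

/-- The action on characters of the radical. -/
def act (A : GL (Fin m) F) (w : Fin m → F) : Fin m → F := ((M.χ A)⁻¹ : Fˣ).val • (A.val *ᵥ w)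

/-- The eigenprojection. -/
noncomputable def P (w : Fin m → F) : Module.End ℂ V :=
  ((Fintype.card F : ℂ) ^ m)⁻¹ • ∑ f : Fin m → F, M.θ (-(f ⬝ᵥ w)) • M.u f

omit [DecidableEq F] in
theorem qm_ne : ((Fintype.card F : ℂ) ^ m) ≠ 0 :=
  pow_ne_zero _ (Nat.cast_ne_zero.mpr Fintype.card_ne_zero)

theorem u_P (f w : Fin m → F) : M.u f * M.P w = M.θ (f ⬝ᵥ w) • M.P w := by
  rw [P, mul_smul_comm, smul_comm]
  congr 1
  rw [Finset.mul_sum, Finset.smul_sum]
  refine Fintype.sum_equiv (Equiv.addLeft f) _ _ fun g => ?_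
  rw [Equiv.coe_addLeft, mul_smul_comm, ← M.u_add, smul_smul, ← AddChar.map_add_eq_mul]
  congr 2
  rw [add_dotProduct]; ring

theorem P_mul (w w' : Fin m → F) : M.P w' * M.P w = if w = w' then M.P w else 0 := by
  conv_lhs => rw [show M.P w' = ((Fintype.card F : ℂ) ^ m)⁻¹ • ∑ f : Fin m → F, M.θ (-(f ⬝ᵥ w')) • M.u f from rfl]
  simp only [smul_mul_assoc, Finset.sum_mul, M.u_P, smul_smul, ← AddChar.map_add_eq_mul, ← Finset.sum_smul]
  have e : ∀ f : Fin m → F, -(f ⬝ᵥ w') + f ⬝ᵥ w = f ⬝ᵥ (w - w') := fun f => by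
    rw [dotProduct_sub]; ring
  simp only [e, Weil.sum_char M.θ M.θ_ne, sub_eq_zero]
  split_ifs with h
  · rw [inv_mul_cancel₀ qm_ne, one_smul]
  · rw [mul_zero, zero_smul]

theorem sum_P : ∑ w, M.P w = 1 := by
  simp only [P, ← Finset.smul_sum]
  rw [Finset.sum_comm]
  have e : ∀ f w : Fin m → F, -(f ⬝ᵥ w) = w ⬝ᵥ (-f) := fun f w => by rw [dotProduct_neg, dotProduct_comm]
  simp only [← Finset.sum_smul, e, Weil.sum_char M.θ M.θ_ne, neg_eq_zero, ite_smul, zero_smul,
    Finset.sum_ite_eq', Finset.mem_univ, if_true, M.u_zero]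
  rw [smul_smul, inv_mul_cancel₀ qm_ne, one_smul]

theorem l_P (A : GL (Fin m) F) (w : Fin m → F) : M.l A * M.P w = M.P (M.act A w) * M.l A := by
  simp only [P, mul_smul_comm, smul_mul_assoc, Finset.mul_sum, Finset.sum_mul, M.conj]
  congr 1
  let e : (Fin m → F) ≃ (Fin m → F) :=
    { toFun := fun f => (M.χ A : F) • (f ᵥ* (A⁻¹ : GL (Fin m) F).val)
      invFun := fun g => (((M.χ A)⁻¹ : Fˣ).val • g) ᵥ* A.val
      left_inv := fun f => by
        simp [smul_smul, Matrix.smul_vecMul, Matrix.vecMul_vecMul, ← Units.val_mul]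
      right_inv := fun g => by
        simp [smul_smul, Matrix.smul_vecMul, Matrix.vecMul_vecMul, ← Units.val_mul] }
  refine Fintype.sum_equiv e _ _ fun f => ?_
  congr 2
  congr 1
  show f ⬝ᵥ w = ((M.χ A : F) • (f ᵥ* (A⁻¹ : GL (Fin m) F).val)) ⬝ᵥ M.act A w
  rw [act, smul_dotProduct, dotProduct_smul, Matrix.dotProduct_mulVec, Matrix.vecMul_vecMul,
    ← Units.val_mul, inv_mul_cancel, Units.val_one, Matrix.vecMul_one, smul_smul, ← Units.val_mul,
    mul_inv_cancel, Units.val_one, one_smul]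

variable [FiniteDimensional ℂ V]

/-- Dimension of an eigenspace. -/
noncomputable def d (w : Fin m → F) : ℕ := Module.finrank ℂ (LinearMap.range (M.P w))

theorem isProj_P (w : Fin m → F) : LinearMap.IsProj (LinearMap.range (M.P w)) (M.P w) :=
  ⟨fun x => LinearMap.mem_range_self _ x, fun x hx => by
    obtain ⟨y, rfl⟩ := hx
    rw [← Module.End.mul_apply, M.P_mul, if_pos rfl]⟩

theorem trace_P (w : Fin m → F) : LinearMap.trace ℂ V (M.P w) = (M.d w : ℂ) := (M.isProj_P w).trace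

theorem l_inv_cancel (A : GL (Fin m) F) : M.l A * M.l A⁻¹ = 1 := by
  rw [← map_mul, mul_inv_cancel, map_one]

theorem d_const {w w' : Fin m → F} (hw : w ≠ 0) (hw' : w' ≠ 0) : M.d w = M.d w' := by
  obtain ⟨A, hA⟩ := M.trans w w' hw hw'
  have h : LinearMap.trace ℂ V (M.P w') = LinearMap.trace ℂ V (M.P w) := by
    rw [← hA]
    calc LinearMap.trace ℂ V (M.P (M.act A w))
        = LinearMap.trace ℂ V (M.l A * M.P w * M.l A⁻¹) := by rw [M.l_P, mul_assoc, M.l_inv_cancel, mul_one]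
      _ = LinearMap.trace ℂ V (M.l A⁻¹ * (M.l A * M.P w)) := LinearMap.trace_mul_comm _ _ _
      _ = _ := by rw [← mul_assoc, ← map_mul, inv_mul_cancel, map_one, one_mul]
  rw [M.trace_P, M.trace_P] at h
  exact_mod_cast h.symm

theorem finrank_eq {w₁ : Fin m → F} (hw₁ : w₁ ≠ 0) :
    (Module.finrank ℂ V : ℂ) = M.d 0 + M.d w₁ * ((Fintype.card F : ℂ) ^ m - 1) := by
  rw [← LinearMap.trace_one ℂ V, ← M.sum_P, map_sum, ← Finset.add_sum_erase _ _ (Finset.mem_univ (0 : Fin m → F)),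
    M.trace_P, Finset.sum_congr rfl (fun w hw => by rw [M.trace_P, M.d_const (Finset.ne_of_mem_erase hw) hw₁]),
    Finset.sum_const, Finset.card_erase_of_mem (Finset.mem_univ _), Finset.card_univ, Fintype.card_fun,
    Fintype.card_fin, nsmul_eq_mul, Nat.cast_sub (Nat.one_le_pow _ _ Fintype.card_pos)]
  push_cast
  ring

theorem trace_u {w₁ : Fin m → F} (hw₁ : w₁ ≠ 0) {f : Fin m → F} (hf : f ≠ 0) :
    LinearMap.trace ℂ V (M.u f) = Module.finrank ℂ V - M.d w₁ * (Fintype.card F : ℂ) ^ m := by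
  have h0 : ∑ w : Fin m → F, M.θ (f ⬝ᵥ w) = 0 := by
    simp_rw [dotProduct_comm f]
    rw [Weil.sum_char M.θ M.θ_ne, if_neg hf]
  rw [← Finset.add_sum_erase _ _ (Finset.mem_univ (0 : Fin m → F)), dotProduct_zero,
    AddChar.map_zero_eq_one] at h0
  rw [← mul_one (M.u f), ← M.sum_P, Finset.mul_sum, map_sum,
    ← Finset.add_sum_erase _ _ (Finset.mem_univ (0 : Fin m → F))]
  simp only [M.u_P, map_smul, M.trace_P, dotProduct_zero, AddChar.map_zero_eq_one, one_smul, smul_eq_mul]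
  rw [Finset.sum_congr rfl (fun w hw => by rw [M.d_const (Finset.ne_of_mem_erase hw) hw₁]), ← Finset.sum_mul,
    M.finrank_eq hw₁]
  linear_combination (M.d w₁ : ℂ) * h0

theorem trace_P_l_moved {A : GL (Fin m) F} {w : Fin m → F} (h : M.act A w ≠ w) :
    LinearMap.trace ℂ V (M.P w * M.l A) = 0 := by
  conv_lhs => rw [show M.P w = M.P w * M.P w by rw [M.P_mul, if_pos rfl]]
  rw [mul_assoc, LinearMap.trace_mul_comm, mul_assoc, M.l_P, ← mul_assoc, M.P_mul, if_neg h, zero_mul,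
    map_zero]

theorem P_l_comm {w : Fin m → F} (hd : M.d w = 1) {g s : GL (Fin m) F} (hg : M.act g w = w)
    (hs : M.act s w = w) : M.P w * M.l (g * s * g⁻¹ * s⁻¹) = M.P w := by
  obtain ⟨v, hv⟩ := finrank_eq_one_iff'.mp hd
  have hsc : ∀ B : GL (Fin m) F, M.act B w = w → ∃ c : ℂ, M.P w * M.l B = c • M.P w ∧
      M.l B * M.P w = c • M.P w := by
    intro B hB
    have hc : M.l B * M.P w = M.P w * M.l B := by rw [M.l_P, hB]
    have hmem : M.l B v.1 ∈ LinearMap.range (M.P w) := by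
      obtain ⟨y, hy⟩ := v.2
      exact ⟨M.l B y, by rw [← hy, ← Module.End.mul_apply, ← Module.End.mul_apply, hc]⟩
    obtain ⟨c, hc'⟩ := hv.2 ⟨_, hmem⟩
    have key : M.l B * M.P w = c • M.P w := by
      refine LinearMap.ext fun x => ?_
      obtain ⟨a, ha⟩ := hv.2 ⟨M.P w x, LinearMap.mem_range_self _ x⟩
      have h1 : M.P w x = a • v.1 := (congrArg Subtype.val ha).symm
      have h2 : M.l B v.1 = c • v.1 := (congrArg Subtype.val hc').symm
      rw [Module.End.mul_apply, LinearMap.smul_apply, h1, map_smul, h2, smul_comm]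
    exact ⟨c, hc ▸ key, key⟩
  have hinv : ∀ B : GL (Fin m) F, M.act B w = w → M.act B⁻¹ w = w := by
    intro B hB
    conv_lhs => rw [← hB]
    simp [act, map_inv, Matrix.mulVec_smul, smul_smul, Matrix.mulVec_mulVec, ← Units.val_mul]
  obtain ⟨cg, hg1, hg2⟩ := hsc g hg
  obtain ⟨cs, hs1, hs2⟩ := hsc s hs
  obtain ⟨cg', hg1', -⟩ := hsc g⁻¹ (hinv g hg)
  obtain ⟨cs', hs1', -⟩ := hsc s⁻¹ (hinv s hs)
  have hne : M.P w ≠ 0 := fun e => by
    have := M.trace_P w
    rw [e, map_zero, hd] at this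
    simp at this
  have hcc : ∀ (B : GL (Fin m) F) (c c' : ℂ), M.P w * M.l B = c • M.P w → M.P w * M.l B⁻¹ = c' • M.P w →
      c * c' = 1 := by
    intro B c c' h1 h2
    have e : (c * c') • M.P w = (1 : ℂ) • M.P w := by
      rw [one_smul, ← smul_smul, ← h2, ← smul_mul_assoc, ← h1, mul_assoc, M.l_inv_cancel, mul_one]
    exact smul_left_injective ℂ hne e
  have e : M.P w * M.l (g * s * g⁻¹ * s⁻¹) = ((cg * cg') * (cs * cs')) • M.P w := by
    simp only [map_mul, ← mul_assoc, hg1, hs1, hg1', hs1', smul_mul_assoc, smul_smul]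
    congr 1; ring
  rw [e, hcc g _ _ hg1 hg1', hcc s _ _ hs1 hs1', mul_one, one_smul]

theorem trace_P_l_comm {w : Fin m → F} (hd : M.d w = 1) {g s : GL (Fin m) F} (hg : M.act g w = w)
    (hs : M.act s w = w) : LinearMap.trace ℂ V (M.P w * M.l (g * s * g⁻¹ * s⁻¹)) = 1 := by
  rw [M.P_l_comm hd hg hs, M.trace_P, hd, Nat.cast_one]

/-- The scalar by which a fixing involution acts on a one-dimensional eigenspace. -/
theorem exists_sign {w : Fin m → F} (hd : M.d w = 1) {B : GL (Fin m) F} (hB : M.act B w = w) (h2 : B * B = 1) :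
    ∃ c : ℂ, (c = 1 ∨ c = -1) ∧ M.P w * M.l B = c • M.P w := by
  obtain ⟨v, hv⟩ := finrank_eq_one_iff'.mp hd
  have hc : M.l B * M.P w = M.P w * M.l B := by rw [M.l_P, hB]
  have hmem : M.l B v.1 ∈ LinearMap.range (M.P w) := by
    obtain ⟨y, hy⟩ := v.2
    exact ⟨M.l B y, by rw [← hy, ← Module.End.mul_apply, ← Module.End.mul_apply, hc]⟩
  obtain ⟨c, hc'⟩ := hv.2 ⟨_, hmem⟩
  have h1 : M.l B v.1 = c • v.1 := (congrArg Subtype.val hc').symm
  have key : M.P w * M.l B = c • M.P w := by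
    rw [← hc]
    refine LinearMap.ext fun x => ?_
    obtain ⟨a, ha⟩ := hv.2 ⟨M.P w x, LinearMap.mem_range_self _ x⟩
    have h2' : M.P w x = a • v.1 := (congrArg Subtype.val ha).symm
    rw [Module.End.mul_apply, LinearMap.smul_apply, h2', map_smul, h1, smul_comm]
  refine ⟨c, mul_self_eq_one_iff.mp ?_, key⟩
  have h3 := LinearMap.congr_fun (show M.l B * M.l B = 1 by rw [← map_mul, h2, map_one]) v.1
  rw [Module.End.mul_apply, h1, map_smul, h1, smul_smul, Module.End.one_apply] at h3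
  have hv0 : v.1 ≠ 0 := fun e => hv.1 (Subtype.ext e)
  exact smul_left_injective ℂ hv0 (h3.trans (one_smul ℂ _).symm)

theorem l_range_zero (A : GL (Fin m) F) :
    ∀ x ∈ LinearMap.range (M.P 0), M.l A x ∈ LinearMap.range (M.P 0) := by
  rintro _ ⟨y, rfl⟩
  refine ⟨M.l A y, ?_⟩
  rw [← Module.End.mul_apply, ← Module.End.mul_apply, M.l_P]
  simp [act]

/-- The Levi factor on the fixed space of the radical. -/
noncomputable def fixed : Representation ℂ (GL (Fin m) F) (LinearMap.range (M.P 0)) where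
  toFun A := (M.l A).restrict (M.l_range_zero A)
  map_one' := LinearMap.ext fun x => Subtype.ext (by simp)
  map_mul' A B := LinearMap.ext fun x => Subtype.ext (by simp)

theorem trace_fixed (A : GL (Fin m) F) :
    LinearMap.trace ℂ _ (M.fixed A) = LinearMap.trace ℂ V (M.P 0 * M.l A) := by
  set W := LinearMap.range (M.P 0)
  have e : M.P 0 * M.l A = W.subtype ∘ₗ ((M.fixed A) ∘ₗ (M.isProj_P 0).codRestrict) := by
    refine LinearMap.ext fun x => ?_
    show M.P 0 (M.l A x) = M.l A (M.P 0 x)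
    have h : M.l A * M.P 0 = M.P 0 * M.l A := by rw [M.l_P]; simp [act]
    exact (LinearMap.congr_fun h x).symm
  rw [e, LinearMap.trace_comp_comm']
  congr 1
  refine LinearMap.ext fun x => ?_
  show M.fixed A x = M.fixed A ((M.isProj_P 0).codRestrict x.1)
  rw [(M.isProj_P 0).codRestrict_apply_cod x]

end Mirab

/-- Transvections have trace `dim - q^(m-1)`. -/
def Special {V : Type*} [AddCommGroup V] [Module ℂ V] (σ : Representation ℂ (GL (Fin m) F) V) : Prop :=
  ∀ (v f : Fin m → F) (h : f ⬝ᵥ v = 0), v ≠ 0 → f ≠ 0 →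
    LinearMap.trace ℂ V (σ (tvGL v f h)) = (Module.finrank ℂ V : ℂ) - (Fintype.card F : ℂ) ^ (m - 1)

/-- The fixed space of the radical inherits the trace condition. -/
theorem special_fixed {V : Type*} [AddCommGroup V] [Module ℂ V] [FiniteDimensional ℂ V] (M : Mirab F m V)
    {w₁ : Fin m → F} (hw₁ : w₁ ≠ 0) (hd : M.d w₁ = 1)
    (hχ : ∀ v f h, M.χ (tvGL v f h) = 1)
    (hl : ∀ v f h, v ≠ 0 → f ≠ 0 → LinearMap.trace ℂ V (M.l (tvGL v f h)) =
      (Module.finrank ℂ V : ℂ) - (Fintype.card F : ℂ) ^ m)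
    (hcomm : ∀ (v f w : Fin m → F) (h : f ⬝ᵥ v = 0), v ≠ 0 → f ≠ 0 → w ≠ 0 → f ⬝ᵥ w = 0 →
      ∃ g s, M.act g w = w ∧ M.act s w = w ∧ tvGL v f h = g * s * g⁻¹ * s⁻¹) :
    Special M.fixed := by
  classical
  intro v f h hv hf
  rw [M.trace_fixed]
  have hact : ∀ w, M.act (tvGL v f h) w = w + (f ⬝ᵥ w) • v := fun w => by
    simp [Mirab.act, hχ, tvm_mulVec]
  have htot := hl v f h hv hf
  rw [← one_mul (M.l (tvGL v f h)), ← M.sum_P, Finset.sum_mul, map_sum,
    ← Finset.add_sum_erase _ _ (Finset.mem_univ (0 : Fin m → F))] at htot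
  have hterm : ∀ w ∈ (univ.erase 0 : Finset (Fin m → F)),
      LinearMap.trace ℂ V (M.P w * M.l (tvGL v f h)) = if f ⬝ᵥ w = 0 then 1 else 0 := by
    intro w hw
    have hw0 := Finset.ne_of_mem_erase hw
    by_cases hfw : f ⬝ᵥ w = 0
    · rw [if_pos hfw]
      obtain ⟨g, s, hg, hs, he⟩ := hcomm v f w h hv hf hw0 hfw
      rw [he]
      exact M.trace_P_l_comm ((M.d_const hw0 hw₁).trans hd) hg hs
    · rw [if_neg hfw]
      refine M.trace_P_l_moved ?_
      rw [hact]
      intro e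
      exact (smul_ne_zero hfw hv) (by simpa using e)
  rw [Finset.sum_congr rfl hterm, Finset.sum_boole, Finset.filter_erase,
    Finset.card_erase_of_mem (s := univ.filter fun w : Fin m → F => f ⬝ᵥ w = 0) (a := 0) (by simp)] at htot
  have hc : (univ.filter fun w : Fin m → F => f ⬝ᵥ w = 0).card = Fintype.card F ^ (m - 1) := by
    rw [← Fintype.card_subtype, ← Nat.card_eq_fintype_card]
    exact CfsgLib.OrthOrder.card_dot_eq hf 0
  rw [hc, Nat.cast_sub (Nat.one_le_pow _ _ Fintype.card_pos), M.finrank_eq hw₁, hd] at htot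
  show _ = (M.d 0 : ℂ) - _
  push_cast at htot
  linear_combination htot

/-- The mirabolic inside `GL_{m+1}`. -/
def radGL (f : Fin m → F) : GL (Fin (m + 1)) F :=
  tvGL (Pi.single 0 1) (Fin.cons 0 f) (cons_dot_single f)

/-- The Levi factor `1 × GL_m`. -/
def leviGL (F : Type*) [Field F] (m : ℕ) : GL (Fin m) F →* GL (Fin (m + 1)) F where
  toFun A := ⟨pmat 1 0 A.val, pmat 1 0 (A⁻¹ : GL (Fin m) F).val,
    by simp [pmat_mul, pmat_one], by simp [pmat_mul, pmat_one]⟩
  map_one' := Units.ext (by simp [pmat_one])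
  map_mul' A B := Units.ext (by simp [pmat_mul])

omit [Fintype F] [DecidableEq F] in
theorem radGL_coe (f : Fin m → F) : (radGL f).val = pmat 1 f 1 := (pmat_radical f).symm

omit [Fintype F] [DecidableEq F] in
theorem leviGL_coe (A : GL (Fin m) F) : (leviGL F m A).val = pmat 1 0 A.val := rfl

omit [Fintype F] [DecidableEq F] in
theorem exists_gl_mulVec (hm : 1 ≤ m) {w w' : Fin m → F} (hw : w ≠ 0) (hw' : w' ≠ 0) :
    ∃ A : GL (Fin m) F, A.val *ᵥ w = w' ∧ (2 ≤ m → A.val.det = 1) := by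
  rcases Nat.lt_or_ge m 2 with hm2 | hm2
  · obtain rfl : m = 1 := by omega
    have h0 : w 0 ≠ 0 := fun e => hw (funext fun i => by rw [Subsingleton.elim i 0]; exact e)
    have h0' : w' 0 ≠ 0 := fun e => hw' (funext fun i => by rw [Subsingleton.elim i 0]; exact e)
    refine ⟨Matrix.GeneralLinearGroup.mkOfDetNeZero (Matrix.of fun _ _ => w' 0 / w 0)
      (by rw [Matrix.det_fin_one]; exact div_ne_zero h0' h0), funext fun i => ?_, fun h => by omega⟩
    rw [Subsingleton.elim i 0]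
    simp [Matrix.GeneralLinearGroup.mkOfDetNeZero, Matrix.mulVec, dotProduct, div_mul_cancel₀ _ h0]
  · have : Nontrivial (Fin m) := Fin.nontrivial_iff_two_le.mpr hm2
    obtain ⟨g, hg⟩ := CfsgLib.SLn.exists_smul_eq hw hw'
    exact ⟨Matrix.SpecialLinearGroup.toGL g, hg, fun _ => g.2⟩

/-- The mirabolic inside a representation of `GL_{m+1}`. -/
noncomputable def ofGL (hm : 1 ≤ m) (θ : AddChar F ℂ) (hθ : θ ≠ 0) {V : Type*} [AddCommGroup V] [Module ℂ V]
    (σ : Representation ℂ (GL (Fin (m + 1)) F) V) : Mirab F m V where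
  θ := θ
  θ_ne := hθ
  u f := σ (radGL f)
  l := σ.comp (leviGL F m)
  χ := 1
  u_zero := by
    rw [show radGL (0 : Fin m → F) = 1 from Units.ext (by rw [radGL_coe, pmat_one]; rfl), map_one]
  u_add f g := by
    rw [← map_mul]
    congr 1
    refine Units.ext ?_
    simp [radGL_coe, pmat_mul, add_comm]
  conj A f := by
    show σ _ * σ _ = σ _ * σ _
    rw [← map_mul, ← map_mul]
    congr 1
    refine Units.ext ?_
    simp [radGL_coe, leviGL_coe, pmat_mul, Matrix.vecMul_vecMul]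
  trans w w' hw hw' := by
    obtain ⟨A, hA, -⟩ := exists_gl_mulVec hm hw hw'
    exact ⟨A, by simpa using hA⟩

/-- Fixing commutators, untwisted case. -/
theorem comm_untwisted (hm : 2 ≤ m) (hq : 3 ≤ Fintype.card F ∨ 4 ≤ m) {V : Type*} [AddCommGroup V] [Module ℂ V]
    (M : Mirab F m V) (hχ : M.χ = 1) (v f w : Fin m → F) (h : f ⬝ᵥ v = 0) (hf : f ≠ 0) (hfw : f ⬝ᵥ w = 0) :
    ∃ g s, M.act g w = w ∧ M.act s w = w ∧ tvGL v f h = g * s * g⁻¹ * s⁻¹ := by
  have hact : ∀ g, M.act g w = g.val *ᵥ w := fun g => by simp [Mirab.act, hχ]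
  rcases hq with hq | hm4
  · obtain ⟨α, hα0, hα1⟩ : ∃ α : F, α ≠ 0 ∧ α ≠ 1 := by
      classical
      obtain ⟨α, -, hα⟩ := Finset.exists_mem_notMem_of_card_lt_card (s := ({0, 1} : Finset F)) (t := univ)
        (lt_of_le_of_lt Finset.card_le_two (by rw [Finset.card_univ]; omega))
      exact ⟨α, by simpa [not_or] using hα⟩
    obtain ⟨z, hz⟩ : ∃ z, f ⬝ᵥ z = 1 := by
      obtain ⟨i, hi⟩ := Function.ne_iff.mp hf
      exact ⟨Pi.single i (f i)⁻¹, by simp [mul_inv_cancel₀ hi]⟩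
    let g : GL (Fin m) F := Matrix.GeneralLinearGroup.mkOfDetNeZero (tvm ((α - 1) • z) f)
      (by rw [det_tvm, dotProduct_smul, hz, smul_eq_mul, mul_one, add_sub_cancel]; exact hα0)
    have hgv : g.val = tvm ((α - 1) • z) f := rfl
    refine ⟨g, tvGL v ((1 / α - 1)⁻¹ • f) (smul_left_dot h), ?_, ?_, ?_⟩
    · rw [hact, hgv, tvm_mulVec, hfw, zero_smul, add_zero]
    · rw [hact, tvGL_coe, tvm_mulVec, smul_dotProduct, hfw, smul_zero, zero_smul, add_zero]
    · refine comm_of_scale g v f h 1 α hα0 (Ne.symm hα1) ?_ ?_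
      · rw [hgv, tvm_mulVec, h, zero_smul, add_zero, one_smul]
      · rw [hgv, vecMul_tvm, dotProduct_smul, hz, smul_eq_mul, mul_one]
        nth_rewrite 1 [← one_smul F f]
        rw [← add_smul, add_sub_cancel]
  · obtain ⟨y, hy, hyS⟩ := exists_third v f w (Or.inl hm4)
    obtain ⟨b, hby, hbS⟩ := exists_dot hyS
    refine ⟨tvGL v b (hbS v (Submodule.subset_span (by simp))), tvGL y f hy, ?_, ?_, comm_of_third _ _ _ _ h hy _ hby⟩
    · rw [hact, tvGL_coe, tvm_mulVec, hbS w (Submodule.subset_span (by simp)), zero_smul, add_zero]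
    · rw [hact, tvGL_coe, tvm_mulVec, hfw, zero_smul, add_zero]

theorem special_bound.{w} (θ : AddChar F ℂ) (hθ : θ ≠ 0) (hq : 3 ≤ Fintype.card F) : ∀ (m : ℕ), 2 ≤ m →
    ∀ {V : Type w} [AddCommGroup V] [Module ℂ V] [FiniteDimensional ℂ V]
      (σ : Representation ℂ (GL (Fin m) F) V), Special σ →
      SLArith.geo (Fintype.card F) m + 1 ≤
        Module.finrank ℂ V + m := by
  intro m hm
  induction m, hm using Nat.le_induction with
  | base =>
    intro V _ _ _ σ hσ
    let M := ofGL (m := 1) le_rfl θ hθ σ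
    set e : Fin 1 → F := Pi.single 0 1
    have he : e ≠ 0 := Pi.single_ne_zero_iff.mpr one_ne_zero
    have h1 := M.trace_u he he
    have h2 : LinearMap.trace ℂ V (M.u e) = (Module.finrank ℂ V : ℂ) - (Fintype.card F : ℂ) ^ (2 - 1) :=
      hσ _ _ _ (Pi.single_ne_zero_iff.mpr one_ne_zero) (fun h => he (funext fun i => congrFun h i.succ))
    rw [h1] at h2
    have hq : (Fintype.card F : ℂ) ≠ 0 := Nat.cast_ne_zero.mpr Fintype.card_ne_zero
    have hd : (M.d e : ℂ) = 1 := mul_right_cancel₀ hq (by linear_combination -h2)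
    have h3 := M.finrank_eq he
    rw [hd] at h3
    have h4 : Module.finrank ℂ V + 1 = M.d 0 + Fintype.card F := by
      have : ((Module.finrank ℂ V + 1 : ℕ) : ℂ) = ((M.d 0 + Fintype.card F : ℕ) : ℂ) := by
        push_cast; linear_combination h3
      exact_mod_cast this
    simp only [SLArith.geo]
    simp
    omega
  | succ m hm ih =>
    intro V _ _ _ σ hσ
    let M := ofGL (by omega : 1 ≤ m) θ hθ σ
    set e : Fin m → F := Pi.single ⟨0, by omega⟩ 1
    have he : e ≠ 0 := Pi.single_ne_zero_iff.mpr one_ne_zero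
    have hrad : ∀ f : Fin m → F, f ≠ 0 → LinearMap.trace ℂ V (M.u f) =
        (Module.finrank ℂ V : ℂ) - (Fintype.card F : ℂ) ^ m := fun f hf =>
      hσ _ _ _ (Pi.single_ne_zero_iff.mpr one_ne_zero) (fun h => hf (funext fun i => congrFun h i.succ))
    have h2 := hrad e he
    rw [M.trace_u he he] at h2
    have hd : M.d e = 1 := by
      have : (M.d e : ℂ) = ((1 : ℕ) : ℂ) :=
        mul_right_cancel₀ (pow_ne_zero m (Nat.cast_ne_zero.mpr Fintype.card_ne_zero : (Fintype.card F : ℂ) ≠ 0))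
          (by push_cast; linear_combination -h2)
      exact_mod_cast this
    have h4 : Module.finrank ℂ V + 1 = M.d 0 + Fintype.card F ^ m := by
      have h3 := M.finrank_eq he
      rw [hd] at h3
      have : ((Module.finrank ℂ V + 1 : ℕ) : ℂ) = ((M.d 0 + Fintype.card F ^ m : ℕ) : ℂ) := by
        push_cast at h3 ⊢; linear_combination h3
      exact_mod_cast this
    have hgeo : SLArith.geo (Fintype.card F) (m + 1) = SLArith.geo (Fintype.card F) m + Fintype.card F ^ m := by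
      obtain ⟨r, rfl⟩ : ∃ r, m = r + 1 := ⟨m - 1, by omega⟩
      simp [SLArith.geo]
    have hfix : Special M.fixed := special_fixed M he hd (fun _ _ _ => rfl)
        (fun v f h hv hf => by
          have e1 : leviGL F m (tvGL v f h) = tvGL (Fin.cons 0 v) (Fin.cons 0 f) (by rw [cons_dot_cons]; exact h) :=
            Units.ext (pmat_levi_tvm v f)
          show LinearMap.trace ℂ V (σ (leviGL F m (tvGL v f h))) = _
          rw [e1]
          exact hσ _ _ _ (fun h0 => hv (funext fun i => congrFun h0 i.succ))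
            (fun h0 => hf (funext fun i => congrFun h0 i.succ)))
        (fun v f w h _ hf _ hfw => comm_untwisted hm (Or.inl hq) M rfl v f w h hf hfw)
    have h5 := ih M.fixed hfix
    have h6 : Module.finrank ℂ (LinearMap.range (M.P 0)) = M.d 0 := rfl
    rw [hgeo]
    omega

end CfsgLib.MinDegree.Mirabolic
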