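import Cfsg.Agent.MinDegree.SLLower
set_option autoImplicit false

/-!
The smallest degree of `SL_n(2)`, `n ≥ 5`.
-/

namespace CfsgLib.MinDegree.Mirabolic

open Matrix Finset

/-- A perfect group whose non-linear irreducibles have degree at least `B` has no smaller non-trivial representation. -/
theorem le_finrank_of_nontrivial.{w} {G : Type*} [Group G] [Finite G] (hperf : commutator G = ⊤) (B : ℕ)
    (hB : ∀ {U : Type w} [AddCommGroup U] [Module ℂ U] [FiniteDimensional ℂ U] (σ : Representation ℂ G U),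
      σ.IsIrreducible → 2 ≤ Module.finrank ℂ U → B ≤ Module.finrank ℂ U) :
    ∀ (d : ℕ) {U : Type w} [AddCommGroup U] [Module ℂ U] [FiniteDimensional ℂ U] (σ : Representation ℂ G U),
      Module.finrank ℂ U = d → (∃ g, σ g ≠ 1) → B ≤ d := by
  intro d
  induction d using Nat.strong_induction_on with
  | _ d ih =>
    intro U _ _ _ σ hd ⟨g₀, hg₀⟩
    have hne : Nontrivial U := by
      by_contra h
      rw [not_nontrivial_iff_subsingleton] at h
      exact hg₀ (LinearMap.ext fun x => Subsingleton.elim _ _)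
    have hbt : (⊥ : Subrepresentation σ) ≠ ⊤ := fun e =>
      bot_ne_top (α := Submodule ℂ U) (congrArg Subrepresentation.toSubmodule e)
    have : Nontrivial (Subrepresentation σ) := ⟨⊥, ⊤, hbt⟩
    by_cases hall : ∀ W : Subrepresentation σ, W = ⊥ ∨ W = ⊤
    · have hirr : σ.IsIrreducible := { eq_bot_or_eq_top := hall }
      rcases Nat.lt_or_ge (Module.finrank ℂ U) 2 with h1 | h2
      · exfalso
        have h1' : Module.finrank ℂ U = 1 := by
          have := Module.finrank_pos (R := ℂ) (M := U); omega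
        apply hg₀
        obtain ⟨v, hv0, hv⟩ := finrank_eq_one_iff'.mp h1'
        have hsc : ∀ a : G, ∃ c : ℂ, σ a = c • 1 := fun a => by
          obtain ⟨c, hc⟩ := hv (σ a v)
          refine ⟨c, LinearMap.ext fun x => ?_⟩
          obtain ⟨e, rfl⟩ := hv x
          show σ a (e • v) = c • (e • v)
          rw [map_smul, ← hc, smul_comm]
        have hker : commutator G ≤ σ.ker := by
          rw [commutator_def, Subgroup.commutator_le]
          intro a _ b _
          obtain ⟨ca, hca⟩ := hsc a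
          have hcomm : σ a * σ b = σ b * σ a := by
            rw [hca, smul_mul_assoc, one_mul, mul_smul_comm, mul_one]
          rw [MonoidHom.mem_ker, commutatorElement_def, map_mul, map_mul, map_mul, hcomm, mul_assoc (σ b),
            ← map_mul σ a, mul_inv_cancel, map_one, mul_one, ← map_mul, mul_inv_cancel, map_one]
        rw [hperf] at hker
        exact MonoidHom.mem_ker.mp (hker (Subgroup.mem_top g₀))
      · exact hd ▸ hB σ hirr h2
    · push Not at hall
      obtain ⟨W, hW1, hW2⟩ := hall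
      obtain ⟨W', hW'⟩ := exists_isCompl W
      have hW'2 : W' ≠ ⊤ := fun e => hW1 (eq_bot_of_isCompl_top (e ▸ hW'))
      have hlt : ∀ Y : Subrepresentation σ, Y ≠ ⊤ → Module.finrank ℂ Y.toSubmodule < d := fun Y hY =>
        hd ▸ Submodule.finrank_lt (fun e => hY (Subrepresentation.toSubmodule_injective e))
      have hsome : (∃ g, W.toRepresentation g ≠ 1) ∨ ∃ g, W'.toRepresentation g ≠ 1 := by
        by_contra hno
        push Not at hno
        refine hg₀ (LinearMap.ext fun x => ?_)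
        obtain ⟨a, ha, b, hb, rfl⟩ := Submodule.mem_sup.mp
          (show x ∈ W.toSubmodule ⊔ W'.toSubmodule by
            rw [← Subrepresentation.toSubmodule_sup, hW'.sup_eq_top]; exact Submodule.mem_top)
        have h1 : σ g₀ a = a := congrArg Subtype.val (LinearMap.congr_fun (hno.1 g₀) ⟨a, ha⟩)
        have h2 : σ g₀ b = b := congrArg Subtype.val (LinearMap.congr_fun (hno.2 g₀) ⟨b, hb⟩)
        rw [map_add, h1, h2, Module.End.one_apply]
      rcases hsome with h | h
      · exact (ih _ (hlt W hW2) W.toRepresentation rfl h).trans (hlt W hW2).le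
      · exact (ih _ (hlt W' hW'2) W'.toRepresentation rfl h).trans (hlt W' hW'2).le

variable {F : Type*} [Field F] [Fintype F] [DecidableEq F]

omit [DecidableEq F] in
theorem zero_or_one (h2 : Fintype.card F = 2) (x : F) : x = 0 ∨ x = 1 := by
  classical
  by_contra h
  push Not at h
  have : ({0, 1, x} : Finset F).card ≤ Fintype.card F := Finset.card_le_univ _
  rw [Finset.card_insert_of_notMem (by simp [Ne.symm h.1]), Finset.card_insert_of_notMem (by simp [Ne.symm h.2]),
    Finset.card_singleton, h2] at this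
  omega

omit [DecidableEq F] in
theorem theta_one (h2 : Fintype.card F = 2) {θ : AddChar F ℂ} (hθ : θ ≠ 0) : θ 1 = -1 := by
  have h1 : θ 1 ≠ 1 := fun e => hθ (DFunLike.ext _ _ fun x => by
    rcases zero_or_one h2 x with rfl | rfl
    · simp
    · rw [e, AddChar.zero_apply])
  have h11 : (1 : F) + 1 = 0 := (zero_or_one h2 (1 + 1)).resolve_right (fun e => one_ne_zero (add_eq_left.mp e))
  have hsq : θ 1 * θ 1 = 1 := by rw [← AddChar.map_add_eq_mul, h11, AddChar.map_zero_eq_one]
  exact (mul_self_eq_one_iff.mp hsq).resolve_left h1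

theorem Mirab.trace_u_l {m : ℕ} {V : Type*} [AddCommGroup V] [Module ℂ V] [FiniteDimensional ℂ V]
    (M : Mirab F m V) (f : Fin m → F) (A : GL (Fin m) F) (S : Finset (Fin m → F))
    (hS : ∀ w, w ≠ 0 → (M.act A w = w ↔ w ∈ S)) (h0 : (0 : Fin m → F) ∉ S) :
    LinearMap.trace ℂ V (M.u f * M.l A) =
      LinearMap.trace ℂ _ (M.fixed A) + ∑ w ∈ S, M.θ (f ⬝ᵥ w) * LinearMap.trace ℂ V (M.P w * M.l A) := by
  rw [← mul_one (M.u f), ← M.sum_P, Finset.mul_sum, Finset.sum_mul, map_sum,
    ← Finset.add_sum_erase _ _ (Finset.mem_univ (0 : Fin m → F))]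
  congr 1
  · rw [M.u_P, dotProduct_zero, AddChar.map_zero_eq_one, one_smul, M.trace_fixed]
  · rw [← Finset.sum_subset (s₁ := S) (fun w hw => Finset.mem_erase.mpr ⟨fun e => h0 (by rw [← e]; exact hw), Finset.mem_univ _⟩)
      (fun w hw hwS => ?_)]
    · exact Finset.sum_congr rfl fun w _ => by rw [M.u_P, smul_mul_assoc, map_smul, smul_eq_mul]
    · rw [M.u_P, smul_mul_assoc, map_smul, M.trace_P_l_moved (fun e => hwS ((hS w (Finset.ne_of_mem_erase hw)).mp e)),
        smul_zero]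

theorem Mirab.trace_l {m : ℕ} {V : Type*} [AddCommGroup V] [Module ℂ V] [FiniteDimensional ℂ V]
    (M : Mirab F m V) (A : GL (Fin m) F) (S : Finset (Fin m → F))
    (hS : ∀ w, w ≠ 0 → (M.act A w = w ↔ w ∈ S)) (h0 : (0 : Fin m → F) ∉ S) :
    LinearMap.trace ℂ V (M.l A) =
      LinearMap.trace ℂ _ (M.fixed A) + ∑ w ∈ S, LinearMap.trace ℂ V (M.P w * M.l A) := by
  have h := M.trace_u_l 0 A S hS h0
  rw [M.u_zero, one_mul] at h
  simpa [AddChar.map_zero_eq_one] using h

/-- Two-dimensional representations of `GL_3(2)` kill transvections. -/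
theorem two_dim_trivial (h2 : Fintype.card F = 2) {W : Type*} [AddCommGroup W] [Module ℂ W] [FiniteDimensional ℂ W]
    (hW : Module.finrank ℂ W = 2) (τ : Representation ℂ (GL (Fin 3) F) W)
    (v f : Fin 3 → F) (h : f ⬝ᵥ v = 0) : τ (tvGL v f h) = 1 := by
  classical
  have h11 : ∀ x : F, x + x = 0 := fun x => by
    rcases zero_or_one h2 x with rfl | rfl
    · simp
    · exact (zero_or_one h2 (1 + 1)).resolve_right (fun e => one_ne_zero (add_eq_left.mp e))
  let bas := Module.finBasisOfFinrankEq ℂ W hW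
  let A : GL (Fin 3) F → Matrix (Fin 2) (Fin 2) ℂ := fun g => LinearMap.toMatrix bas bas (τ g)
  have hAmul : ∀ g k, A (g * k) = A g * A k := fun g k => by
    simp only [A, map_mul, Module.End.mul_eq_comp, LinearMap.toMatrix_comp bas bas bas]
  have hA1 : A 1 = 1 := by simp only [A, map_one]; exact LinearMap.toMatrix_id bas
  have hinv : ∀ (x b : Fin 3 → F) (hx : b ⬝ᵥ x = 0), tvGL x b hx * tvGL (F := F) x b hx = 1 := fun x b hx =>
    Units.ext (by
      show tvm x b * tvm x b = 1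
      rw [tvm_mul_tvm _ _ _ hx, show b + b = 0 from funext fun i => h11 _, tvm_zero])
  have hcomm : ∀ (x b : Fin 3 → F) (hx : b ⬝ᵥ x = 0), ∃ g s : GL (Fin 3) F, (∃ (y c : Fin 3 → F) (hy : c ⬝ᵥ y = 0), g = tvGL y c hy) ∧ (∃ (y c : Fin 3 → F) (hy : c ⬝ᵥ y = 0), s = tvGL y c hy) ∧
      tvGL x b hx = g * s * g⁻¹ * s⁻¹ := by
    intro x b hx
    obtain ⟨y, hy, hyS⟩ := exists_third x b x (Or.inr ⟨le_rfl, 1, (one_smul F x).symm⟩)
    obtain ⟨c, hcy, hcS⟩ := exists_dot hyS
    exact ⟨_, _, ⟨x, c, hcS x (Submodule.subset_span (by simp)), rfl⟩, ⟨y, b, hy, rfl⟩, comm_of_third _ _ _ _ hx hy _ hcy⟩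
  have hdet : ∀ (x b : Fin 3 → F) (hx : b ⬝ᵥ x = 0), (A (tvGL x b hx)).det = 1 := by
    intro x b hx
    obtain ⟨g, s, -, -, he⟩ := hcomm x b hx
    have e : ∀ k : GL (Fin 3) F, (A k).det * (A k⁻¹).det = 1 := fun k => by
      rw [← Matrix.det_mul, ← hAmul, mul_inv_cancel, hA1, Matrix.det_one]
    rw [he, hAmul, hAmul, hAmul, Matrix.det_mul, Matrix.det_mul, Matrix.det_mul]
    linear_combination ((A s).det * (A s⁻¹).det) * e g + e s
  have hscal : ∀ (x b : Fin 3 → F) (hx : b ⬝ᵥ x = 0), ∃ a : ℂ, τ (tvGL x b hx) = a • 1 := by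
    intro x b hx
    set B := A (tvGL x b hx) with hB
    have hBB : B * B = 1 := by rw [hB, ← hAmul, hinv, hA1]
    have hadj : B.adjugate = B := by
      have h1 := Matrix.adjugate_mul B
      rw [hB, hdet, one_smul, ← hB] at h1
      calc B.adjugate = B.adjugate * (B * B) := by rw [hBB, mul_one]
        _ = B := by rw [← mul_assoc, h1, one_mul]
    rw [Matrix.adjugate_fin_two] at hadj
    refine ⟨B 0 0, (LinearMap.toMatrix bas bas).injective ?_⟩
    show B = _
    rw [map_smul, show LinearMap.toMatrix bas bas (1 : W →ₗ[ℂ] W) = 1 from LinearMap.toMatrix_id bas]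
    have e00 := congrFun (congrFun hadj 0) 0
    have e01 := congrFun (congrFun hadj 0) 1
    have e10 := congrFun (congrFun hadj 1) 0
    simp at e00 e01 e10
    ext i j
    fin_cases i <;> fin_cases j <;> simp [e00]
    · linear_combination -(1 / 2 : ℂ) * e01
    · linear_combination -(1 / 2 : ℂ) * e10
  obtain ⟨g, s, ⟨y, c, hy, rfl⟩, ⟨y', c', hy', rfl⟩, he⟩ := hcomm v f h
  obtain ⟨a, ha⟩ := hscal y c hy
  have hc : τ (tvGL y c hy) * τ (tvGL y' c' hy') = τ (tvGL y' c' hy') * τ (tvGL y c hy) := by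
    rw [ha, smul_mul_assoc, one_mul, mul_smul_comm, mul_one]
  rw [he, map_mul, map_mul, map_mul, hc, mul_assoc (τ (tvGL y' c' hy')), ← map_mul τ (tvGL y c hy),
    mul_inv_cancel, map_one, mul_one, ← map_mul, mul_inv_cancel, map_one]

set_option maxHeartbeats 4000000 in
/-- The case `SL_5(2)`. -/
theorem sl_five_two (h2 : Fintype.card F = 2) {V : Type*} [AddCommGroup V] [Module ℂ V] [FiniteDimensional ℂ V]
    (ρ : Representation ℂ (Matrix.SpecialLinearGroup (Fin 5) F) V) (hρ : ρ.IsIrreducible)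
    (hk : 2 ≤ Module.finrank ℂ V) : SLArith.geo (Fintype.card F) 5 ≤ Module.finrank ℂ V := by
  classical
  by_contra hlt
  push Not at hlt
  obtain ⟨θ, hθ⟩ : ∃ θ : AddChar F ℂ, θ ≠ 0 := by
    have : Nontrivial (AddChar F ℂ) := Fintype.one_lt_card_iff_nontrivial.mp
      (by rw [AddChar.card_eq]; exact Fintype.one_lt_card)
    exact exists_ne 0
  have hθ1 := theta_one h2 hθ
  have h11 : (1 : F) + 1 = 0 := (zero_or_one h2 (1 + 1)).resolve_right (fun e => one_ne_zero (add_eq_left.mp e))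
  have hm4 : 2 ≤ 4 := by norm_num
  have hex : (4, Fintype.card F) ≠ (2, 2) ∧ (4, Fintype.card F) ≠ (2, 4) ∧ (4, Fintype.card F) ≠ (3, 2) ∧
      (4, Fintype.card F) ≠ (3, 3) := by simp
  obtain ⟨hd, hfix, hsum, htr⟩ := small_degree (m := 4) hm4 hex θ hθ ρ (exists_ne_one_of_irreducible ρ hρ hk) hlt
  set M := ofSL hm4 θ hθ ρ with hM
  set σ := M.fixed with hσ
  let M' := ofGL (m := 3) (by norm_num) θ hθ σ
  set v' : Fin 3 → F := ![1, 0, 0] with hv'
  set f' : Fin 3 → F := ![0, 1, 0] with hf'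
  set g' : Fin 3 → F := ![0, 0, 1] with hg'
  set a : Fin 3 → F := ![1, 0, 0] with ha
  set b : Fin 3 → F := ![0, 0, 1] with hb
  set c : Fin 3 → F := ![1, 0, 1] with hc
  have hfv : f' ⬝ᵥ v' = 0 := by simp [f', v', dotProduct, Fin.sum_univ_three]
  have hv'0 : v' ≠ 0 := fun e => one_ne_zero (congrFun e 0)
  have hf'0 : f' ≠ 0 := fun e => one_ne_zero (congrFun e 1)
  have hg'0 : g' ≠ 0 := fun e => one_ne_zero (congrFun e 2)
  set V' : Fin 4 → F := Fin.cons 0 v' with hV'
  set F' : Fin 4 → F := Fin.cons 0 f' with hF'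
  have hFV : F' ⬝ᵥ V' = 0 := by rw [cons_dot_cons]; exact hfv
  have hV'0 : V' ≠ 0 := fun e => hv'0 (funext fun i => congrFun e i.succ)
  have hF'0 : F' ≠ 0 := fun e => hf'0 (funext fun i => congrFun e i.succ)
  set t' := tvGL v' f' hfv with ht'
  set t := tvGL V' F' hFV with ht
  have hlt' : leviGL F 3 t' = t := Units.ext (pmat_levi_tvm v' f')
  -- dimensions
  have he : (Pi.single 0 1 : Fin 3 → F) ≠ 0 := Pi.single_ne_zero_iff.mpr one_ne_zero
  set D4 := Module.finrank ℂ (LinearMap.range (M.P 0)) with hD4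
  have hD4' : D4 = M.d 0 := rfl
  have hd' : M'.d (Pi.single 0 1) = 1 := by
    have h1 : LinearMap.trace ℂ _ (M'.u g') = (D4 : ℂ) - (Fintype.card F : ℂ) ^ (4 - 1) :=
      hfix _ _ _ (Pi.single_ne_zero_iff.mpr one_ne_zero) (fun e => hg'0 (funext fun i => congrFun e i.succ))
    rw [M'.trace_u he hg'0] at h1
    have : (M'.d (Pi.single 0 1) : ℂ) = ((1 : ℕ) : ℂ) :=
      mul_right_cancel₀ (pow_ne_zero 3 (Nat.cast_ne_zero.mpr Fintype.card_ne_zero : (Fintype.card F : ℂ) ≠ 0))
        (by rw [show 4 - 1 = 3 from rfl] at h1; push_cast; linear_combination -h1)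
    exact_mod_cast this
  have hsum' : D4 = M'.d 0 + 7 := by
    have h3 := M'.finrank_eq he
    rw [hd', h2] at h3
    have : (D4 : ℂ) = ((M'.d 0 + 7 : ℕ) : ℂ) := by push_cast at h3 ⊢; linear_combination h3
    exact_mod_cast this
  obtain ⟨T, hT, hdvd⟩ := dvd_class_sum hm4 ρ hρ _ rfl htr
  have hdiv := dvd_defect (j := SLArith.geo (Fintype.card F) (4 + 1) - Module.finrank ℂ V) (by omega) hT hdvd (Nat.add_sub_cancel' hlt.le)
  simp only [h2, SLArith.geo] at hdiv hlt hsum
  have hk24 : Module.finrank ℂ V = 24 := by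
    generalize Module.finrank ℂ V = k at hdiv hlt hsum
    have h22 : 22 ≤ k := by omega
    have h30 : k < 30 := by omega
    interval_cases k <;> revert hdiv <;> norm_num
  have hD4v : D4 = 9 := by omega
  have hD3 : M'.d 0 = 2 := by omega
  -- signs at the second level
  have hmem3 : ∀ w : Fin 3 → F, w ≠ 0 → (M'.act t' w = w ↔ w ∈ ({a, b, c} : Finset (Fin 3 → F))) := by
    intro w hw
    have e : M'.act t' w = w + (f' ⬝ᵥ w) • v' := by simp [M', Mirab.act, ofGL, t', tvm_mulVec]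
    rw [e]
    have hwv : w = ![w 0, w 1, w 2] := by ext i; fin_cases i <;> rfl
    rcases zero_or_one h2 (w 0) with h0 | h0 <;> rcases zero_or_one h2 (w 1) with h1 | h1 <;>
      rcases zero_or_one h2 (w 2) with h2' | h2' <;> rw [h0, h1, h2'] at hwv <;> subst hwv <;>
      simp [a, b, c, f', v', dotProduct, Fin.sum_univ_three, funext_iff, Fin.forall_fin_succ, h11] at hw ⊢
  have hnot3 : (0 : Fin 3 → F) ∉ ({a, b, c} : Finset (Fin 3 → F)) := by
    simp [a, b, c, funext_iff, Fin.forall_fin_succ]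
  have hsum3 : ∀ φ : (Fin 3 → F) → ℂ, ∑ w ∈ ({a, b, c} : Finset (Fin 3 → F)), φ w = φ a + φ b + φ c := by
    intro φ
    rw [Finset.sum_insert (by simp [a, b, c, funext_iff, Fin.forall_fin_succ]),
      Finset.sum_insert (by simp [b, c, funext_iff, Fin.forall_fin_succ]), Finset.sum_singleton, add_assoc]
  have hτ : LinearMap.trace ℂ _ (M'.fixed t') = 2 := by
    rw [show M'.fixed t' = 1 from two_dim_trivial h2 hD3 M'.fixed v' f' hfv, LinearMap.trace_one]
    show ((M'.d 0 : ℕ) : ℂ) = 2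
    rw [hD3]; norm_num
  have hsign : ∀ w ∈ ({a, b, c} : Finset (Fin 3 → F)), ∃ s : ℂ, (s = 1 ∨ s = -1) ∧
      LinearMap.trace ℂ _ (M'.P w * M'.l t') = s := by
    intro w hw
    have hw0 : w ≠ 0 := fun e => hnot3 (e ▸ hw)
    have hdw : M'.d w = 1 := (M'.d_const hw0 he).trans hd'
    obtain ⟨s, hs, hs'⟩ := M'.exists_sign hdw ((hmem3 w hw0).mpr hw) (Units.ext (by
      show tvm v' f' * tvm v' f' = 1
      rw [tvm_mul_tvm _ _ _ hfv, show f' + f' = 0 from funext fun i => by
        fin_cases i <;> simp [f', h11], tvm_zero]))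
    exact ⟨s, hs, by rw [hs', map_smul, M'.trace_P, hdw]; simp⟩
  obtain ⟨sa, hsa, hsa'⟩ := hsign a (by simp)
  obtain ⟨sb, hsb, hsb'⟩ := hsign b (by simp)
  obtain ⟨sc, hsc, hsc'⟩ := hsign c (by simp)
  have hσt : LinearMap.trace ℂ _ (σ t) = 1 := by
    rw [hfix V' F' hFV hV'0 hF'0, ← hD4, hD4v, h2]; norm_num
  have hsigns : sa + sb + sc = -1 := by
    have h := M'.trace_l t' _ hmem3 hnot3
    rw [show M'.l t' = σ t from congrArg σ hlt', hσt, hτ, hsum3] at h
    rw [show M'.l t' = σ t from congrArg σ hlt'] at hsa' hsb' hsc'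
    rw [hsa', hsb', hsc'] at h
    linear_combination -h
  have hσs : LinearMap.trace ℂ _ (σ (radGL g' * t)) = 3 + 2 * sa := by
    rw [map_mul, ← hlt']
    show LinearMap.trace ℂ _ (M'.u g' * M'.l t') = _
    rw [M'.trace_u_l g' t' _ hmem3 hnot3, hτ, hsum3, hsa', hsb', hsc']
    have ea : g' ⬝ᵥ a = 0 := by simp [g', a, dotProduct, Fin.sum_univ_three]
    have eb : g' ⬝ᵥ b = 1 := by simp [g', b, dotProduct, Fin.sum_univ_three]
    have ec : g' ⬝ᵥ c = 1 := by simp [g', c, dotProduct, Fin.sum_univ_three]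
    show 2 + (θ (g' ⬝ᵥ a) * sa + θ (g' ⬝ᵥ b) * sb + θ (g' ⬝ᵥ c) * sc) = 3 + 2 * sa
    rw [ea, eb, ec, AddChar.map_zero_eq_one, hθ1]
    linear_combination -hsigns
  -- the element inside the Levi factor
  set G' : Fin 4 → F := Fin.cons 0 g' with hG'
  set E0 : Fin 4 → F := Pi.single 0 1 with hE0
  have hact : ∀ (A : GL (Fin 4) F) w, M.act A w = A.val *ᵥ w := by
    intro A w
    rw [hM, ofSL_act, (zero_or_one h2 A.val.det).resolve_left ((Matrix.isUnit_iff_isUnit_det _).mp A.isUnit).ne_zero,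
      one_smul]
  have hmem4 : ∀ w : Fin 4 → F, w ≠ 0 → (M.act (radGL g' * t) w = w ↔
      w ∈ ({![1, 0, 0, 0], ![0, 1, 0, 0], ![1, 1, 0, 0]} : Finset (Fin 4 → F))) := by
    intro w hw
    have e : M.act (radGL g' * t) w = w + (F' ⬝ᵥ w) • V' + (G' ⬝ᵥ (w + (F' ⬝ᵥ w) • V')) • E0 := by
      rw [hact, Units.val_mul, ← Matrix.mulVec_mulVec, tvGL_coe, tvm_mulVec, radGL, tvGL_coe, tvm_mulVec]
    rw [e]
    have hwv : w = ![w 0, w 1, w 2, w 3] := by ext i; fin_cases i <;> rfl
    rcases zero_or_one h2 (w 0) with h0 | h0 <;> rcases zero_or_one h2 (w 1) with h1 | h1 <;>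
      rcases zero_or_one h2 (w 2) with h2' | h2' <;> rcases zero_or_one h2 (w 3) with h3 | h3 <;>
      rw [h0, h1, h2', h3] at hwv <;> subst hwv <;>
      simp [F', V', G', E0, f', v', g', dotProduct, Fin.sum_univ_succ, funext_iff, Fin.forall_fin_succ, Pi.single_apply, Matrix.vecHead, Matrix.vecTail, h11] at hw ⊢
  have hnot4 : (0 : Fin 4 → F) ∉ ({![1, 0, 0, 0], ![0, 1, 0, 0], ![1, 1, 0, 0]} : Finset (Fin 4 → F)) := by
    simp [funext_iff, Fin.forall_fin_succ]
  have hχ2 : LinearMap.trace ℂ V (M.l (radGL g' * t)) = 6 + 2 * sa := by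
    rw [M.trace_l _ _ hmem4 hnot4, Finset.sum_congr rfl (g := fun _ => (1 : ℂ)) (fun w hw => ?_)]
    · rw [show M.fixed (radGL g' * t) = σ (radGL g' * t) from rfl, hσs, Finset.sum_const,
        Finset.card_insert_of_notMem (by simp [funext_iff, Fin.forall_fin_succ]),
        Finset.card_insert_of_notMem (by simp [funext_iff, Fin.forall_fin_succ]), Finset.card_singleton]
      norm_num
      ring
    have hw0 : w ≠ 0 := fun e => hnot4 (e ▸ hw)
    have hdw := hd w hw0
    simp only [Finset.mem_insert, Finset.mem_singleton] at hw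
    have h1 : ∀ (x y : Fin 4 → F) (hxy : y ⬝ᵥ x = 0), y ≠ 0 → y ⬝ᵥ w = 0 →
        M.P w * M.l (tvGL x y hxy) = M.P w := by
      intro x y hxy hy0 hyw
      obtain ⟨g, s, hg, hs, he⟩ := comm_twisted hm4 hex θ hθ ρ x y w hxy hy0 hyw
      rw [he]
      exact M.P_l_comm hdw hg hs
    have hFw : F' ⬝ᵥ w = 0 := by
      rcases hw with rfl | rfl | rfl <;> simp [F', f', dotProduct, Fin.sum_univ_succ]
    have hGw : G' ⬝ᵥ w = 0 := by
      rcases hw with rfl | rfl | rfl <;> simp [G', g', dotProduct, Fin.sum_univ_succ]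
    rw [map_mul M.l, ← mul_assoc]
    show LinearMap.trace ℂ V (M.P w * M.l (tvGL E0 G' _) * M.l t) = 1
    rw [h1 E0 G' _ (fun e => hg'0 (funext fun i => congrFun e i.succ)) hGw, h1 V' F' hFV hF'0 hFw,
      M.trace_P, hdw, Nat.cast_one]
  -- the same class through the radical
  set f1 : Fin 4 → F := ![1, 0, 0, 0] with hf1
  have hχ1 : LinearMap.trace ℂ V (M.u f1 * M.l t) = 0 := by
    set S := (univ.filter fun w : Fin 4 → F => F' ⬝ᵥ w = 0).erase 0 with hS
    have hmem : ∀ w, w ≠ 0 → (M.act t w = w ↔ w ∈ S) := by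
      intro w hw
      rw [hact, tvGL_coe, tvm_mulVec, add_eq_left, smul_eq_zero, or_iff_left hV'0]
      simp [S, hw]
    rw [M.trace_u_l f1 t S hmem (Finset.notMem_erase _ _), show M.fixed t = σ t from rfl, hσt,
      Finset.sum_congr rfl (g := fun w => θ (f1 ⬝ᵥ w)) (fun w hw => ?_)]
    · have h0 : ∑ w ∈ univ.filter (fun w : Fin 4 → F => F' ⬝ᵥ w = 0), θ (f1 ⬝ᵥ w) = 0 := by
        set E := ∑ w ∈ univ.filter (fun w : Fin 4 → F => F' ⬝ᵥ w = 0), θ (f1 ⬝ᵥ w) with hE
        have hF1 : F' ⬝ᵥ f1 = 0 := by simp [F', f1, f', dotProduct, Fin.sum_univ_succ]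
        have h11' : f1 ⬝ᵥ f1 = 1 := by simp [f1, dotProduct, Fin.sum_univ_succ]
        have hf1f1 : f1 + f1 = 0 := funext fun i => by fin_cases i <;> simp [f1, h11]
        have : E = -E := by
          calc E = ∑ w ∈ univ.filter (fun w : Fin 4 → F => F' ⬝ᵥ w = 0), θ (f1 ⬝ᵥ (w + f1)) := by
                rw [hE]
                refine Finset.sum_equiv (Equiv.addRight f1) (fun w => by simp [dotProduct_add, hF1]) (fun w _ => ?_)
                simp only [Equiv.coe_addRight, add_assoc, hf1f1, add_zero]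
            _ = -E := by
                rw [hE, ← Finset.sum_neg_distrib]
                exact Finset.sum_congr rfl fun w _ => by
                  rw [dotProduct_add, h11', AddChar.map_add_eq_mul, hθ1, mul_neg, mul_one]
        linear_combination this / 2
      rw [← Finset.add_sum_erase _ _ (Finset.mem_filter.mpr ⟨Finset.mem_univ (0 : Fin 4 → F), dotProduct_zero F'⟩),
        dotProduct_zero, AddChar.map_zero_eq_one] at h0
      exact h0
    · have hw0 := Finset.ne_of_mem_erase hw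
      obtain ⟨g, s, hg, hs, he⟩ := comm_twisted hm4 hex θ hθ ρ V' F' w hFV hF'0
        (Finset.mem_filter.mp (Finset.mem_of_mem_erase hw)).2
      rw [ht, he, M.trace_P_l_comm (hd w hw0) hg hs, mul_one]
      rfl
  -- conjugacy
  have hconj : ∃ g : Matrix.SpecialLinearGroup (Fin 5) F,
      g * (radSL f1 * leviSL F 4 t) * g⁻¹ = leviSL F 4 (radGL g' * t) := by
    let P : Matrix (Fin 5) (Fin 5) F :=
      !![0, 0, 0, 0, 1; 1, 0, 0, 0, 0; 0, 0, 1, 0, 0; 0, 0, 0, 1, 0; 0, 1, 0, 0, 0]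
    have hPP : P * Pᵀ = 1 := by
      rw [← Matrix.ext_iff]
      simp [Fin.forall_fin_succ, P, Matrix.mul_apply, Fin.sum_univ_succ, Matrix.one_apply, Fin.succ_ne_zero]
    have hP : P.det = 1 := (zero_or_one h2 P.det).resolve_left fun e => by
      have h := congrArg Matrix.det hPP
      rw [Matrix.det_mul, e, zero_mul, Matrix.det_one] at h
      exact zero_ne_one h
    refine ⟨⟨P, hP⟩, mul_inv_eq_of_eq_mul ?_⟩
    refine Subtype.ext ?_
    show P * (pmat 1 f1 1 * pmat ((Matrix.GeneralLinearGroup.det t)⁻¹ : Fˣ).val 0 (tvm V' F')) =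
      pmat ((Matrix.GeneralLinearGroup.det (radGL g' * t))⁻¹ : Fˣ).val 0 ((radGL g').val * tvm V' F') * P
    rw [map_mul, ht, radGL, det_tvGL, det_tvGL, mul_one, inv_one, Units.val_one, tvGL_coe, pmat_mul, mul_one,
      smul_zero, zero_add, Matrix.one_mul]
    rw [← Matrix.ext_iff]
    simp [Fin.forall_fin_succ, P, pmat, Matrix.mul_apply, Fin.sum_univ_succ, tvm, Matrix.vecMulVec_apply,
      Matrix.vecMul, dotProduct, Matrix.one_apply, f1, V', F', G', E0, v', f', g', Fin.succ_ne_zero]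
    simp only [show (4 : Fin 5) = Fin.succ 3 from rfl, show (3 : Fin 5) = Fin.succ 2 from rfl,
      show (2 : Fin 5) = Fin.succ 1 from rfl, Fin.cons_succ]
    simp [Matrix.mul_apply, Fin.sum_univ_succ, Matrix.one_apply, Pi.single_apply]
  obtain ⟨g, hg⟩ := hconj
  have hfinal : LinearMap.trace ℂ V (M.l (radGL g' * t)) = LinearMap.trace ℂ V (M.u f1 * M.l t) := by
    show LinearMap.trace ℂ V (ρ (leviSL F 4 (radGL g' * t))) = LinearMap.trace ℂ V (ρ (radSL f1) * ρ (leviSL F 4 t))
    rw [← hg, map_mul ρ, map_mul ρ, LinearMap.trace_mul_comm, ← mul_assoc, ← map_mul ρ g⁻¹, inv_mul_cancel,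
      map_one, one_mul, map_mul ρ]
  rw [hχ1, hχ2] at hfinal
  rcases hsa with rfl | rfl <;> norm_num at hfinal

/-- The case `q = 2`. -/
theorem sl_lower_two.{w} (h2 : Fintype.card F = 2) : ∀ (n : ℕ), 5 ≤ n →
    ∀ {V : Type w} [AddCommGroup V] [Module ℂ V] [FiniteDimensional ℂ V]
      (ρ : Representation ℂ (Matrix.SpecialLinearGroup (Fin n) F) V), ρ.IsIrreducible →
      2 ≤ Module.finrank ℂ V → SLArith.geo (Fintype.card F) n ≤ Module.finrank ℂ V := by
  intro n hn
  induction n, hn using Nat.le_induction with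
  | base => intro V _ _ _ ρ hρ hk; exact sl_five_two h2 ρ hρ hk
  | succ m hm ih =>
    intro V _ _ _ ρ hρ hk
    classical
    by_contra hlt
    push Not at hlt
    obtain ⟨θ, hθ⟩ : ∃ θ : AddChar F ℂ, θ ≠ 0 := by
      have : Nontrivial (AddChar F ℂ) := Fintype.one_lt_card_iff_nontrivial.mp
        (by rw [AddChar.card_eq]; exact Fintype.one_lt_card)
      exact exists_ne 0
    have hm2 : 2 ≤ m := by omega
    have hex : (m, Fintype.card F) ≠ (2, 2) ∧ (m, Fintype.card F) ≠ (2, 4) ∧ (m, Fintype.card F) ≠ (3, 2) ∧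
        (m, Fintype.card F) ≠ (3, 3) := by
      simp only [ne_eq, Prod.mk.injEq]; omega
    obtain ⟨hd, hfix, hsum, htr⟩ := small_degree hm2 hex θ hθ ρ (exists_ne_one_of_irreducible ρ hρ hk) hlt
    set M := ofSL hm2 θ hθ ρ
    let σ' : Representation ℂ (Matrix.SpecialLinearGroup (Fin m) F) (LinearMap.range (M.P 0)) :=
      M.fixed.comp Matrix.SpecialLinearGroup.toGL
    have hne : ∃ g, σ' g ≠ 1 := by
      let i0 : Fin m := ⟨0, by omega⟩
      let i1 : Fin m := ⟨1, by omega⟩
      have hfv : (Pi.single i1 1 : Fin m → F) ⬝ᵥ Pi.single i0 1 = 0 := by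
        simp [i0, i1, Pi.single_apply]
      refine ⟨tvSL (Pi.single i0 1) (Pi.single i1 1) hfv, fun e => ?_⟩
      have h1 := hfix (Pi.single i0 1) (Pi.single i1 1) hfv (Pi.single_ne_zero_iff.mpr one_ne_zero)
        (Pi.single_ne_zero_iff.mpr one_ne_zero)
      rw [show tvGL (Pi.single i0 (1 : F)) (Pi.single i1 1) hfv =
        Matrix.SpecialLinearGroup.toGL (tvSL (Pi.single i0 1) (Pi.single i1 1) hfv) from Units.ext rfl,
        show M.fixed (Matrix.SpecialLinearGroup.toGL (tvSL (Pi.single i0 1) (Pi.single i1 1) hfv)) = σ' _ from rfl,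
        e, LinearMap.trace_one] at h1
      exact pow_ne_zero (m - 1) (Nat.cast_ne_zero.mpr Fintype.card_ne_zero : (Fintype.card F : ℂ) ≠ 0)
        (by linear_combination h1)
    have : Nontrivial (Fin m) := Fin.nontrivial_iff_two_le.mpr (by omega)
    have h5 := le_finrank_of_nontrivial (CfsgLib.SLn.commutator_eq_top (F := F) (ι := Fin m)
      (Or.inl (by rw [Fintype.card_fin]; omega))) (SLArith.geo (Fintype.card F) m)
      (fun σ hσ h => ih σ hσ h) _ σ' rfl hne
    have h6 : Module.finrank ℂ (LinearMap.range (M.P 0)) = M.d 0 := rfl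
    rw [h6] at h5
    have hgeo : SLArith.geo (Fintype.card F) (m + 1) = SLArith.geo (Fintype.card F) m + Fintype.card F ^ m := by
      obtain ⟨r, rfl⟩ : ∃ r, m = r + 1 := ⟨m - 1, by omega⟩
      simp [SLArith.geo]
    obtain ⟨T, hT, hdvd⟩ := dvd_class_sum hm2 ρ hρ _ rfl htr
    have hdiv := dvd_defect (j := 1) (by omega) hT hdvd (by omega)
    refine SLArith.no_degree (m + 1) (Fintype.card F) 1 (by omega) (FiniteField.isPrimePow_card F) ?_ le_rfl
      (by omega) ?_
    · simp only [ne_eq, Prod.mk.injEq]; omega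
    · rwa [show SLArith.geo (Fintype.card F) (m + 1) - 1 = Module.finrank ℂ V by omega]

end CfsgLib.MinDegree.Mirabolic
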