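import Cfsg.Agent.MinDegree.Orbit
import Cfsg.Agent.UGeom.Eichler
import Cfsg.Agent.UGeom.Lines
import Cfsg.Agent.OrthOrder.Count
set_option autoImplicit false

/-!
Orbits of characters of skew-Hermitian matrices under congruence.
-/

namespace CfsgLib.MinDegree

open Matrix Finset CfsgLib.UGeom

variable {F : Type*} [Field F] [Fintype F] {q : ℕ}

/-- Conjugate transpose with respect to `σ`. -/
def ct (C : Conj F q) {ι κ : Type*} (A : Matrix ι κ F) : Matrix κ ι F := (A.map C.σ)ᵀ

variable (C : Conj F q)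

theorem ct_apply {ι κ : Type*} (A : Matrix ι κ F) (i : κ) (j : ι) : ct C A i j = C.σ (A j i) := rfl

theorem ct_mul {ι κ μ : Type*} [Fintype κ] (A : Matrix ι κ F) (B : Matrix κ μ F) :
    ct C (A * B) = ct C B * ct C A := by
  simp [ct, Matrix.map_mul, Matrix.transpose_mul]

theorem ct_ct {ι κ : Type*} (A : Matrix ι κ F) : ct C (ct C A) = A :=
  Matrix.ext fun i j => C.invol _

theorem ct_add {ι κ : Type*} (A B : Matrix ι κ F) : ct C (A + B) = ct C A + ct C B :=
  Matrix.ext fun i j => map_add C.σ _ _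

theorem ct_neg {ι κ : Type*} (A : Matrix ι κ F) : ct C (-A) = -ct C A :=
  Matrix.ext fun i j => map_neg C.σ _

theorem ct_sub {ι κ : Type*} (A B : Matrix ι κ F) : ct C (A - B) = ct C A - ct C B :=
  Matrix.ext fun i j => map_sub C.σ _ _

theorem ct_zero {ι κ : Type*} : ct C (0 : Matrix ι κ F) = 0 := Matrix.ext fun i j => map_zero C.σ

theorem ct_one {ι : Type*} [DecidableEq ι] : ct C (1 : Matrix ι ι F) = 1 := by
  simp [ct, Matrix.map_one]

theorem ct_smul {ι κ : Type*} (a : F) (A : Matrix ι κ F) : ct C (a • A) = C.σ a • ct C A :=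
  Matrix.ext fun i j => map_mul C.σ _ _

/-- Skew-Hermitian matrices. -/
def skewMat (m : ℕ) : AddSubgroup (Matrix (Fin m) (Fin m) F) where
  carrier := {S | S + ct C S = 0}
  add_mem' {a b} (ha hb) := by
    show a + b + ct C (a + b) = 0
    rw [ct_add, add_add_add_comm, show a + ct C a = 0 from ha, show b + ct C b = 0 from hb, add_zero]
  zero_mem' := by show (0 : Matrix (Fin m) (Fin m) F) + ct C 0 = 0; rw [ct_zero, add_zero]
  neg_mem' {a} (ha) := by
    show -a + ct C (-a) = 0
    rw [ct_neg, ← neg_add, show a + ct C a = 0 from ha, neg_zero]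

noncomputable instance (m : ℕ) : Fintype (skewMat C m) := Fintype.ofFinite _

variable {m : ℕ}

/-- `x v* - v x*`. -/
def sk2 (x v : Fin m → F) : skewMat C m :=
  ⟨Matrix.of fun i j => x i * C.σ (v j) - v i * C.σ (x j), by
    show _ + _ = 0
    ext i j
    simp [ct_apply, C.invol]
    ring⟩

theorem sk2_apply (x v : Fin m → F) (i j : Fin m) :
    (sk2 C x v : Matrix (Fin m) (Fin m) F) i j = x i * C.σ (v j) - v i * C.σ (x j) := rfl

theorem sk2_add (x y v : Fin m → F) : sk2 C (x + y) v = sk2 C x v + sk2 C y v := by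
  refine Subtype.ext (Matrix.ext fun i j => ?_)
  simp [sk2_apply]
  ring

theorem sk2_zero (v : Fin m → F) : sk2 C 0 v = 0 := by
  refine Subtype.ext (Matrix.ext fun i j => ?_)
  simp [sk2_apply]

/-- The congruence action `S ↦ A S A*`. -/
def congSkew (A : Matrix (Fin m) (Fin m) F) : skewMat C m →+ skewMat C m where
  toFun S := ⟨A * S * ct C A, by
    show _ + _ = 0
    rw [ct_mul, ct_mul, ct_ct, Matrix.mul_assoc, ← Matrix.mul_add, ← Matrix.add_mul,
      show (S : Matrix (Fin m) (Fin m) F) + ct C S = 0 from S.2, Matrix.zero_mul, Matrix.mul_zero]⟩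
  map_zero' := Subtype.ext (show A * 0 * ct C A = 0 by simp)
  map_add' S T := Subtype.ext (show A * ((S : Matrix (Fin m) (Fin m) F) + (T : Matrix (Fin m) (Fin m) F)) * ct C A = _ by
    rw [Matrix.mul_add, Matrix.add_mul]; rfl)

theorem congSkew_sk2 (A : Matrix (Fin m) (Fin m) F) (x v : Fin m → F) :
    congSkew C A (sk2 C x v) = sk2 C (A *ᵥ x) (A *ᵥ v) := by
  refine Subtype.ext ?_
  have e : ∀ y z : Fin m → F, (sk2 C y z : Matrix (Fin m) (Fin m) F) =
      Matrix.vecMulVec y (fun j => C.σ (z j)) - Matrix.vecMulVec z (fun j => C.σ (y j)) := fun y z => rfl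
  have h : ∀ y : Fin m → F, (fun j => C.σ (y j)) ᵥ* ct C A = fun j => C.σ ((A *ᵥ y) j) := by
    intro y; funext j
    simp [Matrix.vecMul, Matrix.mulVec, dotProduct, ct_apply, mul_comm]
  show A * (sk2 C x v : Matrix (Fin m) (Fin m) F) * ct C A = _
  rw [e, e, Matrix.mul_sub, Matrix.sub_mul, Matrix.mul_vecMulVec, Matrix.vecMulVec_mul, h,
    Matrix.mul_vecMulVec, Matrix.vecMulVec_mul, h]

theorem sk2_expand (a t : F) (w v : Fin m → F) :
    sk2 C (a • (w + t • v)) (w + t • v) =
      sk2 C (a • w) w + sk2 C (((a - C.σ a) * C.σ t) • w) v + sk2 C ((a * (t * C.σ t)) • v) v := by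
  refine Subtype.ext (Matrix.ext fun i j => ?_)
  simp [sk2_apply, C.invol]
  ring

/-- A nontrivial character is nontrivial on some rank-one matrix. -/
theorem exists_sk2_ne_one {ψ : AddChar (skewMat C m) ℂ} (hψ : ψ ≠ 0) :
    ∃ (a : F) (v : Fin m → F), ψ (sk2 C (a • v) v) ≠ 1 := by
  by_contra hno
  push Not at hno
  obtain ⟨c₀, hc0, hc₀⟩ : ∃ c : F, c - C.σ c ≠ 0 ∧ True := by
    by_contra h
    push Not at h
    exact C.ne_id (RingHom.ext fun x => by
      by_contra hx; exact h x (sub_ne_zero.mpr (Ne.symm hx)))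
  obtain ⟨τ, hτ⟩ := exists_trace_one C
  let K : AddSubgroup (skewMat C m) :=
    { carrier := {T | ψ T = 1}
      add_mem' := fun {a b} (ha hb) => by
        show ψ _ = 1
        rw [AddChar.map_add_eq_mul, show ψ a = 1 from ha, show ψ b = 1 from hb, one_mul]
      zero_mem' := AddChar.map_zero_eq_one ψ
      neg_mem' := fun {a} (ha) => by
        show ψ _ = 1
        rw [AddChar.map_neg_eq_inv, show ψ a = 1 from ha, inv_one] }
  have hall : ∀ (x : Fin m → F) v, sk2 C x v ∈ K := by
    intro x v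
    have e := sk2_expand C c₀ 1 ((c₀ - C.σ c₀)⁻¹ • x) v
    simp only [map_one, mul_one, one_smul, smul_smul, mul_inv_cancel₀ hc0] at e
    have e2 : sk2 C x v = sk2 C (c₀ • ((c₀ - C.σ c₀)⁻¹ • x + v)) ((c₀ - C.σ c₀)⁻¹ • x + v) -
        sk2 C ((c₀ * (c₀ - C.σ c₀)⁻¹) • x) ((c₀ - C.σ c₀)⁻¹ • x) - sk2 C (c₀ • v) v := by
      rw [e]; abel
    rw [e2]
    refine K.sub_mem (K.sub_mem (hno _ _) ?_) (hno _ _)
    rw [← smul_smul]
    exact hno _ _
  refine hψ (DFunLike.ext _ _ fun S => ?_)
  rw [AddChar.zero_apply]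
  have e : S = ∑ i, ∑ j, sk2 C ((τ * (S : Matrix (Fin m) (Fin m) F) i j) • Pi.single i 1) (Pi.single j 1) := by
    refine Subtype.ext (Matrix.ext fun a b => ?_)
    have hs : C.σ ((S : Matrix (Fin m) (Fin m) F) b a) = -(S : Matrix (Fin m) (Fin m) F) a b := by
      have h : (S : Matrix (Fin m) (Fin m) F) + ct C S = 0 := S.2
      exact eq_neg_of_add_eq_zero_right (congrFun (congrFun h a) b)
    classical
    simp [sk2_apply, Matrix.sum_apply, Pi.single_apply, apply_ite C.σ, Finset.sum_sub_distrib, hs]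
    linear_combination -((S : Matrix (Fin m) (Fin m) F) a b) * hτ
  have : S ∈ K := by
    rw [e]
    exact K.sum_mem fun i _ => K.sum_mem fun j _ => hall _ _
  exact this

/-- Characters of a field are the multiplicative translates of any nontrivial one. -/
theorem exists_mulShift {θ : AddChar F ℂ} (hθ : θ ≠ 0) (η : AddChar F ℂ) :
    ∃ b : F, ∀ a, η a = θ (b * a) := by
  have hinj : Function.Injective fun b : F => AddChar.mulShift θ b := by
    intro b b' h
    by_contra hne
    refine hθ (DFunLike.ext _ _ fun c => ?_)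
    have h1 := DFunLike.congr_fun h (c / (b - b'))
    simp only [AddChar.mulShift_apply] at h1
    have e : b * (c / (b - b')) = b' * (c / (b - b')) + c := by
      field_simp [sub_ne_zero.mpr hne]; ring
    rw [e, AddChar.map_add_eq_mul] at h1
    rw [AddChar.zero_apply]
    exact mul_left_cancel₀ (θ.val_isUnit _).ne_zero (h1.trans (mul_one _).symm)
  obtain ⟨b, hb⟩ := ((Fintype.bijective_iff_injective_and_card _).mpr ⟨hinj, AddChar.card_eq.symm⟩).2 η
  exact ⟨b, fun a => by rw [← hb]; rfl⟩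

open Classical in
theorem card_norm_eq_le (α γ : F) :
    (Finset.univ.filter fun t : F => (t + α) * C.σ (t + α) = γ).card ≤ q + 1 := by
  classical
  refine le_trans (Finset.card_le_card_of_injOn (fun t => t + α) (fun t ht => ?_) (fun t _ t' _ h => add_right_cancel h))
    (le_trans (Multiset.toFinset_card_le _) (Polynomial.card_nthRoots (q + 1) γ))
  have h := (Finset.mem_filter.mp ht).2
  rw [C.pow, ← pow_succ'] at h
  exact Multiset.mem_toFinset.mpr ((Polynomial.mem_nthRoots (Nat.succ_pos q)).mpr h)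

variable {V : Type*} [AddCommGroup V] [Module ℂ V] [FiniteDimensional ℂ V]

/-- Degree bound from one character of the skew-Hermitian radical. -/
theorem skew_bound (hm : 1 ≤ m) (T : skewMat C m → Module.End ℂ V) (P : Matrix (Fin m) (Fin m) F → Prop)
    (hP : ∀ v v' : Fin m → F, v ≠ 0 → v' ≠ 0 → ∃ Z, P Z ∧ Z *ᵥ v = v')
    (hP' : ∀ Z v (u : Fin m → F), P Z → u ⬝ᵥ v = 0 → P (Z * (1 + Matrix.vecMulVec v u)))
    (hL : ∀ A, P A → ∃ U U' : Module.End ℂ V, U * U' = 1 ∧ U' * U = 1 ∧
      ∀ S, T (congSkew C A S) = U * T S * U')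
    (ψ : AddChar (skewMat C m) ℂ) (a₀ : F) (v₀ : Fin m → F) (ha₀ : ψ (sk2 C (a₀ • v₀) v₀) ≠ 1)
    (d : ℕ) (w : Fin d → V) (hw : LinearIndependent ℂ w) (hwψ : ∀ i S, T S (w i) = ψ S • w i) :
    d * (q ^ (2 * m) - 1) ≤ Module.finrank ℂ V * (q + 1) := by
  classical
  have hv₀ : v₀ ≠ 0 := by
    rintro rfl
    rw [smul_zero, sk2_zero] at ha₀
    exact ha₀ (AddChar.map_zero_eq_one ψ)
  let O : Finset (AddChar (skewMat C m) ℂ) :=
    (univ.filter fun A => P A).image fun A => ψ.compAddMonoidHom (congSkew C A)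
  have hOV : d * O.card ≤ Module.finrank ℂ V := by
    refine mul_card_le_finrank T d O fun φ hφ => ?_
    obtain ⟨A, hA, rfl⟩ := Finset.mem_image.mp hφ
    obtain ⟨U, U', h1, h2, h3⟩ := hL A (Finset.mem_filter.mp hA).2
    refine ⟨fun i => U' (w i), hw.map' U' ?_, fun i s => ?_⟩
    · exact LinearMap.ker_eq_bot.mpr fun x y e => by
        have := congrArg U e
        simpa [← Module.End.mul_apply, h1] using this
    · have e : T s * U' = U' * T (congSkew C A s) := by
        rw [h3]; simp only [← mul_assoc, h2, one_mul]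
      rw [← Module.End.mul_apply, e, Module.End.mul_apply, hwψ, map_smul]
      rfl
  let sh : ∀ _v : Fin m → F, F →+ skewMat C m := fun v =>
    AddMonoidHom.mk' (fun a => sk2 C (a • v) v) fun a b => by rw [add_smul, sk2_add]
  let θ : AddChar F ℂ := ψ.compAddMonoidHom (sh v₀)
  have hθdef : ∀ a, θ a = ψ (sk2 C (a • v₀) v₀) := fun a => rfl
  have hθ : θ ≠ 0 := fun h => ha₀ (by rw [← hθdef, h, AddChar.zero_apply])
  have hθσ : ∀ z, θ (-C.σ z) = θ z := fun z => by
    have e : sk2 C ((-C.σ z) • v₀) v₀ = sk2 C (z • v₀) v₀ := by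
      refine Subtype.ext (Matrix.ext fun i j => ?_)
      simp [sk2_apply, C.invol]
      ring
    rw [hθdef, hθdef, e]
  let R : AddChar (skewMat C m) ℂ → (Fin m → F) → Prop := fun φ v => ∀ a, φ (sk2 C (a • v) v) = θ a
  have hup : ∀ φ, (Finset.bipartiteAbove R (univ.erase 0) φ).card ≤ (q + 1) * (q ^ 2) ^ (m - 1) := by
    intro φ
    set B := Finset.bipartiteAbove R (univ.erase 0) φ with hB
    rcases B.eq_empty_or_nonempty with he | ⟨v, hv⟩
    · simp [he]
    have hvR : R φ v := (Finset.mem_filter.mp hv).2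
    have hfew : ∀ x : Fin m → F, (univ.filter fun t : F => x + t • v ∈ B).card ≤ q + 1 := by
      intro x
      obtain ⟨β, hβ⟩ := exists_mulShift hθ (φ.compAddMonoidHom (sh x))
      obtain ⟨α, hα⟩ := exists_mulShift hθ (φ.compAddMonoidHom
        (AddMonoidHom.mk' (fun b => sk2 C (b • x) v) fun a b => by rw [add_smul, sk2_add]))
      refine le_trans (Finset.card_le_card fun t ht => ?_) (card_norm_eq_le C α (α * C.σ α - β + 1))
      have hR : R φ (x + t • v) := (Finset.mem_filter.mp (Finset.mem_filter.mp ht).2).2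
      refine Finset.mem_filter.mpr ⟨Finset.mem_univ _, ?_⟩
      by_contra hne
      set r := (t + α) * C.σ (t + α) - (α * C.σ α - β + 1) with hr
      have hr0 : r ≠ 0 := sub_ne_zero.mpr hne
      obtain ⟨c, hc⟩ : ∃ c, θ c ≠ 1 := by
        by_contra h
        push Not at h
        exact hθ (DFunLike.ext _ _ fun c => by rw [h, AddChar.zero_apply])
      apply hc
      set a := c / r with ha
      have h := hR a
      have hβ' : φ (sk2 C (a • x) x) = θ (β * a) := hβ a
      have hα' : φ (sk2 C (((a - C.σ a) * C.σ t) • x) v) = θ (α * ((a - C.σ a) * C.σ t)) := hα _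
      rw [sk2_expand, AddChar.map_add_eq_mul, AddChar.map_add_eq_mul, hvR, hβ', hα'] at h
      have e : α * ((a - C.σ a) * C.σ t) = α * a * C.σ t + -C.σ (C.σ α * a * t) := by
        simp [C.invol]; ring
      rw [e, AddChar.map_add_eq_mul, hθσ, ← AddChar.map_add_eq_mul, ← AddChar.map_add_eq_mul,
        ← AddChar.map_add_eq_mul] at h
      have e2 : β * a + (α * a * C.σ t + C.σ α * a * t) + a * (t * C.σ t) = a + c := by
        rw [show c = a * r by rw [ha, div_mul_cancel₀ _ hr0], hr, map_add]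
        ring
      rw [e2, AddChar.map_add_eq_mul] at h
      exact mul_left_cancel₀ (θ.val_isUnit _).ne_zero (h.trans (mul_one _).symm)
    have key : Fintype.card F * B.card = ∑ x : Fin m → F, (univ.filter fun t : F => x + t • v ∈ B).card := by
      rw [show (∑ x : Fin m → F, (univ.filter fun t : F => x + t • v ∈ B).card) =
        ((univ ×ˢ univ).filter fun p : (Fin m → F) × F => p.1 + p.2 • v ∈ B).card by
          rw [Finset.card_filter, Finset.sum_product]
          exact Finset.sum_congr rfl fun x _ => Finset.card_filter _ _]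
      rw [mul_comm, ← Finset.card_univ, ← Finset.card_product]
      refine Finset.card_bij (fun p _ => (p.1 - p.2 • v, p.2)) (fun p hp => ?_) (fun p _ p' _ h => ?_)
        (fun p hp => ?_)
      · simp at hp ⊢; exact hp
      · simp [Prod.ext_iff] at h ⊢
        obtain ⟨h1, h2⟩ := h
        rw [h2] at h1
        exact ⟨sub_left_injective h1, h2⟩
      · exact ⟨(p.1 + p.2 • v, p.2), by simpa using hp, by simp⟩
    have hle : Fintype.card F * B.card ≤ Fintype.card F ^ m * (q + 1) := by
      rw [key]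
      refine (Finset.sum_le_card_nsmul _ _ (q + 1) fun x _ => hfew x).trans ?_
      simp
    have hq : Fintype.card F ^ m = Fintype.card F * (q ^ 2) ^ (m - 1) := by
      rw [← C.card, ← pow_succ']; congr 1; omega
    rw [hq] at hle
    exact Nat.le_of_mul_le_mul_left (by linarith) Fintype.card_pos
  have hlow : ∀ v ∈ (univ.erase 0 : Finset (Fin m → F)),
      (q ^ 2) ^ (m - 1) ≤ (Finset.bipartiteBelow R O v).card := by
    intro v hv
    have hv0 := Finset.ne_of_mem_erase hv
    obtain ⟨Z, hZ, hZv⟩ := hP v v₀ hv0 hv₀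
    have hcard : (univ.filter fun u : Fin m → F => ∑ i, v i * u i = 0).card = (q ^ 2) ^ (m - 1) := by
      rw [← Fintype.card_subtype, ← Nat.card_eq_fintype_card, ← C.card]
      exact CfsgLib.OrthOrder.card_dot_eq hv0 0
    rw [← hcard]
    have huv : ∀ u : Fin m → F, ∑ i, v i * u i = 0 → u ⬝ᵥ v = 0 := fun u h => by
      rw [dotProduct_comm]; exact h
    have hmv : ∀ (u : Fin m → F) (x : Fin m → F),
        (Z * (1 + Matrix.vecMulVec v u)) *ᵥ x = Z *ᵥ x + (u ⬝ᵥ x) • v₀ := by
      intro u x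
      rw [← Matrix.mulVec_mulVec, Matrix.add_mulVec, Matrix.one_mulVec,
        Matrix.vecMulVec_mulVec, Matrix.mulVec_add, op_smul_eq_smul, Matrix.mulVec_smul, hZv]
    refine Finset.card_le_card_of_injOn
      (fun u => ψ.compAddMonoidHom (congSkew C (Z * (1 + Matrix.vecMulVec v u)))) (fun u hu => ?_) ?_
    · have hu' := huv u (Finset.mem_filter.mp hu).2
      refine Finset.mem_filter.mpr ⟨Finset.mem_image.mpr
        ⟨_, Finset.mem_filter.mpr ⟨Finset.mem_univ _, hP' Z v u hZ hu'⟩, rfl⟩, fun a => ?_⟩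
      show ψ (congSkew C _ (sk2 C (a • v) v)) = θ a
      rw [congSkew_sk2, Matrix.mulVec_smul, hmv, hu', zero_smul, add_zero, hZv, hθdef]
    · intro u hu u' hu' he
      have hu1 := huv u (Finset.mem_filter.mp hu).2
      have hu2 := huv u' (Finset.mem_filter.mp hu').2
      have hval : ∀ (u : Fin m → F), u ⬝ᵥ v = 0 → ∀ x,
          ψ (congSkew C (Z * (1 + Matrix.vecMulVec v u)) (sk2 C x v)) =
            ψ (sk2 C (Z *ᵥ x) v₀) * θ (u ⬝ᵥ x) := by
        intro u hu x
        rw [congSkew_sk2, hmv, hmv, hu, zero_smul, add_zero, hZv, sk2_add, AddChar.map_add_eq_mul]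
        rfl
      by_contra hne
      obtain ⟨i, hi⟩ := Function.ne_iff.mp (sub_ne_zero.mpr hne)
      have hi' : u i - u' i ≠ 0 := by simpa using hi
      set x : Fin m → F := Pi.single i (a₀ / (u i - u' i)) with hx
      have e := DFunLike.congr_fun he (sk2 C x v)
      simp only [AddChar.compAddMonoidHom_apply, hval u hu1 x, hval u' hu2 x] at e
      have e2 := mul_left_cancel₀ (ψ.val_isUnit _).ne_zero e
      have : (u ⬝ᵥ x : F) = u' ⬝ᵥ x + a₀ := by
        simp [hx]; field_simp; ring
      rw [this, AddChar.map_add_eq_mul] at e2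
      exact ha₀ (mul_left_cancel₀ (θ.val_isUnit _).ne_zero (e2.trans (mul_one _).symm))
  have h := Finset.card_mul_le_card_mul' R (s := O) (t := univ.erase 0)
    (fun v hv => hlow v hv) (fun φ _ => hup φ)
  rw [Finset.card_erase_of_mem (Finset.mem_univ _), Finset.card_univ, Fintype.card_fun, Fintype.card_fin,
    C.card, ← pow_mul] at h
  have hpos : 0 < (q ^ 2) ^ (m - 1) := by have := C.two_le; positivity
  have h' : q ^ (2 * m) - 1 ≤ O.card * (q + 1) := Nat.le_of_mul_le_mul_right (by linarith) hpos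
  calc d * (q ^ (2 * m) - 1) ≤ d * (O.card * (q + 1)) := Nat.mul_le_mul_left _ h'
    _ = (d * O.card) * (q + 1) := (mul_assoc _ _ _).symm
    _ ≤ _ := Nat.mul_le_mul_right _ hOV

end CfsgLib.MinDegree
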