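import Cfsg.Agent.MinDegree.SpLower
import Cfsg.Agent.MinDegree.Skew
set_option autoImplicit false

/-!
Degree bound for `Sp_2n(q)`, `q` even: characters of the Siegel radical are quadratic forms.
-/

namespace CfsgLib.MinDegree

open Matrix Finset

variable {F : Type*} [Field F]

/-- Two independent pairs are moved into each other. -/
theorem exists_equiv_pair {X : Type*} [AddCommGroup X] [Module F X] [FiniteDimensional F X]
    {v w v' w' : X} (h : LinearIndependent F ![v, w]) (h' : LinearIndependent F ![v', w']) :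
    ∃ L : X ≃ₗ[F] X, L v = v' ∧ L w = w' := by
  classical
  set S := Submodule.span F (Set.range ![v, w]) with hS
  set S' := Submodule.span F (Set.range ![v', w']) with hS'
  obtain ⟨T, hT⟩ := Submodule.exists_isCompl S
  obtain ⟨T', hT'⟩ := Submodule.exists_isCompl S'
  have hTT : Module.finrank F T = Module.finrank F T' := by
    have e1 := Submodule.finrank_add_eq_of_isCompl hT
    have e2 := Submodule.finrank_add_eq_of_isCompl hT'
    rw [hS, finrank_span_eq_card h, ← finrank_span_eq_card h'] at e1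
    rw [hS'] at e2
    omega
  let e : S ≃ₗ[F] S' := (Module.Basis.span h).equiv (Module.Basis.span h') (Equiv.refl _)
  let L : X ≃ₗ[F] X := (Submodule.prodEquivOfIsCompl S T hT).symm ≪≫ₗ
    (e.prodCongr (LinearEquiv.ofFinrankEq T T' hTT)) ≪≫ₗ Submodule.prodEquivOfIsCompl S' T' hT'
  have key : ∀ i, L (![v, w] i) = ![v', w'] i := by
    intro i
    have hb : ((Module.Basis.span h i : S) : X) = ![v, w] i := congrArg Subtype.val (Module.Basis.span_apply h i)
    have hb' : ((Module.Basis.span h' i : S') : X) = ![v', w'] i := congrArg Subtype.val (Module.Basis.span_apply h' i)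
    rw [← hb, ← hb']
    simp [L, e, -Module.Basis.span_apply]
  exact ⟨L, key 0, key 1⟩

variable [Fintype F] [DecidableEq F] {n : ℕ}

/-- Counting in a fibre of a translation-free map. -/
theorem card_mul_le_of_section {X : Type*} [Fintype X] [DecidableEq X] (S : Finset X) (f : X → F → X)
    (hf : ∀ a ∈ S, ∀ t, ∀ b ∈ S, ∀ s, f a t = f b s → a = b ∧ t = s) (T : Finset X)
    (hT : ∀ a ∈ S, ∀ t, f a t ∈ T) : Fintype.card F * S.card ≤ T.card := by
  rw [mul_comm, ← Finset.card_univ, ← Finset.card_product]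
  refine Finset.card_le_card_of_injOn (fun p => f p.1 p.2) (fun p hp => ?_) (fun p hp p' hp' h => ?_)
  · exact hT _ (Finset.mem_product.mp hp).1 _
  · obtain ⟨h1, h2⟩ := hf _ (Finset.mem_product.mp hp).1 _ _ (Finset.mem_product.mp hp').1 _ h
    exact Prod.ext h1 h2

theorem card_mul_le_of_lines {X : Type*} [AddCommGroup X] [Fintype X] [DecidableEq X] {ι : Type*} [Fintype ι]
    [DecidableEq ι] (φ : ι → X) (B : Finset X) (b : ℕ)
    (h : ∀ x : X, (univ.filter fun i => x + φ i ∈ B).card ≤ b) :
    Fintype.card ι * B.card ≤ Fintype.card X * b := by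
  have key : Fintype.card ι * B.card = ∑ x : X, (univ.filter fun i => x + φ i ∈ B).card := by
    rw [show (∑ x : X, (univ.filter fun i => x + φ i ∈ B).card) =
      ((univ ×ˢ univ).filter fun p : X × ι => p.1 + φ p.2 ∈ B).card by
        rw [Finset.card_filter, Finset.sum_product]
        exact Finset.sum_congr rfl fun x _ => Finset.card_filter _ _]
    rw [mul_comm, ← Finset.card_univ, ← Finset.card_product]
    refine Finset.card_bij (fun p _ => (p.1 - φ p.2, p.2)) (fun p hp => ?_) (fun p _ p' _ h => ?_)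
      (fun p hp => ?_)
    · simp at hp ⊢; exact hp
    · simp [Prod.ext_iff] at h ⊢
      obtain ⟨h1, h2⟩ := h
      rw [h2] at h1
      exact ⟨sub_left_injective h1, h2⟩
    · exact ⟨(p.1 + φ p.2, p.2), by simpa using hp, by simp⟩
  rw [key]
  exact (Finset.sum_le_card_nsmul _ _ b fun x _ => h x).trans (by simp)

/-- A quadratic form in characteristic two, with its polar form. -/
structure QData (F : Type*) [Field F] (n : ℕ) where
  /-- the form -/
  Q : (Fin n → F) → F
  /-- the polar form -/
  B : (Fin n → F) → (Fin n → F) → F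
  addl : ∀ x y z, B (x + y) z = B x z + B y z
  smull : ∀ (a : F) x z, B (a • x) z = a * B x z
  comm : ∀ x z, B x z = B z x
  alt : ∀ x, B x x = 0
  quad : ∀ (w v : Fin n → F) (t : F), Q (w + t • v) = Q w + t * B w v + t * t * Q v

/-- At most `2(q+1)q^{2n-4}` pairs look like a suitable plane `v₀, w₀`. -/
theorem QData.exists_few (D : QData F n) (hn : 2 ≤ n) (h2 : (2 : F) = 0)
    {a b : Fin n → F} (hab : D.B a b ≠ 0) :
    ∃ v₀ w₀, D.B v₀ w₀ = 1 ∧
      (univ.filter fun p : (Fin n → F) × (Fin n → F) =>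
        D.Q p.1 = D.Q v₀ ∧ D.Q p.2 = D.Q w₀ ∧ D.B p.1 p.2 = 1).card ≤
        2 * (Fintype.card F + 1) * (Fintype.card F ^ (n - 2)) ^ 2 := by
  classical
  set q := Fintype.card F with hq
  have hq0 : 0 < q := Fintype.card_pos
  have hX : Fintype.card (Fin n → F) = q * q * q ^ (n - 2) := by
    rw [Fintype.card_fun, Fintype.card_fin, ← hq, ← pow_two, ← pow_add]; congr 1; omega
  have scaled : ∀ v w, D.B v w ≠ 0 → D.B v ((D.B v w)⁻¹ • w) = 1 := fun v w h => by
    rw [D.comm, D.smull, D.comm w v, inv_mul_cancel₀ h]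
  -- partners of `v` with given value
  have hS : ∀ v γ (c : ℕ), (∀ w, D.B v w = 1 →
        (univ.filter fun t : F => D.Q (w + t • v) = γ).card ≤ c) → (∃ u, D.B v u = 1) →
      (univ.filter fun w => D.Q w = γ ∧ D.B v w = 1).card * (q * q) ≤ q * q * q ^ (n - 2) * c := by
    rintro v γ c hc ⟨u, hu⟩
    have hH : q * (univ.filter fun w => D.B v w = 1).card ≤ q * q * q ^ (n - 2) := by
      rw [← hX]
      refine card_mul_le_of_section _ (fun w t => w + t • u) (fun x hx t y hy s h => ?_) univ (fun _ _ _ => mem_univ _)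
      have hx' := (mem_filter.mp hx).2
      have hy' := (mem_filter.mp hy).2
      have e := congrArg (D.B v) h
      simp only [D.comm v (x + _), D.comm v (y + _), D.addl, D.smull, D.comm _ v, hx', hy', hu, mul_one] at e
      have hts : t = s := add_left_cancel e
      subst hts
      exact ⟨add_right_cancel h, rfl⟩
    have hline : q * (univ.filter fun w => D.Q w = γ ∧ D.B v w = 1).card ≤
        (univ.filter fun w => D.B v w = 1).card * c := by
      have hBt : ∀ w (t : F), D.B v (w + t • v) = D.B v w := fun w t => by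
        rw [D.comm, D.addl, D.smull, D.alt, mul_zero, add_zero, D.comm]
      rw [mul_comm, hq, ← Finset.card_univ, ← Finset.card_product]
      refine le_trans ?_ (Finset.card_mul_le_card_mul (fun (p : (Fin n → F) × F) w => p.1 + p.2 • v = w)
        (m := 1) (n := c) (s := (univ.filter fun w => D.Q w = γ ∧ D.B v w = 1) ×ˢ univ) (t := univ.filter fun w => D.B v w = 1)
        (fun p hp => ?_) (fun w hw => ?_))
      · rw [mul_one]
      · have hp' := (mem_filter.mp (mem_product.mp hp).1).2
        exact Finset.card_pos.mpr ⟨p.1 + p.2 • v, mem_filter.mpr ⟨mem_filter.mpr ⟨mem_univ _, by rw [hBt, hp'.2]⟩, rfl⟩⟩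
      · refine le_trans (Finset.card_le_card_of_injOn (fun p => -p.2) (fun p hp => ?_) (fun p hp p' hp' h => ?_))
          (hc w (mem_filter.mp hw).2)
        · obtain ⟨hp1, hpw⟩ := mem_filter.mp hp
          refine mem_filter.mpr ⟨mem_univ _, ?_⟩
          rw [← hpw, add_assoc, neg_smul, add_neg_cancel, add_zero]
          exact (mem_filter.mp (mem_product.mp hp1).1).2.1
        · have e : p.2 = p'.2 := neg_inj.mp h
          refine Prod.ext ?_ e
          exact add_right_cancel (b := p.2 • v) (((mem_filter.mp hp).2).trans ((mem_filter.mp hp').2.symm.trans (by rw [e])))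
    calc (univ.filter fun w => D.Q w = γ ∧ D.B v w = 1).card * (q * q)
        = q * (q * (univ.filter fun w => D.Q w = γ ∧ D.B v w = 1).card) := by ring
      _ ≤ q * ((univ.filter fun w => D.B v w = 1).card * c) := Nat.mul_le_mul_left _ hline
      _ = (q * (univ.filter fun w => D.B v w = 1).card) * c := (mul_assoc _ _ _).symm
      _ ≤ _ := Nat.mul_le_mul_right _ hH
  have hpairs : ∀ α γ (c : ℕ), (∀ v w, D.Q v = α → D.B v w = 1 →
      (univ.filter fun t : F => D.Q (w + t • v) = γ).card ≤ c) →
      (univ.filter fun p : (Fin n → F) × (Fin n → F) =>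
        D.Q p.1 = α ∧ D.Q p.2 = γ ∧ D.B p.1 p.2 = 1).card ≤
      (univ.filter fun v => D.Q v = α ∧ ∃ w, D.B v w = 1).card * (q ^ (n - 2) * c) := by
    intro α γ c hc
    rw [mul_comm (Finset.card _)]
    refine Finset.card_le_mul_card_image_of_maps_to (f := Prod.fst) (fun p hp => ?_) _ (fun v hv => ?_)
    · have hp' := (mem_filter.mp hp).2
      exact mem_filter.mpr ⟨mem_univ _, hp'.1, p.2, hp'.2.2⟩
    · have hv' := (mem_filter.mp hv).2
      have h := hS v γ c (fun w hw => hc v w hv'.1 hw) hv'.2
      refine le_trans (Finset.card_le_card_of_injOn Prod.snd (fun p hp => ?_) (fun p hp p' hp' h' => ?_))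
        (Nat.le_of_mul_le_mul_right (by linarith) (Nat.mul_pos hq0 hq0))
      · obtain ⟨hp1, rfl⟩ := mem_filter.mp hp
        exact mem_filter.mpr ⟨mem_univ _, (mem_filter.mp hp1).2.2⟩
      · exact Prod.ext ((mem_filter.mp hp).2.trans (mem_filter.mp hp').2.symm) h'
  by_cases hsing : ∃ v w, D.Q v = 0 ∧ D.B v w ≠ 0
  · obtain ⟨v₀, w', hv0, hvw⟩ := hsing
    refine ⟨v₀, (D.B v₀ w')⁻¹ • w', scaled _ _ hvw, ?_⟩
    rw [hv0]
    refine (hpairs 0 _ 1 fun v w hv hw => ?_).trans ?_
    · refine Finset.card_le_one.mpr fun t ht s hs => ?_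
      have ht' := (mem_filter.mp ht).2
      have hs' := (mem_filter.mp hs).2
      rw [D.quad, D.comm w v, hw, hv] at ht' hs'
      linear_combination ht' - hs'
    have hW := scaled _ _ hvw
    set u := (D.B v₀ w')⁻¹ • w' with hu
    have hH : q * (univ.filter fun x => D.B x v₀ = 0).card ≤ q * q * q ^ (n - 2) := by
      rw [← hX]
      refine card_mul_le_of_section _ (fun w t => w + t • u) (fun x hx t y hy s h => ?_) univ (fun _ _ _ => mem_univ _)
      have e := congrArg (fun z => D.B z v₀) h
      simp only [D.addl, D.smull, (mem_filter.mp hx).2, (mem_filter.mp hy).2, D.comm u v₀, hW, mul_one] at e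
      have hts : t = s := add_left_cancel e
      subst hts
      exact ⟨add_right_cancel h, rfl⟩
    have hZ : (univ.filter fun v => D.Q v = 0).card * q ≤ 2 * (q * q * q ^ (n - 2)) := by
      have key : q * (univ.filter fun v => D.Q v = 0).card ≤
          ∑ x : Fin n → F, (1 + if D.B x v₀ = 0 then q else 0) := by
        have key' : Fintype.card F * (univ.filter fun v => D.Q v = 0).card =
            ∑ x : Fin n → F, (univ.filter fun t : F => x + t • v₀ ∈ univ.filter fun v => D.Q v = 0).card := by
          rw [show (∑ x : Fin n → F, (univ.filter fun t : F => x + t • v₀ ∈ univ.filter fun v => D.Q v = 0).card) =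
            ((univ ×ˢ univ).filter fun p : (Fin n → F) × F => p.1 + p.2 • v₀ ∈ univ.filter fun v => D.Q v = 0).card by
              rw [Finset.card_filter, Finset.sum_product]
              exact Finset.sum_congr rfl fun x _ => Finset.card_filter _ _]
          rw [mul_comm, ← Finset.card_univ, ← Finset.card_product]
          refine Finset.card_bij (fun p _ => (p.1 - p.2 • v₀, p.2)) (fun p hp => ?_) (fun p _ p' _ h => ?_)
            (fun p hp => ?_)
          · simp at hp ⊢; exact hp
          · simp [Prod.ext_iff] at h ⊢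
            obtain ⟨h1, h2⟩ := h
            rw [h2] at h1
            exact ⟨sub_left_injective h1, h2⟩
          · exact ⟨(p.1 + p.2 • v₀, p.2), by simpa using hp, by simp⟩
        rw [hq, key']
        refine Finset.sum_le_sum fun x _ => ?_
        by_cases hx : D.B x v₀ = 0
        · rw [if_pos hx]
          exact le_trans (Finset.card_le_univ _) (by omega)
        · rw [if_neg hx, add_zero]
          refine Finset.card_le_one.mpr fun t ht s hs => ?_
          have ht' := (mem_filter.mp (mem_filter.mp ht).2).2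
          have hs' := (mem_filter.mp (mem_filter.mp hs).2).2
          rw [D.quad, hv0, mul_zero, add_zero] at ht' hs'
          exact mul_right_cancel₀ hx (by linear_combination ht' - hs')
      rw [Finset.sum_add_distrib, Finset.sum_ite, Finset.sum_const_zero, add_zero, Finset.sum_const,
        Finset.sum_const, smul_eq_mul, smul_eq_mul, mul_one, Finset.card_univ, hX] at key
      linarith
    have hle : (univ.filter fun v => D.Q v = 0 ∧ ∃ w, D.B v w = 1).card ≤ 2 * (q * q ^ (n - 2)) :=
      (Finset.card_le_card (fun x hx => mem_filter.mpr ⟨mem_univ _, (mem_filter.mp hx).2.1⟩)).trans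
        (Nat.le_of_mul_le_mul_right (by linarith) hq0)
    refine (Nat.mul_le_mul_right _ hle).trans ?_
    rw [mul_one, pow_two]
    calc 2 * (q * q ^ (n - 2)) * q ^ (n - 2) = 2 * q * (q ^ (n - 2) * q ^ (n - 2)) := by ring
      _ ≤ _ := Nat.mul_le_mul_right _ (by omega)
  · push Not at hsing
    set v₀ := a
    set w₀ := (D.B a b)⁻¹ • b with hw₀
    have hW : D.B v₀ w₀ = 1 := scaled _ _ hab
    refine ⟨v₀, w₀, hW, ?_⟩
    refine (hpairs _ _ 2 fun v w hv hw => ?_).trans ?_
    · have hα : D.Q v ≠ 0 := fun e => zero_ne_one ((hsing v w e).symm.trans hw)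
      by_contra hlt
      push Not at hlt
      obtain ⟨t, s, r, ht, hs, hr, hts, htr, hsr⟩ := Finset.two_lt_card_iff.mp hlt
      have ht' := (mem_filter.mp ht).2
      have hs' := (mem_filter.mp hs).2
      have hr' := (mem_filter.mp hr).2
      rw [D.quad, D.comm w v, hw, mul_one] at ht' hs' hr'
      have e1 : 1 + (t + s) * D.Q v = 0 :=
        (mul_eq_zero.mp (show (t - s) * (1 + (t + s) * D.Q v) = 0 by linear_combination ht' - hs')).resolve_left
          (sub_ne_zero.mpr hts)
      have e2 : 1 + (t + r) * D.Q v = 0 :=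
        (mul_eq_zero.mp (show (t - r) * (1 + (t + r) * D.Q v) = 0 by linear_combination ht' - hr')).resolve_left
          (sub_ne_zero.mpr htr)
      exact hsr (sub_eq_zero.mp ((mul_eq_zero.mp (show (s - r) * D.Q v = 0 by linear_combination e1 - e2)).resolve_right hα))
    have hplane : ∀ s t : F, D.B (s • v₀ + t • w₀) w₀ = s ∧ D.B (s • v₀ + t • w₀) v₀ = t := fun s t =>
      ⟨by rw [D.addl, D.smull, D.smull, hW, D.alt, mul_one, mul_zero, add_zero],
       by rw [D.addl, D.smull, D.smull, D.alt, D.comm w₀ v₀, hW, mul_one, mul_zero, zero_add]⟩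
    have haniso : ∀ s t : F, D.Q (s • v₀ + t • w₀) = 0 → s = 0 ∧ t = 0 := fun s t h =>
      ⟨by rw [← (hplane s t).1]; exact hsing _ _ h, by rw [← (hplane s t).2]; exact hsing _ _ h⟩
    have Qsmul : ∀ (c : F) v, D.Q (c • v) = c * c * D.Q v := by
      intro c v
      have h0 : D.Q 0 = 0 := by
        have h := D.quad 0 0 1
        simp only [smul_zero, add_zero, one_mul, D.alt] at h
        linear_combination -h
      have hB : D.B 0 v = 0 := by
        have h := D.smull 0 0 v
        simpa using h
      have h := D.quad 0 v c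
      simpa [h0, hB] using h
    have hcircle : ∀ c, (univ.filter fun p : F × F => D.Q (p.1 • v₀ + p.2 • w₀) = c).card ≤ q + 1 := by
      intro c
      rw [show q + 1 = (univ : Finset (Option F)).card by simp [hq]]
      refine Finset.card_le_card_of_injOn (fun p => if p.2 = 0 then none else some (p.1 / p.2))
        (fun p _ => mem_univ _) ?_
      rintro ⟨s, t⟩ hp ⟨s', t'⟩ hp' h
      have h1 := (mem_filter.mp hp).2
      have h1' := (mem_filter.mp hp').2
      rcases eq_or_ne c 0 with hc | hc
      · rw [hc] at h1 h1'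
        obtain ⟨rfl, rfl⟩ := haniso s t h1
        obtain ⟨rfl, rfl⟩ := haniso s' t' h1'
        rfl
      obtain ⟨l, hl1, hl2⟩ : ∃ l, s' = l * s ∧ t' = l * t := by
        by_cases ht0 : t = 0
        · have ht0' : t' = 0 := by
            by_contra hne
            simp [ht0, hne] at h
          have hs0 : s ≠ 0 := by
            rintro rfl
            apply hc
            rw [← h1, ht0]
            show D.Q ((0 : F) • v₀ + (0 : F) • w₀) = 0
            have h2' := Qsmul 0 v₀
            simpa using h2'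
          exact ⟨s' / s, by rw [div_mul_cancel₀ _ hs0], by rw [ht0, ht0', mul_zero]⟩
        · have ht0' : t' ≠ 0 := by
            intro hz
            simp [ht0, hz] at h
          simp [ht0, ht0'] at h
          refine ⟨t' / t, ?_, by rw [div_mul_cancel₀ _ ht0]⟩
          rw [div_eq_div_iff ht0 ht0'] at h
          field_simp
          linear_combination -h
      have e : D.Q (s' • v₀ + t' • w₀) = l * l * D.Q (s • v₀ + t • w₀) := by
        rw [← Qsmul, hl1, hl2, smul_add, mul_smul, mul_smul]
      simp only at h1 h1'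
      rw [h1', h1] at e
      have hl : l = 1 := by
        have : (l - 1) * (l - 1) = 0 := by
          have hll : l * l = 1 := mul_right_cancel₀ hc (by rw [← e, one_mul])
          linear_combination hll + (1 - l) * h2
        exact sub_eq_zero.mp (mul_self_eq_zero.mp this)
      rw [hl1, hl2, hl, one_mul, one_mul]
    have hX2 : (univ.filter fun v => D.Q v = D.Q v₀).card * (q * q) ≤ q * q * q ^ (n - 2) * (q + 1) := by
      rw [← hX, mul_comm, show q * q = Fintype.card (F × F) by simp [hq]]
      refine card_mul_le_of_lines (fun p : F × F => p.1 • v₀ + p.2 • w₀) _ (q + 1) fun x => ?_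
      set S₀ := D.B x w₀ with hS₀
      set T₀ := D.B x v₀ with hT₀
      refine le_trans (Finset.card_le_card_of_injOn (fun p => (p.1 + S₀, p.2 + T₀)) (fun p hp => ?_)
        (fun p _ p' _ h => ?_)) (hcircle (D.Q v₀ - D.Q x + D.Q (S₀ • v₀ + T₀ • w₀)))
      · refine mem_filter.mpr ⟨mem_univ _, ?_⟩
        have h := (mem_filter.mp (mem_filter.mp hp).2).2
        have Qadd : ∀ y z, D.Q (y + z) = D.Q y + D.B y z + D.Q z := fun y z => by
          have h := D.quad y z 1
          simpa using h
        have Baddr : ∀ y z z', D.B y (z + z') = D.B y z + D.B y z' := fun y z z' => by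
          rw [D.comm, D.addl, D.comm z y, D.comm z' y]
        have Bsmr : ∀ (r : F) y z, D.B y (r • z) = r * D.B y z := fun r y z => by
          rw [D.comm, D.smull, D.comm z y]
        rw [Qadd, Baddr, Bsmr, Bsmr, ← hS₀, ← hT₀] at h
        show D.Q ((p.1 + S₀) • v₀ + (p.2 + T₀) • w₀) = _
        rw [show (p.1 + S₀) • v₀ + (p.2 + T₀) • w₀ = (p.1 • v₀ + p.2 • w₀) + (S₀ • v₀ + T₀ • w₀) by module,
          Qadd, Baddr, Bsmr, Bsmr, (hplane p.1 p.2).1, (hplane p.1 p.2).2]
        linear_combination h
      · simp only [Prod.ext_iff, add_left_inj] at h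
        exact Prod.ext h.1 h.2
    have hle : (univ.filter fun v => D.Q v = D.Q v₀ ∧ ∃ w, D.B v w = 1).card ≤ q ^ (n - 2) * (q + 1) :=
      (Finset.card_le_card (fun x hx => mem_filter.mpr ⟨mem_univ _, (mem_filter.mp hx).2.1⟩)).trans
        (Nat.le_of_mul_le_mul_right (by linarith) (Nat.mul_pos hq0 hq0))
    refine (Nat.mul_le_mul_right _ hle).trans (le_of_eq ?_)
    ring

theorem card_perp_two (v w : Fin n → F) :
    Fintype.card F ^ (n - 2) ≤ (univ.filter fun u : Fin n → F => u ⬝ᵥ v = 0 ∧ u ⬝ᵥ w = 0).card := by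
  classical
  let Φ : (Fin n → F) →ₗ[F] F × F :=
    { toFun := fun u => (u ⬝ᵥ v, u ⬝ᵥ w)
      map_add' := fun x y => by simp [add_dotProduct]
      map_smul' := fun c x => by simp [smul_dotProduct] }
  have e : (univ.filter fun u : Fin n → F => u ⬝ᵥ v = 0 ∧ u ⬝ᵥ w = 0).card = Fintype.card (LinearMap.ker Φ) := by
    rw [Fintype.card_of_subtype]
    intro x; simp [Φ]
  have h1 := LinearMap.finrank_range_add_finrank_ker Φ
  have h2 := (LinearMap.range Φ).finrank_le
  rw [Module.finrank_fin_fun] at h1
  rw [Module.finrank_prod, Module.finrank_self] at h2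
  rw [e, Module.card_eq_pow_finrank (K := F) (V := LinearMap.ker Φ)]
  exact Nat.pow_le_pow_right Fintype.card_pos (by omega)

/-- Degree bound for `Sp_2n(q)`, `q` even. -/
theorem sp_even_lower (hn : 2 ≤ n) (heven : Even (Fintype.card F)) (hex : (n, Fintype.card F) ≠ (2, 2))
    {V : Type*} [AddCommGroup V] [Module ℂ V] [FiniteDimensional ℂ V]
    (ρ : Representation ℂ (Matrix.symplecticGroup (Fin n) F) V) (hρ : ρ.IsIrreducible)
    (hk : 2 ≤ Module.finrank ℂ V) :
    (Fintype.card F ^ n - 1) * (Fintype.card F ^ n - Fintype.card F) ≤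
      2 * (Fintype.card F + 1) * Module.finrank ℂ V := by
  classical
  set q := Fintype.card F with hq
  have hchar : ringChar F = 2 := FiniteField.even_card_iff_char_two.mpr (Nat.even_iff.mp heven)
  have h2 : (2 : F) = 0 := by
    have := ringChar.of_eq hchar
    exact CharTwo.two_eq_zero
  -- an alternating matrix acting non-trivially
  let e₀ : Fin n → F := Pi.single ⟨0, by omega⟩ 1
  let e₁ : Fin n → F := Pi.single ⟨1, by omega⟩ 1
  have hs : ((sym2 e₀ e₁ : symMat F n) : Matrix (Fin n) (Fin n) F) ≠ 0 := by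
    intro h
    have := congrFun (congrFun h ⟨0, by omega⟩) ⟨1, by omega⟩
    simp [sym2, e₀, e₁, Matrix.vecMulVec_apply] at this
  have hcond : 3 ≤ n ∨ (2 ≤ n ∧ (2 : F) ≠ 0) ∨ ∃ a : F, a ≠ 0 ∧ a ^ 2 ≠ 1 := by
    rcases Nat.lt_or_ge n 3 with h | h
    · obtain rfl : n = 2 := by omega
      refine Or.inr (Or.inr (CfsgLib.SpGeom.exists_pow_two_ne ?_))
      have h1 : q ≠ 2 := fun h => hex (by rw [h])
      have h3 : 1 < q := Fintype.one_lt_card
      obtain ⟨r, hr⟩ := heven
      omega
    · exact Or.inl h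
  have hne : ρ (usym (sym2 e₀ e₁)) ≠ 1 := by
    intro h1
    obtain ⟨g, hg⟩ := exists_ne_one_of_irreducible ρ hρ hk
    have := CfsgLib.SpGeom.isSimpleGroup_PSp (F := F) (by omega : 0 < n) hcond
    have hK : ρ.ker = ⊤ := eq_top_of_noncentral (CfsgLib.SpGeom.commutator_eq_top hcond) ρ.ker
      (MonoidHom.mem_ker.mpr h1) (by
        rw [CfsgLib.Symp.mem_center_iff (by omega : 0 < n)]
        rintro (h | h)
        · rw [show ((usym (sym2 e₀ e₁) : Matrix.symplecticGroup (Fin n) F) : Matrix (Fin n ⊕ Fin n) (Fin n ⊕ Fin n) F) =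
            Matrix.fromBlocks 1 _ 0 1 from rfl, ← Matrix.fromBlocks_one, Matrix.fromBlocks_inj] at h
          exact hs h.2.1
        · rw [show ((usym (sym2 e₀ e₁) : Matrix.symplecticGroup (Fin n) F) : Matrix (Fin n ⊕ Fin n) (Fin n ⊕ Fin n) F) =
            Matrix.fromBlocks 1 _ 0 1 from rfl, ← Matrix.fromBlocks_one, Matrix.fromBlocks_neg,
            Matrix.fromBlocks_inj, neg_zero] at h
          exact hs h.2.1)
    exact hg (MonoidHom.mem_ker.mp (hK ▸ Subgroup.mem_top g))
  obtain ⟨ψ, hψ, hev⟩ := exists_eigen_ne (fun S => ρ (usym S)) (by simp [usym_zero])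
    (fun s t => by simp [usym_add]) hne
  obtain ⟨θ, hθ⟩ : ∃ θ : AddChar F ℂ, θ ≠ 0 := by
    have : Nontrivial (AddChar F ℂ) := Fintype.one_lt_card_iff_nontrivial.mp
      (by rw [AddChar.card_eq]; exact Fintype.one_lt_card)
    exact exists_ne 0
  have uniq : ∀ x y : F, (∀ c, θ (x * c) = θ (y * c)) → x = y := by
    intro x y h
    by_contra hxy
    refine hθ (DFunLike.ext _ _ fun c => ?_)
    have h1 := h (c / (x - y))
    have e : x * (c / (x - y)) = y * (c / (x - y)) + c := by field_simp [sub_ne_zero.mpr hxy]; ring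
    rw [e, AddChar.map_add_eq_mul] at h1
    rw [AddChar.zero_apply]
    exact mul_left_cancel₀ (θ.val_isUnit _).ne_zero (h1.trans (mul_one _).symm)
  let shQ : (Fin n → F) → F →+ symMat F n := fun v => AddMonoidHom.mk' (fun c => sq c v) fun a b => sq_add a b v
  let shB : (Fin n → F) → (Fin n → F) → F →+ symMat F n := fun v w =>
    AddMonoidHom.mk' (fun c => sym2 (c • v) w) fun a b => sym2_smul_add a b v w
  choose Q hQ using fun v => exists_mulShift hθ (ψ.compAddMonoidHom (shQ v))
  choose B hB using fun v w => exists_mulShift hθ (ψ.compAddMonoidHom (shB v w))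
  have hQ' : ∀ v c, ψ (sq c v) = θ (Q v * c) := hQ
  have hB' : ∀ v w c, ψ (sym2 (c • v) w) = θ (B v w * c) := hB
  let D : QData F n :=
    { Q := Q
      B := B
      addl := fun x y z => uniq _ _ fun c => by
        rw [← hB', add_mul, AddChar.map_add_eq_mul, ← hB', ← hB', ← AddChar.map_add_eq_mul]
        congr 1
        refine Subtype.ext (Matrix.ext fun i j => ?_)
        simp [sym2, Matrix.vecMulVec_apply]; ring
      smull := fun a x z => uniq _ _ fun c => by
        rw [← hB', mul_comm a (B x z), mul_assoc, ← hB', smul_smul, mul_comm c a]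
      comm := fun x z => uniq _ _ fun c => by
        rw [← hB', ← hB']
        congr 1
        refine Subtype.ext (Matrix.ext fun i j => ?_)
        simp [sym2, Matrix.vecMulVec_apply]; ring
      alt := fun x => uniq _ _ fun c => by
        rw [← hB', zero_mul, AddChar.map_zero_eq_one,
          show sym2 (c • x) x = 0 from Subtype.ext (Matrix.ext fun i j => by
            simp [sym2, Matrix.vecMulVec_apply]; linear_combination c * x i * x j * h2),
          AddChar.map_zero_eq_one]
      quad := fun w v t => uniq _ _ fun c => by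
        rw [← hQ', sq_add_smul, AddChar.map_add_eq_mul, AddChar.map_add_eq_mul, hQ', hB', hQ',
          ← AddChar.map_add_eq_mul, ← AddChar.map_add_eq_mul]
        congr 1
        ring }
  have hab : D.B e₀ e₁ ≠ 0 := by
    intro h
    apply hψ
    have := hB' e₀ e₁ 1
    rwa [one_smul, show B e₀ e₁ = 0 from h, zero_mul, AddChar.map_zero_eq_one] at this
  obtain ⟨v₀, w₀, hvw, hfew⟩ := D.exists_few hn h2 hab
  have hLI : ∀ {x y : Fin n → F}, D.B x y ≠ 0 → LinearIndependent F ![x, y] := by
    intro x y hxy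
    rw [LinearIndependent.pair_iff]
    intro s t hst
    have e1 := congrArg (fun z => D.B z y) hst
    have e2 := congrArg (fun z => D.B z x) hst
    have hz : ∀ z, D.B 0 z = 0 := fun z => by
      have h := D.smull 0 0 z
      simpa using h
    simp only [D.addl, D.smull, D.alt, D.comm y x, hz, mul_zero, add_zero, zero_add, mul_eq_zero] at e1 e2
    exact ⟨e1.resolve_right hxy, e2.resolve_right hxy⟩
  let O : Finset (AddChar (symMat F n) ℂ) :=
    (univ : Finset (GL (Fin n) F)).image fun A => ψ.compAddMonoidHom (congSym A.val)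
  have hOV : O.card ≤ Module.finrank ℂ V := by
    refine card_le_finrank (fun S => ρ (usym S)) O fun φ hφ => ?_
    obtain ⟨A, -, rfl⟩ := Finset.mem_image.mp hφ
    refine hev.comp (congSym A.val) (fun s => rfl) (ρ (CfsgLib.WordLaw.toSp F n A))
      (ρ (CfsgLib.WordLaw.toSp F n A⁻¹)) ?_ ?_ (fun s => ?_)
    · rw [← map_mul, ← map_mul, mul_inv_cancel, map_one, map_one]
    · rw [← map_mul, ← map_mul, inv_mul_cancel, map_one, map_one]
    · simp only [← map_mul, toSp_usym]
  let pairs : Finset ((Fin n → F) × (Fin n → F)) := univ.filter fun p => LinearIndependent F ![p.1, p.2]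
  have hpairs : (q ^ n - 1) * (q ^ n - q) ≤ pairs.card := by
    have e : pairs.card = Nat.card {s : Fin 2 → (Fin n → F) // LinearIndependent F s} := by
      rw [Nat.card_eq_fintype_card, Fintype.card_subtype]
      refine Finset.card_bij' (fun p _ => ![p.1, p.2]) (fun s _ => (s 0, s 1)) (fun p hp => ?_) (fun s hs => ?_)
        (fun p _ => rfl) (fun s _ => funext fun i => by fin_cases i <;> rfl)
      · exact mem_filter.mpr ⟨mem_univ _, (mem_filter.mp hp).2⟩
      · refine mem_filter.mpr ⟨mem_univ _, ?_⟩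
        have he : ![s 0, s 1] = s := funext fun i => by fin_cases i <;> rfl
        show LinearIndependent F ![s 0, s 1]
        rw [he]; exact (mem_filter.mp hs).2
    rw [e, card_linearIndependent (K := F) (by simpa using hn), Fin.prod_univ_two]
    simp [hq, Module.finrank_fin_fun]
  let R : AddChar (symMat F n) ℂ → (Fin n → F) × (Fin n → F) → Prop := fun φ p =>
    (∀ c : F, φ (sq c p.1) = ψ (sq c v₀)) ∧ (∀ c : F, φ (sq c p.2) = ψ (sq c w₀)) ∧
      ∀ c : F, φ (sym2 (c • p.1) p.2) = ψ (sym2 (c • v₀) w₀)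
  have hup : ∀ φ ∈ O, (Finset.bipartiteAbove R pairs φ).card ≤ 2 * (q + 1) * (q ^ (n - 2)) ^ 2 := by
    intro φ hφ
    obtain ⟨A, -, rfl⟩ := Finset.mem_image.mp hφ
    refine le_trans (Finset.card_le_card_of_injOn (fun p => (A.val *ᵥ p.1, A.val *ᵥ p.2)) (fun p hp => ?_)
      (fun p _ p' _ h => ?_)) hfew
    · obtain ⟨-, r1, r2, r3⟩ := mem_filter.mp hp
      refine mem_filter.mpr ⟨mem_univ _, uniq _ _ fun c => ?_, uniq _ _ fun c => ?_, ?_⟩
      · show θ (Q _ * c) = θ (Q _ * c)
        rw [← hQ', ← hQ', ← congSym_sq]; exact r1 c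
      · show θ (Q _ * c) = θ (Q _ * c)
        rw [← hQ', ← hQ', ← congSym_sq]; exact r2 c
      · refine Eq.trans (uniq _ _ fun c => ?_) hvw
        show θ (B _ _ * c) = θ (B _ _ * c)
        rw [← hB', ← hB', ← Matrix.mulVec_smul, ← congSym_sym2]; exact r3 c
    · have hinj : Function.Injective fun x : Fin n → F => A.val *ᵥ x := fun x y e => by
        have := congrArg (fun z => (A⁻¹).val *ᵥ z) e
        simpa [Matrix.mulVec_mulVec] using this
      simp only [Prod.ext_iff] at h
      exact Prod.ext (hinj h.1) (hinj h.2)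
  have hlow : ∀ p ∈ pairs, (q ^ (n - 2)) ^ 2 ≤ (Finset.bipartiteBelow R O p).card := by
    intro p hp
    obtain ⟨L, hL1, hL2⟩ := exists_equiv_pair (mem_filter.mp hp).2 (hLI (hvw ▸ one_ne_zero : D.B v₀ w₀ ≠ 0))
    obtain ⟨v, w⟩ := p
    set Z := LinearMap.toMatrix' L.toLinearMap with hZ
    have hZv : ∀ x, Z *ᵥ x = L x := fun x => LinearMap.toMatrix'_mulVec _ _
    have hZi : IsUnit Z := by
      refine IsUnit.of_mul_eq_one (LinearMap.toMatrix' L.symm.toLinearMap) ?_
      rw [hZ, ← LinearMap.toMatrix'_comp]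
      simp
    let U : Finset (Fin n → F) := univ.filter fun u => u ⬝ᵥ v = 0 ∧ u ⬝ᵥ w = 0
    refine le_trans ?_ (Finset.card_le_card_of_injOn (s := U ×ˢ U)
      (fun u => ψ.compAddMonoidHom (congSym (Z * (1 + (Matrix.vecMulVec v u.1 + Matrix.vecMulVec w u.2)))))
      (fun u hu => ?_) ?_)
    · rw [Finset.card_product, pow_two]
      exact Nat.mul_le_mul (card_perp_two v w) (card_perp_two v w)
    all_goals
      have hmv : ∀ (u : (Fin n → F) × (Fin n → F)) (x : Fin n → F),
          (Z * (1 + (Matrix.vecMulVec v u.1 + Matrix.vecMulVec w u.2))) *ᵥ x =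
            Z *ᵥ x + (u.1 ⬝ᵥ x) • v₀ + (u.2 ⬝ᵥ x) • w₀ := by
        intro u x
        rw [← Matrix.mulVec_mulVec, Matrix.add_mulVec, Matrix.one_mulVec, Matrix.add_mulVec,
          Matrix.vecMulVec_mulVec, Matrix.vecMulVec_mulVec, op_smul_eq_smul, op_smul_eq_smul,
          Matrix.mulVec_add, Matrix.mulVec_add, Matrix.mulVec_smul, Matrix.mulVec_smul, hZv v, hZv w, hL1, hL2,
          add_assoc]
      have hfix : ∀ u ∈ U ×ˢ U, (Z * (1 + (Matrix.vecMulVec v u.1 + Matrix.vecMulVec w u.2))) *ᵥ v = v₀ ∧
          (Z * (1 + (Matrix.vecMulVec v u.1 + Matrix.vecMulVec w u.2))) *ᵥ w = w₀ := by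
        intro u hu
        obtain ⟨h1, h2⟩ := Finset.mem_product.mp hu
        constructor
        · rw [hmv, (mem_filter.mp h1).2.1, (mem_filter.mp h2).2.1, zero_smul, zero_smul, add_zero, add_zero, hZv, hL1]
        · rw [hmv, (mem_filter.mp h1).2.2, (mem_filter.mp h2).2.2, zero_smul, zero_smul, add_zero, add_zero, hZv, hL2]
    · have hN : IsUnit (1 + (Matrix.vecMulVec v u.1 + Matrix.vecMulVec w u.2) : Matrix (Fin n) (Fin n) F) := by
        refine IsUnit.of_mul_eq_one (1 - (Matrix.vecMulVec v u.1 + Matrix.vecMulVec w u.2)) ?_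
        obtain ⟨h1, h2⟩ := Finset.mem_product.mp hu
        have hsq : (Matrix.vecMulVec v u.1 + Matrix.vecMulVec w u.2) *
            (Matrix.vecMulVec v u.1 + Matrix.vecMulVec w u.2) = 0 := by
          simp [Matrix.mul_add, Matrix.add_mul, Matrix.vecMulVec_mul_vecMulVec, (mem_filter.mp h1).2.1,
            (mem_filter.mp h1).2.2, (mem_filter.mp h2).2.1, (mem_filter.mp h2).2.2]
        rw [mul_sub, mul_one, add_mul, one_mul, hsq, add_zero, add_sub_cancel_right]
      refine mem_filter.mpr ⟨Finset.mem_image.mpr ⟨(hZi.mul hN).unit, mem_univ _, rfl⟩,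
        fun c => ?_, fun c => ?_, fun c => ?_⟩
      · show ψ (congSym _ (sq c v)) = _
        rw [congSym_sq, (hfix u hu).1]
      · show ψ (congSym _ (sq c w)) = _
        rw [congSym_sq, (hfix u hu).2]
      · show ψ (congSym _ (sym2 (c • v) w)) = _
        rw [congSym_sym2, Matrix.mulVec_smul, (hfix u hu).1, (hfix u hu).2]
    · intro u hu u' hu' he
      have hz : ∀ x z, (∀ c : F, z = v ∨ z = w →
          ψ (congSym (Z * (1 + (Matrix.vecMulVec v u.1 + Matrix.vecMulVec w u.2))) (sym2 (c • x) z)) =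
            ψ (congSym (Z * (1 + (Matrix.vecMulVec v u'.1 + Matrix.vecMulVec w u'.2))) (sym2 (c • x) z))) :=
        fun x z c _ => DFunLike.congr_fun he (sym2 (c • x) z)
      have hval : ∀ x, u.2 ⬝ᵥ x = u'.2 ⬝ᵥ x ∧ u.1 ⬝ᵥ x = u'.1 ⬝ᵥ x := by
        intro x
        have key : ∀ z z₀, (Z * (1 + (Matrix.vecMulVec v u.1 + Matrix.vecMulVec w u.2))) *ᵥ z = z₀ →
            (Z * (1 + (Matrix.vecMulVec v u'.1 + Matrix.vecMulVec w u'.2))) *ᵥ z = z₀ → (z = v ∨ z = w) →
            D.B (Z *ᵥ x + (u.1 ⬝ᵥ x) • v₀ + (u.2 ⬝ᵥ x) • w₀) z₀ =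
              D.B (Z *ᵥ x + (u'.1 ⬝ᵥ x) • v₀ + (u'.2 ⬝ᵥ x) • w₀) z₀ := by
          intro z z₀ h1 h1' hor
          refine uniq _ _ fun c => ?_
          have h := hz x z c hor
          rw [congSym_sym2, congSym_sym2, Matrix.mulVec_smul, Matrix.mulVec_smul, h1, h1', hmv, hmv, hB', hB'] at h
          exact h
        have k1 := key v v₀ (hfix u hu).1 (hfix u' hu').1 (Or.inl rfl)
        have k2 := key w w₀ (hfix u hu).2 (hfix u' hu').2 (Or.inr rfl)
        simp only [D.addl, D.smull, D.alt, D.comm w₀ v₀, hvw, mul_one, mul_zero, add_zero] at k1 k2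
        exact ⟨add_left_cancel k1, add_left_cancel k2⟩
      exact Prod.ext (funext fun i => by simpa using (hval (Pi.single i 1)).2)
        (funext fun i => by simpa using (hval (Pi.single i 1)).1)
  have h := Finset.card_mul_le_card_mul' R (s := O) (t := pairs) (fun p hp => hlow p hp) hup
  have h' : pairs.card ≤ O.card * (2 * (q + 1)) :=
    Nat.le_of_mul_le_mul_right (by linarith) (by positivity : 0 < (q ^ (n - 2)) ^ 2)
  calc (q ^ n - 1) * (q ^ n - q) ≤ pairs.card := hpairs
    _ ≤ O.card * (2 * (q + 1)) := h'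
    _ ≤ Module.finrank ℂ V * (2 * (q + 1)) := Nat.mul_le_mul_right _ hOV
    _ = _ := mul_comm _ _

end CfsgLib.MinDegree
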