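import Cfsg.Agent.MinDegree.Skew
import Cfsg.Agent.UGeom.Simple
import Cfsg.Agent.SLn.Basic
set_option autoImplicit false

/-!
Degree bound for `SU_n(q)` from the radical of the Siegel parabolic subgroup.
-/

namespace CfsgLib.MinDegree

open Matrix CfsgLib.UGeom
open scoped commutatorElement

variable {F : Type*} [Field F] [Fintype F] {q : ℕ} {n m r : ℕ}

/-- A totally isotropic frame `e`, its dual `f`, and an orthonormal complement `g`. -/
structure SFrame (C : Conj F q) (n m r : ℕ) where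
  /-- isotropic vectors -/
  E : Matrix (Fin n) (Fin m) F
  /-- dual vectors -/
  P : Matrix (Fin n) (Fin m) F
  /-- complement -/
  G : Matrix (Fin n) (Fin r) F
  EE : ct C E * E = 0
  PP : ct C P * P = 0
  EP : ct C E * P = 1
  GG : ct C G * G = 1
  GE : ct C G * E = 0
  GP : ct C G * P = 0

namespace SFrame

variable {C : Conj F q} (D : SFrame C n m r)

theorem PE : ct C D.P * D.E = 1 := by
  have h := congrArg (ct C) D.EP
  rwa [ct_mul, ct_ct, ct_one] at h

theorem EG : ct C D.E * D.G = 0 := by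
  have h := congrArg (ct C) D.GE
  rwa [ct_mul, ct_ct, ct_zero] at h

theorem PG : ct C D.P * D.G = 0 := by
  have h := congrArg (ct C) D.GP
  rwa [ct_mul, ct_ct, ct_zero] at h

theorem EE' {κ : Type*} (X : Matrix (Fin m) κ F) : ct C D.E * (D.E * X) = 0 := by
  rw [← Matrix.mul_assoc, D.EE, Matrix.zero_mul]

theorem PP' {κ : Type*} (X : Matrix (Fin m) κ F) : ct C D.P * (D.P * X) = 0 := by
  rw [← Matrix.mul_assoc, D.PP, Matrix.zero_mul]

theorem EP' {κ : Type*} (X : Matrix (Fin m) κ F) : ct C D.E * (D.P * X) = X := by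
  rw [← Matrix.mul_assoc, D.EP, Matrix.one_mul]

theorem PE' {κ : Type*} (X : Matrix (Fin m) κ F) : ct C D.P * (D.E * X) = X := by
  rw [← Matrix.mul_assoc, D.PE, Matrix.one_mul]

theorem GG' {κ : Type*} (X : Matrix (Fin r) κ F) : ct C D.G * (D.G * X) = X := by
  rw [← Matrix.mul_assoc, D.GG, Matrix.one_mul]

theorem GE' {κ : Type*} (X : Matrix (Fin m) κ F) : ct C D.G * (D.E * X) = 0 := by
  rw [← Matrix.mul_assoc, D.GE, Matrix.zero_mul]

theorem GP' {κ : Type*} (X : Matrix (Fin m) κ F) : ct C D.G * (D.P * X) = 0 := by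
  rw [← Matrix.mul_assoc, D.GP, Matrix.zero_mul]

theorem EG' {κ : Type*} (X : Matrix (Fin r) κ F) : ct C D.E * (D.G * X) = 0 := by
  rw [← Matrix.mul_assoc, D.EG, Matrix.zero_mul]

theorem PG' {κ : Type*} (X : Matrix (Fin r) κ F) : ct C D.P * (D.G * X) = 0 := by
  rw [← Matrix.mul_assoc, D.PG, Matrix.zero_mul]

/-- Membership of `SU`. -/
def mkSU (M : Matrix (Fin n) (Fin n) F) (h : ct C M * M = 1) (hd : M.det = 1) : Cfsg.SU n F q :=
  ⟨⟨M, hd⟩, fun u v => by
    show Cfsg.hermForm n F q (M *ᵥ u) (M *ᵥ v) = _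
    have h' : Mᵀ * M.map C.σ = 1 := by
      have := congrArg Matrix.transpose h
      simpa [ct, Matrix.transpose_mul] using this
    have e : ∀ x y : Fin n → F, Cfsg.hermForm n F q x y = x ⬝ᵥ fun i => C.σ (y i) := form_eq C
    rw [e, e, show (fun i => C.σ ((M *ᵥ v) i)) = M.map C.σ *ᵥ fun i => C.σ (v i) from
      funext fun i => by simp [Matrix.mulVec, dotProduct],
      Matrix.dotProduct_mulVec, ← Matrix.vecMul_transpose, Matrix.vecMul_vecMul, h', Matrix.vecMul_one]⟩

/-- The centre of the radical. -/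
def nMat (S : Matrix (Fin m) (Fin m) F) : Matrix (Fin n) (Fin n) F := 1 + D.E * S * ct C D.E

theorem nMat_mul (S T : Matrix (Fin m) (Fin m) F) : D.nMat S * D.nMat T = D.nMat (S + T) := by
  simp only [nMat, Matrix.mul_add, Matrix.add_mul, Matrix.mul_one, Matrix.one_mul, Matrix.mul_assoc,
    D.EE', Matrix.mul_zero]
  abel

/-- The centre of the radical, as elements of `SU`. -/
def nEl (S : skewMat C m) : Cfsg.SU n F q :=
  mkSU (C := C) (D.nMat S) (by
    have e : ct C (D.nMat S) = D.nMat (ct C (S : Matrix (Fin m) (Fin m) F)) := by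
      simp only [nMat, ct_add, ct_one, ct_mul, ct_ct, Matrix.mul_assoc]
    rw [e, nMat_mul, add_comm, show (S : Matrix (Fin m) (Fin m) F) + ct C S = 0 from S.2]
    simp [nMat]) (by
    rw [nMat, Matrix.mul_assoc, Matrix.det_one_add_mul_comm, Matrix.mul_assoc, D.EE, Matrix.mul_zero,
      add_zero, Matrix.det_one])

theorem nEl_add (S T : skewMat C m) : D.nEl (S + T) = D.nEl S * D.nEl T :=
  Subtype.ext (Subtype.ext (D.nMat_mul S T).symm)

theorem nEl_zero : D.nEl 0 = 1 := by
  refine Subtype.ext (Subtype.ext ?_)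
  show D.nMat 0 = 1
  simp [nMat]

/-- The Levi elements. -/
def lMat (A B : Matrix (Fin m) (Fin m) F) (ν : Matrix (Fin r) (Fin r) F) : Matrix (Fin n) (Fin n) F :=
  1 + D.E * (A - 1) * ct C D.P + D.P * (ct C B - 1) * ct C D.E + D.G * (ν - 1) * ct C D.G

theorem lMat_mul (A B A' B' : Matrix (Fin m) (Fin m) F) (ν ν' : Matrix (Fin r) (Fin r) F) :
    D.lMat A B ν * D.lMat A' B' ν' = D.lMat (A * A') (B' * B) (ν * ν') := by
  simp only [lMat, Matrix.mul_add, Matrix.add_mul, Matrix.mul_sub, Matrix.sub_mul, Matrix.mul_one,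
    Matrix.one_mul, Matrix.mul_assoc, ct_mul, D.EE', D.PP', D.EP', D.PE', D.GG', D.GE', D.GP', D.EG',
    D.PG', Matrix.mul_zero]
  abel

theorem lMat_one : D.lMat 1 1 1 = 1 := by simp [lMat, ct_one]

theorem ct_lMat (A B : Matrix (Fin m) (Fin m) F) (ν : Matrix (Fin r) (Fin r) F) :
    ct C (D.lMat A B ν) = D.lMat B A (ct C ν) := by
  simp only [lMat, ct_add, ct_mul, ct_sub, ct_one, ct_ct, Matrix.mul_assoc]
  abel

theorem det_lMat (A B : Matrix (Fin m) (Fin m) F) (ν : Matrix (Fin r) (Fin r) F) :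
    (D.lMat A B ν).det = A.det * C.σ B.det * ν.det := by
  have e : D.lMat A B ν = 1 + Matrix.fromCols (Matrix.fromCols D.E D.P) D.G *
      Matrix.fromRows (Matrix.fromRows ((A - 1) * ct C D.P) ((ct C B - 1) * ct C D.E))
        ((ν - 1) * ct C D.G) := by
    rw [Matrix.fromCols_mul_fromRows, Matrix.fromCols_mul_fromRows, lMat, Matrix.mul_assoc,
      Matrix.mul_assoc, Matrix.mul_assoc]
    abel
  rw [e, Matrix.det_one_add_mul_comm]
  simp only [Matrix.fromRows_mul, Matrix.mul_fromCols, Matrix.mul_assoc, D.EE, D.PP, D.EP, D.PE, D.GG,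
    D.GE, D.GP, D.EG, D.PG, Matrix.mul_zero, Matrix.mul_one, Matrix.fromRows_zero]
  rw [show ∀ (X Y : Matrix (Fin m) (Fin m) F) (Z : Matrix (Fin r) (Fin r) F),
      1 + Matrix.fromCols (Matrix.fromCols (Matrix.fromRows (Matrix.fromRows X 0) 0)
        (Matrix.fromRows (Matrix.fromRows 0 Y) 0)) (Matrix.fromRows 0 Z) =
      Matrix.fromBlocks (Matrix.fromBlocks (1 + X) 0 0 (1 + Y)) 0 0 (1 + Z) from fun X Y Z => by
        ext ((i | i) | i) ((j | j) | j) <;> simp [Matrix.one_apply],
    add_sub_cancel, add_sub_cancel, add_sub_cancel, Matrix.det_fromBlocks_zero₂₁, Matrix.det_fromBlocks_zero₂₁]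
  rw [show ct C B = (C.σ.mapMatrix B)ᵀ from rfl, Matrix.det_transpose, ← RingHom.map_det]

/-- Levi element as an element of `SU`. -/
def lEl (A B : Matrix (Fin m) (Fin m) F) (ν : Matrix (Fin r) (Fin r) F) (hAB : B * A = 1)
    (hν : ct C ν * ν = 1) (hd : A.det * C.σ B.det * ν.det = 1) : Cfsg.SU n F q :=
  mkSU (C := C) (D.lMat A B ν) (by rw [D.ct_lMat, D.lMat_mul, hAB, hν, D.lMat_one])
    (by rw [D.det_lMat, hd])

theorem lEl_conj (A B : Matrix (Fin m) (Fin m) F) (ν : Matrix (Fin r) (Fin r) F) (hAB : B * A = 1)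
    (hν : ct C ν * ν = 1) (hd : A.det * C.σ B.det * ν.det = 1) (S : skewMat C m) :
    D.lEl A B ν hAB hν hd * D.nEl S = D.nEl (congSkew C A S) * D.lEl A B ν hAB hν hd := by
  refine Subtype.ext (Subtype.ext ?_)
  show D.lMat A B ν * D.nMat S = D.nMat (A * (S : Matrix (Fin m) (Fin m) F) * ct C A) * D.lMat A B ν
  have h1 : ct C A * ct C B = 1 := by rw [← ct_mul, hAB, ct_one]
  have h1' : ∀ X : Matrix (Fin m) (Fin n) F, ct C A * (ct C B * X) = X := fun X => by
    rw [← Matrix.mul_assoc, h1, Matrix.one_mul]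
  simp only [lMat, nMat, Matrix.mul_add, Matrix.add_mul, Matrix.mul_sub, Matrix.sub_mul, Matrix.mul_one,
    Matrix.one_mul, Matrix.mul_assoc, D.EE', D.EP', D.PE', D.GE', D.EG', Matrix.mul_zero, h1']
  abel

/-- The radical. -/
def uMat (t : F) (y : Matrix (Fin m) (Fin r) F) : Matrix (Fin n) (Fin n) F :=
  1 + D.E * y * ct C D.G - D.G * ct C y * ct C D.E + D.E * (-(t • (y * ct C y))) * ct C D.E

/-- The radical, as elements of `SU`. -/
def uEl (t : F) (ht : t + C.σ t = 1) (y : Matrix (Fin m) (Fin r) F) : Cfsg.SU n F q :=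
  mkSU (C := C) (D.uMat t y) (by
    simp only [uMat, ct_add, ct_sub, ct_neg, ct_mul, ct_smul, ct_one, ct_ct, Matrix.mul_add,
      Matrix.add_mul, Matrix.mul_sub, Matrix.sub_mul, Matrix.mul_one, Matrix.one_mul, Matrix.mul_assoc,
      Matrix.mul_neg, Matrix.neg_mul, Matrix.smul_mul, Matrix.mul_smul, D.EE', D.GE', D.GG', D.EG',
      Matrix.mul_zero, smul_zero]
    match_scalars <;> (first | linear_combination ht | linear_combination -ht | ring)) (by
    have e : D.uMat t y = 1 + Matrix.fromCols D.E D.G *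
        Matrix.fromRows (y * ct C D.G + (-(t • (y * ct C y))) * ct C D.E) (-(ct C y * ct C D.E)) := by
      rw [Matrix.fromCols_mul_fromRows, uMat]
      simp only [Matrix.mul_add, Matrix.mul_neg, Matrix.neg_mul, Matrix.smul_mul, Matrix.mul_smul, Matrix.mul_assoc]
      abel
    rw [e, Matrix.det_one_add_mul_comm]
    simp only [Matrix.fromRows_mul, Matrix.mul_fromCols, Matrix.add_mul, Matrix.neg_mul, Matrix.mul_assoc,
      D.GE, D.GG, D.EE, D.EG, Matrix.mul_zero, Matrix.mul_one, add_zero, zero_add, neg_zero, Matrix.fromRows_zero]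
    rw [show 1 + Matrix.fromCols (0 : Matrix (Fin m ⊕ Fin r) (Fin m) F) (Matrix.fromRows y 0) =
        Matrix.fromBlocks 1 y 0 1 by ext (i | i) (j | j) <;> simp [Matrix.one_apply],
      Matrix.det_fromBlocks_zero₂₁, Matrix.det_one, Matrix.det_one, one_mul])

theorem uEl_comm (t : F) (ht : t + C.σ t = 1) (y z : Matrix (Fin m) (Fin r) F) (S : skewMat C m)
    (hS : (S : Matrix (Fin m) (Fin m) F) = z * ct C y - y * ct C z) :
    D.uEl t ht y * D.uEl t ht z = D.nEl S * (D.uEl t ht z * D.uEl t ht y) := by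
  refine Subtype.ext (Subtype.ext ?_)
  show D.uMat t y * D.uMat t z = D.nMat S * (D.uMat t z * D.uMat t y)
  simp only [uMat, nMat, hS, Matrix.mul_add, Matrix.add_mul, Matrix.mul_sub, Matrix.sub_mul,
    Matrix.mul_one, Matrix.one_mul, Matrix.mul_assoc, Matrix.mul_neg, Matrix.neg_mul, Matrix.smul_mul,
    Matrix.mul_smul, D.EE', D.GE', D.GG', D.EG', Matrix.mul_zero, smul_zero]
  abel

theorem uEl_nEl (t : F) (ht : t + C.σ t = 1) (y : Matrix (Fin m) (Fin r) F) (S : skewMat C m) :
    D.nEl S * D.uEl t ht y = D.uEl t ht y * D.nEl S := by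
  refine Subtype.ext (Subtype.ext ?_)
  show D.nMat S * D.uMat t y = D.uMat t y * D.nMat S
  simp only [uMat, nMat, Matrix.mul_add, Matrix.add_mul, Matrix.mul_sub, Matrix.sub_mul,
    Matrix.mul_one, Matrix.one_mul, Matrix.mul_assoc, Matrix.mul_neg, Matrix.neg_mul, Matrix.smul_mul,
    Matrix.mul_smul, D.EE', D.GE', D.EG', Matrix.mul_zero, smul_zero]
  abel

end SFrame

/-- Frames exist. -/
theorem nonempty_sframe (C : Conj F q) (h : n = m + m + r) : Nonempty (SFrame C n m r) := by
  obtain ⟨l, hl⟩ : ∃ l : F, l * C.σ l = -1 := by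
    have hu : Nat.card Fˣ = (q + 1) * (q - 1) := by
      rw [Nat.card_units, Nat.card_eq_fintype_card, C.card, ← Nat.sq_sub_sq, one_pow]
    have hq := C.two_le
    have hn : (-1 : Fˣ) ^ (q - 1) = 1 := by
      refine Units.ext ?_
      rw [Units.val_pow_eq_pow_val, Units.val_one]
      have h2 : (-1 : F) ^ q = -1 := by rw [← C.pow, map_neg, map_one]
      rw [show q = q - 1 + 1 by omega, pow_succ, mul_neg, mul_one, neg_inj] at h2
      simpa using h2
    obtain ⟨x, hx⟩ : ∃ x : Fˣ, x ^ (q + 1) = -1 := by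
      obtain ⟨g, hg⟩ := IsCyclic.exists_generator (α := Fˣ)
      obtain ⟨j, hj⟩ := mem_powers_iff_mem_zpowers.mpr (hg (-1))
      simp only at hj
      have hdvd : orderOf g ∣ j * (q - 1) := orderOf_dvd_of_pow_eq_one (by rw [pow_mul, hj, hn])
      rw [orderOf_eq_card_of_forall_mem_zpowers hg, hu] at hdvd
      obtain ⟨k, hk⟩ := Nat.dvd_of_mul_dvd_mul_right (by omega) hdvd
      exact ⟨g ^ k, by rw [← pow_mul, mul_comm, ← hk, hj]⟩
    exact ⟨x, by rw [C.pow, ← pow_succ', ← Units.val_pow_eq_pow_val, hx, Units.val_neg, Units.val_one]⟩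
  obtain ⟨w, hw, hw1⟩ := exists_norm_one_ne C
  set l' : F := l * w with hl'
  have hl'1 : l' * C.σ l' = -1 := by rw [hl', map_mul]; linear_combination l * C.σ l * hw + hl
  set c : F := (1 - w)⁻¹ with hc
  have hc1 : c + c * (C.σ l * l') = 1 := by
    rw [show c + c * (C.σ l * l') = c * (1 - w) by rw [hl']; linear_combination c * w * hl,
      hc, inv_mul_cancel₀ (sub_ne_zero.mpr (Ne.symm hw1))]
  let e : Fin n ≃ (Fin m ⊕ Fin m) ⊕ Fin r :=
    (finCongr h).trans (finSumFinEquiv.symm.trans (finSumFinEquiv.symm.sumCongr (Equiv.refl _)))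
  have key : ∀ {κ μ : Type} (X : Matrix ((Fin m ⊕ Fin m) ⊕ Fin r) κ F) (Y : Matrix ((Fin m ⊕ Fin m) ⊕ Fin r) μ F),
      ct C (X.submatrix e id) * Y.submatrix e id = ct C X * Y := by
    intro κ μ X Y
    show (ct C X).submatrix id e * Y.submatrix e id = _
    rw [Matrix.submatrix_mul_equiv, Matrix.submatrix_id_id]
  have hr : ∀ {κ : Type} {ι₁ ι₂ : Type} (X : Matrix ι₁ κ F) (Y : Matrix ι₂ κ F),
      ct C (Matrix.fromRows X Y) = Matrix.fromCols (ct C X) (ct C Y) := fun X Y =>
    Matrix.ext fun i j => by rcases j with j | j <;> rfl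
  refine ⟨{ E := (Matrix.fromRows (Matrix.fromRows 1 (l • 1)) 0).submatrix e id
            P := (Matrix.fromRows (Matrix.fromRows (c • 1) ((c * l') • 1)) 0).submatrix e id
            G := (Matrix.fromRows (Matrix.fromRows 0 0) 1).submatrix e id
            EE := ?_, PP := ?_, EP := ?_, GG := ?_, GE := ?_, GP := ?_ }⟩
  all_goals rw [key]
  all_goals simp only [hr, Matrix.fromCols_mul_fromRows, ct_smul, ct_one, ct_zero, Matrix.zero_mul,
    Matrix.mul_zero, Matrix.one_mul, Matrix.mul_one, Matrix.smul_mul, Matrix.mul_smul, smul_smul,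
    add_zero, zero_add, smul_zero]
  · rw [show (1 : Matrix (Fin m) (Fin m) F) + (l * C.σ l) • 1 = (1 + l * C.σ l) • 1 by module, hl,
      add_neg_cancel, zero_smul]
  · rw [← add_smul]
    refine smul_eq_zero_of_left ?_ _
    rw [map_mul]
    linear_combination (c * C.σ c) * hl'1
  · rw [← add_smul, show c + c * l' * C.σ l = 1 by linear_combination hc1, one_smul]

variable {V : Type*} [AddCommGroup V] [Module ℂ V] [FiniteDimensional ℂ V]

/-- The two degree bounds. -/
theorem su_bound (C : Conj F q) (hn : 3 ≤ n) (hex : ¬ (n = 3 ∧ q = 2)) (h : n = m + m + r) (hr : r ≤ 1)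
    (ρ : Representation ℂ (Cfsg.SU n F q) V) (hρ : ρ.IsIrreducible) (hk : 2 ≤ Module.finrank ℂ V) :
    q ^ r * (q ^ (2 * m) - 1) ≤ Module.finrank ℂ V * (q + 1) := by
  classical
  have hm : 1 ≤ m := by omega
  obtain ⟨D⟩ := nonempty_sframe C h
  obtain ⟨t, ht⟩ := exists_trace_one C
  -- the radical acts non-trivially
  obtain ⟨S₁, hS₁⟩ : ∃ S : skewMat C m, (S : Matrix (Fin m) (Fin m) F) ≠ 0 := by
    obtain ⟨a, ha⟩ : ∃ a : F, a - C.σ a ≠ 0 := by
      by_contra hno
      push Not at hno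
      exact C.ne_id (RingHom.ext fun x => by rw [RingHom.id_apply]; linear_combination -hno x)
    refine ⟨sk2 C (a • Pi.single ⟨0, hm⟩ 1) (Pi.single ⟨0, hm⟩ 1), fun h0 => ha ?_⟩
    simpa [sk2_apply] using congrFun (congrFun h0 ⟨0, hm⟩) ⟨0, hm⟩
  have hne : ρ (D.nEl S₁) ≠ 1 := by
    intro h1
    obtain ⟨g, hg⟩ := exists_ne_one_of_irreducible ρ hρ hk
    refine hg (MonoidHom.mem_ker.mp (?_ : g ∈ ρ.ker))
    suffices ρ.ker = ⊤ by rw [this]; trivial
    set K := ρ.ker with hK
    have := isSimpleGroup_PSU C hn hex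
    have hnZ : D.nEl S₁ ∉ Subgroup.center (Cfsg.SU n F q) := by
      intro hz
      obtain ⟨c, hc⟩ := CfsgLib.Unitary.scalar_of_commute q C.card hn (D.nMat S₁) fun x =>
        congrArg (fun y : Cfsg.SU n F q => ((y : Matrix.SpecialLinearGroup (Fin n) F) : Matrix (Fin n) (Fin n) F))
          (Subgroup.mem_center_iff.1 hz x)
      have h2 := congrArg (fun M => ct C D.P * (M * D.P)) hc
      simp only [SFrame.nMat, Matrix.add_mul, Matrix.mul_add, Matrix.one_mul, Matrix.mul_assoc, D.EP, D.PP,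
        D.PE', Matrix.mul_one, Matrix.smul_mul, Matrix.mul_smul, zero_add, smul_zero] at h2
      exact hS₁ h2
    rcases Subgroup.Normal.eq_bot_or_eq_top (Subgroup.Normal.map (MonoidHom.normal_ker ρ)
      (QuotientGroup.mk' (Subgroup.center (Cfsg.SU n F q))) (QuotientGroup.mk'_surjective _)) with hb | ht'
    · exfalso
      refine hnZ ((QuotientGroup.eq_one_iff _).mp ?_)
      exact Subgroup.mem_bot.mp (hb ▸ Subgroup.mem_map_of_mem _ (MonoidHom.mem_ker.mpr h1))
    · rw [eq_top_iff, ← commutator_eq_top C hn hex, commutator_def, Subgroup.commutator_le]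
      intro a _ b _
      obtain ⟨k, hk', hka⟩ : (a : Cfsg.PSU n F q) ∈
          K.map (QuotientGroup.mk' (Subgroup.center (Cfsg.SU n F q))) := by
        rw [ht']; trivial
      have hz : k⁻¹ * a ∈ Subgroup.center (Cfsg.SU n F q) := QuotientGroup.eq.mp hka
      have e : ⁅a, b⁆ = k * (b * k⁻¹ * b⁻¹) := by
        rw [commutatorElement_def]
        have hzb : (k⁻¹ * a) * b = b * (k⁻¹ * a) := (Subgroup.mem_center_iff.mp hz b).symm
        calc a * b * a⁻¹ * b⁻¹ = k * ((k⁻¹ * a) * b) * a⁻¹ * b⁻¹ := by group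
          _ = _ := by rw [hzb]; group
      rw [e]
      exact K.mul_mem hk' ((MonoidHom.normal_ker ρ).conj_mem _ (K.inv_mem hk') b)
  -- an eigencharacter
  set T : skewMat C m → Module.End ℂ V := fun S => ρ (D.nEl S) with hT
  obtain ⟨ψ, hψ, w₀, hw₀, hw₀ψ⟩ := exists_eigen T (by simp [hT, D.nEl_zero])
    (fun S S' => by simp [hT, D.nEl_add]) hne
  obtain ⟨a₀, v₀, ha₀⟩ := exists_sk2_ne_one C hψ
  let W : Submodule ℂ V := ⨅ S, LinearMap.ker (T S - ψ S • 1)
  have hW : ∀ x, x ∈ W ↔ ∀ S, T S x = ψ S • x := fun x => by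
    simp [W, Submodule.mem_iInf, sub_eq_zero]
  have hdim : q ^ r ≤ Module.finrank ℂ W := by
    have hWne : Nontrivial W := ⟨⟨w₀, (hW _).mpr hw₀ψ⟩, 0, fun e => hw₀ (congrArg Subtype.val e)⟩
    rcases Nat.eq_zero_or_pos r with rfl | hr0
    · rw [pow_zero]; exact Module.finrank_pos
    obtain rfl : r = 1 := by omega
    let Y : F → Matrix (Fin m) (Fin 1) F := fun a => Matrix.of fun i _ => a * v₀ i
    have hinv : ∀ a, ∀ x ∈ W, ρ (D.uEl t ht (Y a)) x ∈ W := fun a x hx => (hW _).mpr fun S => by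
      show ρ (D.nEl S) (ρ _ x) = _
      rw [← Module.End.mul_apply, ← map_mul, D.uEl_nEl, map_mul, Module.End.mul_apply,
        show ρ (D.nEl S) x = ψ S • x from (hW x).mp hx S, map_smul]
    let U : F → Module.End ℂ W := fun a => (ρ (D.uEl t ht (Y a))).restrict (hinv a)
    have hUinj : ∀ a, Function.Injective (U a) := by
      intro a x y e
      have e' := congrArg (fun z => ρ (D.uEl t ht (Y a))⁻¹ z) (congrArg Subtype.val e)
      simp only [U, LinearMap.restrict_coe_apply, ← Module.End.mul_apply, ← map_mul, inv_mul_cancel,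
        map_one, Module.End.one_apply] at e'
      exact Subtype.ext e'
    have hUU : ∀ a b, U a * U b = ψ (sk2 C ((b * C.σ a) • v₀) v₀) • (U b * U a) := by
      intro a b
      refine LinearMap.ext fun x => Subtype.ext ?_
      show ρ _ (ρ _ x.1) = ψ _ • ρ _ (ρ _ x.1)
      rw [← Module.End.mul_apply, ← map_mul, D.uEl_comm t ht (Y a) (Y b) (sk2 C ((b * C.σ a) • v₀) v₀)
        (by
          ext i j
          simp [Y, sk2_apply, Matrix.mul_apply, ct_apply, C.invol]
          ring), map_mul, Module.End.mul_apply, map_mul, Module.End.mul_apply]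
      exact (hW _).mp (hinv b _ (hinv a _ x.2)) _
    let sh : F →+ skewMat C m :=
      AddMonoidHom.mk' (fun a => sk2 C (a • v₀) v₀) fun a b => by rw [add_smul, sk2_add]
    have hchar : ∀ a a' : F, ∑ b, ψ (sh (a * C.σ b)) * (ψ (sh (a' * C.σ b)))⁻¹ =
        if a = a' then (Fintype.card F : ℂ) else 0 := by
      intro a a'
      have e : ∀ b, ψ (sh (a * C.σ b)) * (ψ (sh (a' * C.σ b)))⁻¹ = ψ (sh ((a - a') * C.σ b)) := fun b => by
        rw [sub_mul, map_sub, AddChar.map_sub_eq_div, div_eq_mul_inv]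
      simp only [e]
      let η : AddChar F ℂ := ψ.compAddMonoidHom (sh.comp ((AddMonoidHom.mulLeft (a - a')).comp C.σ.toAddMonoidHom))
      show ∑ b, η b = _
      rw [AddChar.sum_eq_ite]
      refine if_congr ⟨fun hη => ?_, fun e => by subst e; ext b; simp [η]⟩ rfl rfl
      by_contra hne'
      refine ha₀ ?_
      have h1 := DFunLike.congr_fun hη (C.σ (a₀ / (a - a')))
      simpa [η, sh, C.invol, mul_div_cancel₀ _ (sub_ne_zero.mpr hne')] using h1
    have li : LinearIndependent ℂ U := by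
      rw [Fintype.linearIndependent_iff]
      intro c hc a'
      have h1 : ∀ b, ∑ a, (c a * ψ (sh (a * C.σ b))) • U a = 0 := by
        intro b
        have h2 : (∑ a, (c a * ψ (sh (a * C.σ b))) • U a) * U b = 0 := by
          rw [← mul_zero (U b), ← hc, Finset.sum_mul, Finset.mul_sum]
          refine Finset.sum_congr rfl fun a _ => ?_
          rw [smul_mul_assoc, mul_smul, mul_smul_comm]
          exact congrArg (fun z => c a • z) (hUU b a).symm
        refine LinearMap.ext fun x => ?_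
        obtain ⟨y, rfl⟩ := LinearMap.surjective_of_injective (hUinj b) x
        exact LinearMap.congr_fun h2 y
      have h3 : ∑ b, (ψ (sh (a' * C.σ b)))⁻¹ • ∑ a, (c a * ψ (sh (a * C.σ b))) • U a = 0 := by
        simp [h1]
      simp only [Finset.smul_sum, smul_smul] at h3
      rw [Finset.sum_comm] at h3
      simp only [← Finset.sum_smul] at h3
      rw [Finset.sum_eq_single a'] at h3
      · have e : ∑ b, (ψ (sh (a' * C.σ b)))⁻¹ * (c a' * ψ (sh (a' * C.σ b))) = c a' * (Fintype.card F : ℂ) := by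
          rw [← (hchar a' a').trans (if_pos rfl), Finset.mul_sum]
          exact Finset.sum_congr rfl fun b _ => by ring
        rw [e, smul_eq_zero, mul_eq_zero] at h3
        rcases h3 with (h3 | h3) | h3
        · exact h3
        · exact absurd h3 (Nat.cast_ne_zero.mpr Fintype.card_ne_zero)
        · exact absurd (hUinj a' (a₁ := ⟨w₀, (hW _).mpr hw₀ψ⟩) (a₂ := 0) (by rw [h3]; rfl))
            (fun e => hw₀ (congrArg Subtype.val e))
      · intro a _ hne'
        have e : ∑ b, (ψ (sh (a' * C.σ b)))⁻¹ * (c a * ψ (sh (a * C.σ b))) = c a * 0 := by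
          rw [← (hchar a a').trans (if_neg hne'), Finset.mul_sum]
          exact Finset.sum_congr rfl fun b _ => by ring
        rw [e, mul_zero, zero_smul]
      · simp
    have := li.fintype_card_le_finrank
    rw [C.card, Module.finrank_linearMap, ← sq] at this
    rw [pow_one]
    exact (Nat.pow_le_pow_iff_left two_ne_zero).mp this
  let bW := Module.finBasis ℂ W
  let w : Fin (Module.finrank ℂ W) → V := fun i => (bW i).1
  have hw : LinearIndependent ℂ w := bW.linearIndependent.map' W.subtype (Submodule.ker_subtype W)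
  have hwψ : ∀ i S, T S (w i) = ψ S • w i := fun i => (hW _).mp (bW i).2
  refine le_trans (Nat.mul_le_mul_right _ hdim) ?_
  -- the Levi factor
  let P : Matrix (Fin m) (Fin m) F → Prop := fun A => A.det ≠ 0 ∧ (r = 0 → A.det = 1)
  have hdet : ∀ (v u : Fin m → F), u ⬝ᵥ v = 0 → (1 + Matrix.vecMulVec v u).det = 1 := fun v u huv => by
    rw [Matrix.vecMulVec_eq Unit, Matrix.det_one_add_replicateCol_mul_replicateRow, huv, add_zero]
  refine skew_bound C hm T P ?_ ?_ ?_ ψ a₀ v₀ ha₀ _ w hw hwψ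
  · intro v v' hv hv'
    rcases Nat.lt_or_ge m 2 with hm1 | hm2
    · obtain rfl : m = 1 := by omega
      have hv0 : v 0 ≠ 0 := fun e => hv (funext fun i => by rw [Subsingleton.elim i 0]; exact e)
      have hv0' : v' 0 ≠ 0 := fun e => hv' (funext fun i => by rw [Subsingleton.elim i 0]; exact e)
      refine ⟨Matrix.of fun _ _ => v' 0 / v 0, ⟨?_, fun h0 => by omega⟩, funext fun i => ?_⟩
      · rw [Matrix.det_fin_one]; exact div_ne_zero hv0' hv0
      · rw [Subsingleton.elim i 0]
        simp [Matrix.mulVec, dotProduct, div_mul_cancel₀ _ hv0]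
    · have : Nontrivial (Fin m) := Fin.nontrivial_iff_two_le.mpr hm2
      obtain ⟨A, hA⟩ := CfsgLib.SLn.exists_smul_eq hv hv'
      exact ⟨A.1, ⟨by rw [A.2]; exact one_ne_zero, fun _ => A.2⟩, hA⟩
  · intro Z v u hZ huv
    show _ ≠ 0 ∧ (_ → _)
    rw [Matrix.det_mul, hdet v u huv, mul_one]
    exact hZ
  · intro A hA
    obtain ⟨B, hBA⟩ : ∃ B, B * A = 1 := ⟨A⁻¹, Matrix.nonsing_inv_mul _ (isUnit_iff_ne_zero.mpr hA.1)⟩
    have hdB : B.det * A.det = 1 := by rw [← Matrix.det_mul, hBA, Matrix.det_one]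
    set e : F := if r = 0 then 1 else C.σ A.det * B.det with he
    have hν : ct C (e • (1 : Matrix (Fin r) (Fin r) F)) * (e • 1) = 1 := by
      rw [ct_smul, ct_one, smul_mul_smul_comm, mul_one]
      have : C.σ e * e = 1 := by
        rw [he]
        split_ifs
        · simp
        · rw [map_mul, C.invol]
          have h2 : C.σ B.det * C.σ A.det = 1 := by rw [← map_mul, hdB, map_one]
          linear_combination C.σ B.det * C.σ A.det * hdB + h2
      rw [this, one_smul]
    have hd : A.det * C.σ B.det * (e • (1 : Matrix (Fin r) (Fin r) F)).det = 1 := by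
      rw [Matrix.det_smul, Matrix.det_one, Fintype.card_fin, mul_one, he]
      rcases Nat.eq_zero_or_pos r with rfl | hr0
      · rw [hA.2 rfl, one_mul] at *
        rw [show B.det = 1 by simpa [hA.2 rfl] using hdB]
        simp
      · obtain rfl : r = 1 := by omega
        rw [if_neg one_ne_zero, pow_one]
        have h2 : C.σ B.det * C.σ A.det = 1 := by rw [← map_mul, hdB, map_one]
        linear_combination C.σ B.det * C.σ A.det * hdB + h2
    set L := D.lEl A B _ hBA hν hd
    refine ⟨ρ L, ρ L⁻¹, by rw [← map_mul, mul_inv_cancel, map_one], by rw [← map_mul, inv_mul_cancel, map_one],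
      fun S => ?_⟩
    show ρ (D.nEl (congSkew C A S)) = ρ L * ρ (D.nEl S) * ρ L⁻¹
    rw [← map_mul, ← map_mul, D.lEl_conj, mul_inv_cancel_right]

end CfsgLib.MinDegree
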