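import Cfsg.Agent.MinDegree.Orbit
import Cfsg.Agent.SpGeom.Simple
set_option autoImplicit false

/-!
The irreducible constituent of degree `(q^n - 1)/2` of the Weil representation of `Sp_2n(q)`.
-/

namespace CfsgLib.MinDegree.Weil

open Matrix Finset

variable {F : Type*} [Field F] [Fintype F] [DecidableEq F] {n : ℕ}

local notation "W" => (Fin n ⊕ Fin n → F)
local notation "X" => (Fin n → F)
local notation "E" => Module.End ℂ ((Fin n → F) → ℂ)
local notation "Sp" => Matrix.symplecticGroup (Fin n) F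
local notation "ω" => Cfsg.sympForm n F
local notation "mat" A:max => ((A : Sp) : Matrix (Fin n ⊕ Fin n) (Fin n ⊕ Fin n) F)

variable (θ : AddChar F ℂ)

/-- The Schrödinger operators. -/
noncomputable def schr (v : W) : E where
  toFun f x := θ ((v ∘ Sum.inr) ⬝ᵥ x + (v ∘ Sum.inl) ⬝ᵥ (v ∘ Sum.inr) / 2) * f (x + v ∘ Sum.inl)
  map_add' f g := funext fun x => mul_add _ _ _
  map_smul' c f := funext fun x => by simp; ring

theorem schr_apply (v : W) (f : X → ℂ) (x : X) : schr θ v f x =
    θ ((v ∘ Sum.inr) ⬝ᵥ x + (v ∘ Sum.inl) ⬝ᵥ (v ∘ Sum.inr) / 2) * f (x + v ∘ Sum.inl) := rfl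

theorem form_eq (v w : W) :
    ω v w = (v ∘ Sum.inr) ⬝ᵥ (w ∘ Sum.inl) - (v ∘ Sum.inl) ⬝ᵥ (w ∘ Sum.inr) := by
  rw [CfsgLib.SpGeom.form_def, Finset.sum_sub_distrib]; rfl

theorem schr_mul (h2 : (2 : F) ≠ 0) (v w : W) :
    schr θ v * schr θ w = θ (-(ω v w / 2)) • schr θ (v + w) := by
  refine LinearMap.ext fun f => funext fun x => ?_
  rw [Module.End.mul_apply, schr_apply, schr_apply, LinearMap.smul_apply, Pi.smul_apply, smul_eq_mul,
    schr_apply, ← mul_assoc, ← mul_assoc, ← AddChar.map_add_eq_mul, ← AddChar.map_add_eq_mul]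
  congr 2
  · have e1 : (v + w) ∘ Sum.inl = v ∘ Sum.inl + w ∘ Sum.inl := rfl
    have e2 : (v + w) ∘ Sum.inr = v ∘ Sum.inr + w ∘ Sum.inr := rfl
    rw [form_eq, e1, e2]
    simp only [dotProduct_add, add_dotProduct]
    rw [dotProduct_comm (v ∘ Sum.inr) (w ∘ Sum.inl), dotProduct_comm (w ∘ Sum.inr) (v ∘ Sum.inl)]
    field_simp
    ring
  · rw [show (v + w) ∘ Sum.inl = v ∘ Sum.inl + w ∘ Sum.inl from rfl, add_assoc]

theorem schr_zero : schr θ (0 : W) = 1 := by
  refine LinearMap.ext fun f => funext fun x => ?_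
  rw [schr_apply, Module.End.one_apply]
  rw [show (0 : W) ∘ Sum.inr = 0 from rfl, show (0 : W) ∘ Sum.inl = 0 from rfl]
  simp

theorem schr_mul_neg (h2 : (2 : F) ≠ 0) (v : W) : schr θ v * schr θ (-v) = 1 := by
  rw [schr_mul θ h2, add_neg_cancel, schr_zero, ← neg_one_smul F v, CfsgLib.SpGeom.form_smul_right,
    CfsgLib.SpGeom.form_self, mul_zero, zero_div, neg_zero, AddChar.map_zero_eq_one, one_smul]

variable (hθ : θ ≠ 0)
include hθ

theorem sum_char (y : X) :
    ∑ b : X, θ (b ⬝ᵥ y) = if y = 0 then (Fintype.card F : ℂ) ^ n else 0 := by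
  by_cases hy : y = 0
  · simp [hy]
  rw [if_neg hy]
  let φ : AddChar X ℂ := θ.compAddMonoidHom (AddMonoidHom.mk' (fun b => b ⬝ᵥ y) fun a b => add_dotProduct _ _ _)
  show ∑ b, φ b = 0
  rw [AddChar.sum_eq_zero_iff_ne_zero]
  intro h
  obtain ⟨i, hi⟩ := Function.ne_iff.mp hy
  refine hθ (DFunLike.ext _ _ fun c => ?_)
  have h1 := DFunLike.congr_fun h (Pi.single i (c / y i))
  simp only [φ, AddChar.compAddMonoidHom_apply, AddMonoidHom.mk'_apply, single_dotProduct,
    AddChar.zero_apply] at h1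
  rwa [div_mul_cancel₀ c hi] at h1

theorem trace_schr (h2 : (2 : F) ≠ 0) (v : W) :
    LinearMap.trace ℂ _ (schr θ v) = if v = 0 then (Fintype.card F : ℂ) ^ n else 0 := by
  have key : LinearMap.trace ℂ _ (schr θ v) =
      ∑ x : X, θ ((v ∘ Sum.inr) ⬝ᵥ x + (v ∘ Sum.inl) ⬝ᵥ (v ∘ Sum.inr) / 2) *
        (if x + v ∘ Sum.inl = x then 1 else 0) := by
    rw [LinearMap.trace_eq_matrix_trace ℂ (Pi.basisFun ℂ X)]
    refine Finset.sum_congr rfl fun x _ => ?_
    rw [Matrix.diag_apply, LinearMap.toMatrix_apply, Pi.basisFun_apply, Pi.basisFun_repr, schr_apply,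
      Pi.single_apply]
  rw [key]
  by_cases ha : v ∘ Sum.inl = 0
  · simp only [ha, zero_dotProduct, zero_div, add_zero, if_true, mul_one]
    simp_rw [dotProduct_comm (v ∘ Sum.inr)]
    rw [sum_char θ hθ]
    refine if_congr ⟨fun hb => funext fun i => ?_, fun h => by subst h; rfl⟩ rfl rfl
    rcases i with i | i
    · exact congrFun ha i
    · exact congrFun hb i
  · rw [if_neg (by rintro rfl; exact ha rfl)]
    exact Finset.sum_eq_zero fun x _ => by rw [if_neg (by simpa using ha), mul_zero]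

theorem li_schr (h2 : (2 : F) ≠ 0) : LinearIndependent ℂ (fun v : W => schr θ v) := by
  rw [Fintype.linearIndependent_iff]
  intro a ha w
  have h1 := congrArg (fun M => LinearMap.trace ℂ _ (schr θ (-w) * M)) ha
  simp only [Finset.mul_sum, mul_smul_comm, schr_mul θ h2, map_sum, map_smul, trace_schr θ hθ h2,
    mul_zero, map_zero] at h1
  rw [Finset.sum_eq_single w] at h1
  · rw [if_pos (neg_add_cancel w), smul_eq_mul, smul_eq_mul, mul_eq_zero, mul_eq_zero] at h1
    rcases h1 with h1 | h1 | h1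
    · exact h1
    · exact absurd h1 (θ.val_isUnit _).ne_zero
    · exact absurd h1 (pow_ne_zero _ (Nat.cast_ne_zero.mpr Fintype.card_ne_zero))
  · intro v _ hv
    rw [if_neg (fun h => hv (neg_inj.mp (eq_neg_of_add_eq_zero_left h)).symm), smul_zero, smul_zero]
  · simp

theorem span_schr (h2 : (2 : F) ≠ 0) : Submodule.span ℂ (Set.range fun v : W => schr θ v) = ⊤ := by
  refine (li_schr θ hθ h2).span_eq_top_of_card_eq_finrank' ?_
  rw [Module.finrank_linearMap, Module.finrank_fintype_fun_eq_card]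
  simp [pow_add]

theorem scalar_of_commute (h2 : (2 : F) ≠ 0) (Y : E) (h : ∀ v, Y * schr θ v = schr θ v * Y) :
    ∃ c : ℂ, Y = c • 1 := by
  have hall : ∀ Z : E, Y * Z = Z * Y := by
    intro Z
    have hZ : Z ∈ Submodule.span ℂ (Set.range fun v : W => schr θ v) := by
      rw [span_schr θ hθ h2]; trivial
    induction hZ using Submodule.span_induction with
    | mem x hx => obtain ⟨v, rfl⟩ := hx; exact h v
    | zero => rw [mul_zero, zero_mul]
    | add a b _ _ ha hb => rw [mul_add, add_mul, ha, hb]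
    | smul c a _ ha => rw [mul_smul_comm, smul_mul_assoc, ha]
  refine ⟨Y (Pi.single 0 1) 0, LinearMap.ext fun u => ?_⟩
  have h1 := LinearMap.congr_fun (hall ((LinearMap.proj (0 : X)).smulRight u)) (Pi.single 0 1)
  simpa using h1

/-- `M` intertwines the Schrödinger representation with its twist by `g`. -/
def Twines (g : Sp) (M : E) : Prop := ∀ v, M * schr θ v = schr θ (mat g *ᵥ v) * M

theorem exists_twines (h2 : (2 : F) ≠ 0) (g : Sp) : ∃ M : E, IsUnit M ∧ Twines θ g M := by
  let MM : E → E := fun Z => ∑ v : W, schr θ (mat g *ᵥ v) * Z * schr θ (-v)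
  have htw : ∀ Z, Twines θ g (MM Z) := by
    intro Z u
    simp only [MM, Finset.sum_mul, Finset.mul_sum]
    refine Fintype.sum_equiv (Equiv.subRight u) _ _ fun v => ?_
    rw [Equiv.subRight_apply, mul_assoc, schr_mul θ h2, mul_smul_comm, ← mul_assoc, ← mul_assoc,
      schr_mul θ h2, smul_mul_assoc, smul_mul_assoc, ← Matrix.mulVec_add, add_sub_cancel]
    congr 2
    · congr 2
      rw [CfsgLib.SpGeom.form_mulVec, ← neg_one_smul F v, CfsgLib.SpGeom.form_smul_left,
        CfsgLib.SpGeom.form_sub_right, CfsgLib.SpGeom.form_self, CfsgLib.SpGeom.form_skew u v]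
      ring
    · congr 1; abel
  have hinj : Function.Injective fun v : W => mat g *ᵥ v := by
    intro a b hab
    have := congrArg (fun x => mat g⁻¹ *ᵥ x) hab
    simp only [Matrix.mulVec_mulVec, ← Submonoid.coe_mul, inv_mul_cancel, OneMemClass.coe_one,
      Matrix.one_mulVec] at this
    exact this
  obtain ⟨Z, hZ⟩ : ∃ Z, MM Z ≠ 0 := by
    by_contra hno
    push Not at hno
    have hli := (li_schr θ hθ h2).comp _ hinj
    rw [Fintype.linearIndependent_iff] at hli
    have h1 := hli (fun v => schr θ (-v) (Pi.single 0 1) 0) (LinearMap.ext fun u => ?_) 0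
    · rw [neg_zero, schr_zero, Module.End.one_apply, Pi.single_eq_same] at h1
      exact one_ne_zero h1
    · have h1 := LinearMap.congr_fun (hno ((LinearMap.proj (0 : X)).smulRight u)) (Pi.single 0 1)
      simpa [MM, LinearMap.sum_apply, map_smul] using h1
  refine ⟨MM Z, ?_, htw Z⟩
  rw [LinearMap.isUnit_iff_ker_eq_bot, Submodule.eq_bot_iff]
  intro f hf
  by_contra hf0
  obtain ⟨x₀, hx₀⟩ := Function.ne_iff.mp hf0
  refine hZ (LinearMap.ext fun u => ?_)
  have hall : ∀ T : E, MM Z (T f) = 0 := by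
    intro T
    have hT : T ∈ Submodule.span ℂ (Set.range fun v : W => schr θ v) := by
      rw [span_schr θ hθ h2]; trivial
    induction hT using Submodule.span_induction with
    | mem x hx =>
      obtain ⟨v, rfl⟩ := hx
      rw [← Module.End.mul_apply, htw Z v, Module.End.mul_apply, LinearMap.mem_ker.mp hf, map_zero]
    | zero => rw [LinearMap.zero_apply, map_zero]
    | add a b _ _ ha hb => rw [LinearMap.add_apply, map_add, ha, hb, add_zero]
    | smul c a _ ha => rw [LinearMap.smul_apply, map_smul, ha, smul_zero]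
  have h1 := hall ((LinearMap.proj x₀).smulRight ((f x₀)⁻¹ • u))
  rw [LinearMap.smulRight_apply, LinearMap.proj_apply, smul_smul, mul_inv_cancel₀ (by simpa using hx₀),
    one_smul] at h1
  exact h1

theorem twines_unique (h2 : (2 : F) ≠ 0) (g : Sp) {M M' : E} (hM : IsUnit M) (h : Twines θ g M)
    (h' : Twines θ g M') : ∃ c : ℂ, M' = c • M := by
  obtain ⟨u, rfl⟩ := hM
  obtain ⟨c, hc⟩ := scalar_of_commute θ hθ h2 (((u⁻¹ : (Module.End ℂ ((Fin n → F) → ℂ))ˣ) : E) * M') fun v => by
    rw [mul_assoc, h' v, ← mul_assoc, ← mul_assoc]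
    congr 1
    rw [Units.inv_mul_eq_iff_eq_mul, ← mul_assoc, h v, Units.mul_inv_cancel_right]
  refine ⟨c, ?_⟩
  rw [Units.inv_mul_eq_iff_eq_mul, mul_smul_comm, mul_one] at hc
  exact hc

omit hθ in
/-- The parity operator. -/
noncomputable def parity : E := LinearMap.funLeft ℂ ℂ (fun x : X => -x)

theorem parity_schr (v : W) : parity * schr θ v * parity = schr θ (-v) := by
  refine LinearMap.ext fun f => funext fun x => ?_
  simp only [Module.End.mul_apply, parity, LinearMap.funLeft_apply, schr_apply]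
  have e1 : (-v) ∘ Sum.inl = -(v ∘ Sum.inl) := rfl
  have e2 : (-v) ∘ Sum.inr = -(v ∘ Sum.inr) := rfl
  rw [e1, e2]
  simp [dotProduct_neg, neg_dotProduct, add_comm]

omit hθ in
theorem parity_sq : (parity : E) * parity = 1 := by
  refine LinearMap.ext fun f => funext fun x => ?_
  simp [Module.End.mul_apply, parity, LinearMap.funLeft_apply]

theorem sum_schr (h2 : (2 : F) ≠ 0) :
    ∑ v : W, schr θ v = ((Fintype.card F : ℂ) ^ n) • parity := by
  refine LinearMap.ext fun f => funext fun x => ?_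
  rw [LinearMap.sum_apply, Finset.sum_apply, LinearMap.smul_apply, Pi.smul_apply, smul_eq_mul]
  simp only [schr_apply, parity, LinearMap.funLeft_apply]
  rw [← (Equiv.sumArrowEquivProdArrow (Fin n) (Fin n) F).symm.sum_comp, Fintype.sum_prod_type,
    Finset.sum_eq_single ((-2 : F) • x)]
  · have e : ∀ b : X, θ (((Equiv.sumArrowEquivProdArrow (Fin n) (Fin n) F).symm ((-2 : F) • x, b)) ∘ Sum.inr ⬝ᵥ x +
        ((Equiv.sumArrowEquivProdArrow (Fin n) (Fin n) F).symm ((-2 : F) • x, b) ∘ Sum.inl) ⬝ᵥ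
        ((Equiv.sumArrowEquivProdArrow (Fin n) (Fin n) F).symm ((-2 : F) • x, b) ∘ Sum.inr) / 2) = 1 := by
      intro b
      rw [show (Equiv.sumArrowEquivProdArrow (Fin n) (Fin n) F).symm ((-2 : F) • x, b) ∘ Sum.inr = b from rfl,
        show (Equiv.sumArrowEquivProdArrow (Fin n) (Fin n) F).symm ((-2 : F) • x, b) ∘ Sum.inl = (-2 : F) • x from rfl,
        smul_dotProduct, dotProduct_comm b x, smul_eq_mul]
      rw [show x ⬝ᵥ b + -2 * (x ⬝ᵥ b) / 2 = 0 by field_simp; ring, AddChar.map_zero_eq_one]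
    simp only [e, one_mul]
    simp only [show ∀ b : X, (Equiv.sumArrowEquivProdArrow (Fin n) (Fin n) F).symm ((-2 : F) • x, b) ∘ Sum.inl =
      (-2 : F) • x from fun b => rfl]
    simp only [Finset.sum_const, Finset.card_univ, Fintype.card_fun, Fintype.card_fin, nsmul_eq_mul]
    rw [show x + (-2 : F) • x = -x by module]
    push_cast
    rfl
  · intro a _ ha
    have e : ∀ b : X, ((Equiv.sumArrowEquivProdArrow (Fin n) (Fin n) F).symm (a, b)) ∘ Sum.inr ⬝ᵥ x +
        ((Equiv.sumArrowEquivProdArrow (Fin n) (Fin n) F).symm (a, b) ∘ Sum.inl) ⬝ᵥ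
        ((Equiv.sumArrowEquivProdArrow (Fin n) (Fin n) F).symm (a, b) ∘ Sum.inr) / 2 =
        b ⬝ᵥ ((2 : F)⁻¹ • (a - (-2 : F) • x)) := by
      intro b
      show b ⬝ᵥ x + a ⬝ᵥ b / 2 = _
      rw [dotProduct_smul, dotProduct_sub, dotProduct_smul, dotProduct_comm a b, smul_eq_mul, smul_eq_mul]
      field_simp; ring
    simp only [e]
    rw [show (fun b : X => θ (b ⬝ᵥ ((2 : F)⁻¹ • (a - (-2 : F) • x))) *
      f (x + (Equiv.sumArrowEquivProdArrow (Fin n) (Fin n) F).symm (a, b) ∘ Sum.inl)) =
      fun b => θ (b ⬝ᵥ ((2 : F)⁻¹ • (a - (-2 : F) • x))) * f (x + a) from rfl,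
      ← Finset.sum_mul, sum_char θ hθ, if_neg, zero_mul]
    exact smul_ne_zero (inv_ne_zero h2) (sub_ne_zero.mpr ha)
  · simp

theorem weil_exists (hn : 0 < n) (hodd : (2 : F) ≠ 0) :
    ∃ ρ : Representation ℂ Sp (Fin ((Fintype.card F ^ n - 1) / 2) → ℂ),
      ρ.IsIrreducible := by
  classical
  choose π hπu hπ using exists_twines θ hθ hodd (n := n)
  set P : E := parity with hPdef
  have hPP : P * P = 1 := parity_sq
  -- the eigenspaces of the parity operator
  set Vp : Submodule ℂ (X → ℂ) := LinearMap.ker (P - 1) with hVp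
  set Vm : Submodule ℂ (X → ℂ) := LinearMap.ker (P + 1) with hVm
  have hmemp : ∀ f, f ∈ Vp ↔ P f = f := fun f => by simp [hVp, sub_eq_zero]
  have hmemm : ∀ f, f ∈ Vm ↔ P f = -f := fun f => by simp [hVm, add_eq_zero_iff_eq_neg]
  have hPf : ∀ f, P (P f) = f := fun f => LinearMap.congr_fun hPP f
  have hprojp : LinearMap.IsProj Vp ((2 : ℂ)⁻¹ • (1 + P)) :=
    ⟨fun f => (hmemp _).mpr (by simp [hPf, add_comm]), fun f hf => by
      simp [(hmemp f).mp hf]; module⟩
  have hprojm : LinearMap.IsProj Vm ((2 : ℂ)⁻¹ • (1 - P)) :=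
    ⟨fun f => (hmemm _).mpr (by simp [hPf, ← smul_neg]), fun f hf => by
      simp [(hmemm f).mp hf]; module⟩
  have htrP : LinearMap.trace ℂ _ P = 1 := by
    rw [LinearMap.trace_eq_matrix_trace ℂ (Pi.basisFun ℂ X)]
    refine (Finset.sum_eq_single (0 : X) (fun x _ hx => ?_) (by simp)).trans ?_
    · rw [Matrix.diag_apply, LinearMap.toMatrix_apply, Pi.basisFun_apply, Pi.basisFun_repr]
      show Pi.single (M := fun _ => ℂ) x (1 : ℂ) (-x) = 0
      rw [Pi.single_apply, if_neg]
      intro h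
      refine hx (funext fun i => ?_)
      have := congrFun h i
      simp only [Pi.neg_apply] at this
      have h2x : (2 : F) * x i = 0 := by linear_combination -this
      simpa [hodd] using h2x
    · rw [Matrix.diag_apply, LinearMap.toMatrix_apply, Pi.basisFun_apply, Pi.basisFun_repr]
      simp [hPdef, parity, LinearMap.funLeft_apply]
  have hdim : (Module.finrank ℂ Vp : ℂ) * 2 = (Fintype.card F : ℂ) ^ n + 1 ∧
      (Module.finrank ℂ Vm : ℂ) * 2 = (Fintype.card F : ℂ) ^ n - 1 := by
    constructor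
    · rw [← hprojp.trace, map_smul, map_add, LinearMap.trace_one, htrP, Module.finrank_fintype_fun_eq_card]
      simp; ring
    · rw [← hprojm.trace, map_smul, map_sub, LinearMap.trace_one, htrP, Module.finrank_fintype_fun_eq_card]
      simp; ring
  have hdiff : Module.finrank ℂ Vp = Module.finrank ℂ Vm + 1 := by
    have h : (Module.finrank ℂ Vp : ℂ) = ((Module.finrank ℂ Vm + 1 : ℕ) : ℂ) := by
      push_cast; linear_combination (hdim.1 - hdim.2) / 2
    exact_mod_cast h
  have hk : Module.finrank ℂ Vm = (Fintype.card F ^ n - 1) / 2 := by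
    have h : ((Fintype.card F ^ n : ℕ) : ℂ) = ((2 * Module.finrank ℂ Vm + 1 : ℕ) : ℂ) := by
      push_cast; linear_combination -hdim.2
    rw [Nat.cast_inj] at h
    omega
  -- the intertwiners commute with parity
  have hπP : ∀ g, P * π g = π g * P := by
    intro g
    have htw : Twines θ g (P * π g * P) := by
      intro v
      have e1 : P * schr θ v = schr θ (-v) * P := by
        rw [← parity_schr θ hθ v, mul_assoc (P * schr θ v), ← hPdef, hPP, mul_one]
      have e2 : P * schr θ (mat g *ᵥ -v) = schr θ (mat g *ᵥ v) * P := by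
        rw [← neg_neg (mat g *ᵥ v), ← Matrix.mulVec_neg, ← parity_schr θ hθ (mat g *ᵥ -v),
          mul_assoc (P * schr θ _), ← hPdef, hPP, mul_one]
      rw [mul_assoc, e1, ← mul_assoc, mul_assoc P, hπ g, ← mul_assoc, e2]
      simp only [mul_assoc]
    obtain ⟨c, hc⟩ := twines_unique θ hθ hodd g (hπu g) (hπ g) htw
    have hc2 : π g = (c * c) • π g := by
      conv_lhs => rw [show π g = P * (P * π g * P) * P by
        rw [← mul_assoc, ← mul_assoc, hPP, one_mul, mul_assoc, hPP, mul_one]]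
      rw [hc, mul_smul_comm, smul_mul_assoc, hc, smul_smul]
    have hne : π g ≠ 0 := (hπu g).ne_zero
    have hcc : c * c = 1 := by
      have h : (c * c - 1) • π g = 0 :=
        (sub_smul (M := E) (c * c) 1 (π g)).trans (by rw [one_smul, ← hc2, sub_self])
      exact sub_eq_zero.mp ((smul_eq_zero.mp h).resolve_right hne)
    have hcomm : P * π g = c • (π g * P) := by
      rw [← smul_mul_assoc, ← hc, mul_assoc _ P P, hPP, mul_one]
    rcases mul_self_eq_one_iff.mp hcc with rfl | rfl
    · rw [hcomm, one_smul]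
    exfalso
    have hmap : ∀ f ∈ Vp, π g f ∈ Vm := fun f hf => (hmemm _).mpr (by
      have := LinearMap.congr_fun hcomm f
      simpa [(hmemp f).mp hf] using this)
    have hle := LinearMap.finrank_le_finrank_of_injective (f := (π g).restrict hmap) (by
      intro a b hab
      exact Subtype.ext (((Module.End.isUnit_iff _).mp (hπu g)).injective (congrArg Subtype.val hab)))
    omega
  have hinvm : ∀ g, ∀ f ∈ Vm, π g f ∈ Vm := fun g f hf => (hmemm _).mpr (by
    rw [← Module.End.mul_apply, hπP, Module.End.mul_apply, (hmemm f).mp hf, map_neg])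
  have hinvp : ∀ g, ∀ f ∈ Vp, π g f ∈ Vp := fun g f hf => (hmemp _).mpr (by
    rw [← Module.End.mul_apply, hπP, Module.End.mul_apply, (hmemp f).mp hf])
  let dp : Sp → ℂ := fun g => LinearMap.det ((π g).restrict (hinvp g))
  let dm : Sp → ℂ := fun g => LinearMap.det ((π g).restrict (hinvm g))
  let α : Sp → ℂ := fun g => dp g / dm g
  have hd : ∀ g, dp g ≠ 0 ∧ dm g ≠ 0 := by
    intro g
    constructor
    all_goals
      refine (LinearMap.isUnit_det _ ?_).ne_zero
      rw [LinearMap.isUnit_iff_ker_eq_bot, LinearMap.ker_eq_bot]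
      intro a b hab
      exact Subtype.ext (((Module.End.isUnit_iff _).mp (hπu g)).injective (congrArg Subtype.val hab))
  have hmul : ∀ g h, ((α g)⁻¹ • π g) * ((α h)⁻¹ • π h) = (α (g * h))⁻¹ • π (g * h) := by
    intro g h
    obtain ⟨c, hc⟩ := twines_unique θ hθ hodd (g * h) (hπu _) (hπ _) (M' := π g * π h) (fun v => by
      rw [mul_assoc, hπ h, ← mul_assoc, hπ g, mul_assoc, Submonoid.coe_mul, ← Matrix.mulVec_mulVec])
    have ep : dp g * dp h = c ^ Module.finrank ℂ Vp * dp (g * h) := by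
      simp only [dp]
      rw [← map_mul, ← LinearMap.det_smul]
      congr 1
      refine LinearMap.ext fun f => Subtype.ext ?_
      exact LinearMap.congr_fun hc f.1
    have em : dm g * dm h = c ^ Module.finrank ℂ Vm * dm (g * h) := by
      simp only [dm]
      rw [← map_mul, ← LinearMap.det_smul]
      congr 1
      refine LinearMap.ext fun f => Subtype.ext ?_
      exact LinearMap.congr_fun hc f.1
    have hc0 : c ≠ 0 := by
      rintro rfl
      rw [zero_smul] at hc
      exact ((hπu g).mul (hπu h)).ne_zero hc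
    rw [smul_mul_smul_comm, hc, smul_smul]
    congr 1
    simp only [α]
    rw [inv_div, inv_div, inv_div, div_mul_div_comm, em, ep, hdiff, pow_succ]
    field_simp [(hd (g * h)).1, (hd (g * h)).2]
  have hα0 : ∀ g, (α g)⁻¹ ≠ 0 := fun g => inv_ne_zero (div_ne_zero (hd g).1 (hd g).2)
  have hone : (α 1)⁻¹ • π 1 = 1 := by
    have h := hmul 1 1
    rw [mul_one] at h
    have hu : IsUnit ((α 1)⁻¹ • π 1) := by
      have e : (α 1)⁻¹ • π 1 = algebraMap ℂ E (α 1)⁻¹ * π 1 := Algebra.smul_def _ _
      rw [e]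
      exact ((isUnit_iff_ne_zero.mpr (hα0 1)).map _).mul (hπu 1)
    exact hu.mul_left_cancel (h.trans (mul_one _).symm)
  let ρ0 : Representation ℂ Sp Vm :=
    { toFun := fun g => ((α g)⁻¹ • π g).restrict fun f hf => Vm.smul_mem _ (hinvm g f hf)
      map_one' := LinearMap.ext fun f => Subtype.ext (by
        show ((α 1)⁻¹ • π 1) f.1 = f.1
        rw [hone]; rfl)
      map_mul' := fun g h => LinearMap.ext fun f => Subtype.ext (LinearMap.congr_fun (hmul g h).symm f.1) }
  have hscal : ∀ Y : Module.End ℂ Vm, (∀ g, Y * ρ0 g = ρ0 g * Y) → ∃ c : ℂ, Y = c • 1 := by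
    intro Y hY
    let Y' : E := Vm.subtype ∘ₗ Y ∘ₗ hprojm.codRestrict
    have hY' : ∀ f, Y' f = (Y (hprojm.codRestrict f)).1 := fun f => rfl
    have hcod : ∀ (g : Sp) f, hprojm.codRestrict (π g f) = (π g).restrict (hinvm g) (hprojm.codRestrict f) := by
      intro g f
      refine Subtype.ext ?_
      show ((2 : ℂ)⁻¹ • (1 - P)) (π g f) = π g (((2 : ℂ)⁻¹ • (1 - P)) f)
      simp [show P (π g f) = π g (P f) from LinearMap.congr_fun (hπP g) f]
    have hcomm : ∀ g, Y' * π g = π g * Y' := by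
      intro g
      refine LinearMap.ext fun f => ?_
      rw [Module.End.mul_apply, Module.End.mul_apply, hY', hY', hcod]
      set y := hprojm.codRestrict f
      have h := congrArg Subtype.val (LinearMap.congr_fun (hY g) y)
      have e : ∀ z : Vm, ρ0 g z = (α g)⁻¹ • (π g).restrict (hinvm g) z := fun z => Subtype.ext rfl
      rw [Module.End.mul_apply, Module.End.mul_apply, e, e, map_smul] at h
      simp only [Submodule.coe_smul] at h
      exact (smul_right_injective _ (hα0 g) h)
    obtain ⟨a, ha⟩ := (Submodule.mem_span_range_iff_exists_fun ℂ).mp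
      (show Y' ∈ Submodule.span ℂ (Set.range fun v : W => schr θ v) by
        rw [span_schr θ hθ hodd]; trivial)
    have hinv : ∀ (g : Sp) v, a (mat g *ᵥ v) = a v := by
      intro g v
      let e : W ≃ W :=
        { toFun := fun v => mat g *ᵥ v
          invFun := fun v => mat g⁻¹ *ᵥ v
          left_inv := fun v => by simp [Matrix.mulVec_mulVec, ← Submonoid.coe_mul]
          right_inv := fun v => by simp [Matrix.mulVec_mulVec, ← Submonoid.coe_mul] }
      have e1 : (∑ w, a w • schr θ w) * π g = π g * (∑ w, a w • schr θ w) := by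
        rw [ha]; exact hcomm g
      have e2 : (∑ w, a (e w) • schr θ (e w)) * π g = (∑ w, a w • schr θ (e w)) * π g := by
        rw [e.sum_comp (fun w => a w • schr θ w), e1, Finset.mul_sum, Finset.sum_mul]
        refine Finset.sum_congr rfl fun w _ => ?_
        rw [mul_smul_comm, hπ g, smul_mul_assoc]; rfl
      have e3 := (hπu g).mul_right_cancel e2
      rw [← sub_eq_zero, ← Finset.sum_sub_distrib] at e3
      rw [Finset.sum_congr rfl fun w _ => (sub_smul (M := E) (a (e w)) (a w) (schr θ (e w))).symm] at e3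
      have hli := (li_schr θ hθ hodd).comp _ e.injective
      exact sub_eq_zero.mp (Fintype.linearIndependent_iff.mp hli _ e3 v)
    let v1 : W := Pi.single (Sum.inl ⟨0, hn⟩) 1
    have hform : Y' = (a 0 - a v1) • 1 + a v1 • (((Fintype.card F : ℂ) ^ n) • P) := by
      rw [← ha, hPdef, ← sum_schr θ hθ hodd, Finset.smul_sum, ← sub_eq_iff_eq_add, ← Finset.sum_sub_distrib,
        Finset.sum_eq_single (0 : W)]
      · rw [schr_zero]; module
      · intro v _ hv
        obtain ⟨g, hg⟩ := CfsgLib.SpGeom.exists_mulVec_eq (u := v1) (Pi.single_ne_zero_iff.2 one_ne_zero) hv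
        rw [← hg, hinv, sub_self]
      · simp
    refine ⟨(a 0 - a v1) - a v1 * (Fintype.card F : ℂ) ^ n, LinearMap.ext fun y => Subtype.ext ?_⟩
    have h1 : hprojm.codRestrict y.1 = y := hprojm.codRestrict_apply_cod y
    have h2 := LinearMap.congr_fun hform y.1
    rw [hY', h1] at h2
    simp [(hmemm y.1).mp y.2] at h2
    simp [h2]
    module
  let b : Vm ≃ₗ[ℂ] (Fin ((Fintype.card F ^ n - 1) / 2) → ℂ) :=
    LinearEquiv.ofFinrankEq _ _ (by rw [hk]; simp)
  let ρ : Representation ℂ Sp (Fin ((Fintype.card F ^ n - 1) / 2) → ℂ) :=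
    { toFun := fun g => b.conj (ρ0 g)
      map_one' := by rw [map_one]; exact LinearEquiv.conj_id b
      map_mul' := fun g h => by rw [map_mul]; exact LinearEquiv.conj_comp b _ _ }
  have : Nonempty (Fin ((Fintype.card F ^ n - 1) / 2)) := by
    refine ⟨⟨0, ?_⟩⟩
    have h3 : 3 ≤ Fintype.card F := by
      have := Fintype.two_lt_card_iff.mpr ⟨(0 : F), 1, -1, zero_ne_one, (neg_ne_zero.mpr one_ne_zero).symm,
        fun h => hodd (by linear_combination h)⟩
      omega
    have : Fintype.card F ≤ Fintype.card F ^ n := Nat.le_self_pow (by omega) _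
    omega
  refine ⟨ρ, isIrreducible_of_scalar ρ fun Y hY => ?_⟩
  obtain ⟨c, hc⟩ := hscal (b.symm.conj Y) fun g => by
    have h := congrArg b.symm.conj (hY g)
    rw [Module.End.mul_eq_comp, Module.End.mul_eq_comp, LinearEquiv.conj_comp, LinearEquiv.conj_comp] at h
    have e : b.symm.conj (ρ g) = ρ0 g := LinearMap.ext fun y => by simp [ρ, LinearEquiv.conj_apply]
    rwa [e] at h
  refine ⟨c, LinearMap.ext fun y => ?_⟩
  have h := congrArg (fun z => b z) (LinearMap.congr_fun hc (b.symm y))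
  simpa [LinearEquiv.conj_apply] using h

end CfsgLib.MinDegree.Weil
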